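import Cfsg.Agent.Lib.Fusion.CentralizerOfNormal
import Cfsg.Agent.Lib.Fusion.PPrimeKernel

/-!
The centralizer of a normal subsystem in `S` is strongly closed.
-/

set_option autoImplicit false

namespace Cfsg.Agent.Lib.Fusion.CentralizerOfNormal

open Cfsg Cfsg.FusionSystem
open Cfsg.Agent.Lib.Fusion.ResidualNormal (Cen)

variable {Ω : Type*} [Group Ω] {S T : Subgroup Ω} {F : FusionSystem S} {E : FusionSystem T}
  {p : ℕ}

/-- `y` is centralized by `E`. -/
def Cent (F : FusionSystem S) (E : FusionSystem T) (y : Ω) : Prop :=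
  y ∈ centralizerIn S T ∧ ∀ P : Subgroup Ω, E.Hom P ⊆ F.centralizerHom (Subgroup.zpowers y) P


variable [Finite S] [Fact p.Prime]

/-- An extension of an automorphism of `T` carries centralized elements to centralized elements. -/
theorem cent_transport (hE : E.IsNormalIn F p) {y : Ω} (hy : Cent F E y)
    {ψ : ↥(T ⊔ Subgroup.zpowers y) →* Ω} (hψ : ψ ∈ F.Hom (T ⊔ Subgroup.zpowers y)) :
    Cent F E (ψ ⟨y, Subgroup.mem_sup_right (Subgroup.mem_zpowers y)⟩) := by
  obtain ⟨-, -, hEi⟩ := hE.1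
  have hT := hEi.2.1
  have hTS := hT.1
  have : Finite T := finite_of_le hTS
  let D := T ⊔ Subgroup.zpowers y
  let yD : D := ⟨y, Subgroup.mem_sup_right (Subgroup.mem_zpowers y)⟩
  obtain ⟨α, hα, hαe⟩ := exists_aut_of_self_map (restrict_mem (le_sup_left : T ≤ D) hψ)
    fun x => map_mem_of_stronglyClosed hT hψ _ x.2
  set y' := ψ yD
  have hy'C : y' ∈ centralizerIn S T := by
    refine mem_centralizerIn.2 ⟨val_mem hψ _, fun t ht => ?_⟩
    obtain ⟨x, hx⟩ := (α : T ≃* T).surjective ⟨t, ht⟩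
    have h1 : ψ (Subgroup.inclusion le_sup_left x) = t :=
      (hαe x).symm.trans (congrArg Subtype.val hx)
    rw [← h1, ← map_mul, ← map_mul]
    exact congrArg ψ (Subtype.ext ((mem_centralizerIn.1 hy.1).2 x x.2))
  refine ⟨hy'C, fun P φ hφ => ?_⟩
  have hPT := src_le hφ
  obtain ⟨φ', hφ', hφ'e⟩ :=
    (IsInvariantIn.autInvariant hEi).exists_transport hTS (inv_mem hα) hφ
  obtain ⟨-, -, -, χ, hχ, hχP, hχy⟩ := hy.2 _ hφ'
  let P₁ := autImage (α⁻¹ : MulAut T) P
  have hPY : P₁ ⊔ Subgroup.zpowers y ≤ D := sup_le_sup_right (autImage_le _ P) _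
  obtain ⟨ω, hω, hωe⟩ := F.inv_mem hψ
  have hωP : ∀ x : P, ∃ (m : (((α⁻¹ : MulAut T) ⟨x, hPT x.2⟩ : T) : Ω) ∈ P₁)
      (hr : (x : Ω) ∈ ψ.range), ω ⟨x, hr⟩ = (((α⁻¹ : MulAut T) ⟨x, hPT x.2⟩ : T) : Ω) := by
    intro x
    set t : T := (α⁻¹ : MulAut T) ⟨x, hPT x.2⟩
    have h1 : ψ (Subgroup.inclusion le_sup_left t) = x :=
      (hαe t).symm.trans (congrArg Subtype.val (MulAut.apply_inv_self _ α ⟨x, hPT x.2⟩))
    exact ⟨⟨⟨x, hPT x.2⟩, x.2, rfl⟩, ⟨_, h1⟩,
      (congrArg ω (Subtype.ext h1.symm)).trans (hωe (Subgroup.inclusion le_sup_left t))⟩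
  have hle : P ⊔ Subgroup.zpowers y' ≤ ψ.range :=
    sup_le (fun x hx => (hωP ⟨x, hx⟩).2.1) (Subgroup.zpowers_le.2 ⟨yD, rfl⟩)
  have hωy : ω ⟨y', hle (Subgroup.mem_sup_right (Subgroup.mem_zpowers y'))⟩ = y := hωe yD
  have hval : ∀ w, (ω.comp (Subgroup.inclusion hle)) w ∈ P₁ ⊔ Subgroup.zpowers y := fun w => by
    refine sup_map_le (fun x => ?_) (fun x => ?_) w
    · obtain ⟨m, hr, he⟩ := hωP x
      show ω ⟨x, _⟩ ∈ _
      exact he.symm ▸ Subgroup.mem_sup_left m
    · obtain ⟨n, hn⟩ := x.2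
      rw [zpowers_hom (ω.comp (Subgroup.inclusion hle))
        (Subgroup.mem_sup_right (Subgroup.mem_zpowers y')) (n := n)
        (x := Subgroup.inclusion le_sup_right x) hn.symm]
      exact zpow_mem ((show ω ⟨y', _⟩ = y from hωy).symm ▸
        Subgroup.mem_sup_right (Subgroup.mem_zpowers y)) n
  have hvalχ : ∀ v, χ v ∈ D := fun v => by
    refine sup_map_le (fun x => ?_) (fun x => ?_) v
    · rw [hχP]; exact Subgroup.mem_sup_left (val_mem hφ' x)
    · rw [hχy]; exact Subgroup.mem_sup_right x.2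
  have hTy : T ≤ centralizerIn S (Subgroup.zpowers y') := fun t ht =>
    ⟨hTS ht, fun w hw => by
      obtain ⟨n, hn⟩ := hw
      subst hn
      exact ((commute_zpow : Commute y' t → Commute (y' ^ n) t)
        ((mem_centralizerIn.1 hy'C).2 t ht).symm).eq⟩
  refine ⟨hEi.1 _ hφ, hPT.trans hTy, fun x => hTy (val_mem hφ x),
    _, F.comp_mem (F.comp_mem (restrict_mem hle hω) hχ hval) hψ (fun w => hvalχ _), fun x => ?_,
    fun w => ?_⟩
  · obtain ⟨m, hr, he⟩ := hωP x
    set t : T := (α⁻¹ : MulAut T) ⟨x, hPT x.2⟩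
    have h1 : χ (Subgroup.inclusion le_sup_left ⟨(t : Ω), m⟩) =
        (((α⁻¹ : MulAut T) ⟨φ x, val_mem hφ x⟩ : T) : Ω) :=
      (hχP _).trans (hφ'e ⟨x, hPT x.2⟩ x.2 m)
    have h2 : χ ⟨_, hval (Subgroup.inclusion le_sup_left x)⟩ =
        (((α⁻¹ : MulAut T) ⟨φ x, val_mem hφ x⟩ : T) : Ω) :=
      (congrArg χ (Subtype.ext he)).trans h1
    refine (congrArg ψ (Subtype.ext h2) : _ = ψ (Subgroup.inclusion le_sup_left _)).trans ?_
    exact (hαe _).symm.trans (congrArg Subtype.val (MulAut.apply_inv_self _ α _))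
  · obtain ⟨n, hn⟩ := w.2
    rw [← hn]
    have h1 : ∀ (f : ↥(P ⊔ Subgroup.zpowers y') →* Ω),
        f ⟨y', Subgroup.mem_sup_right (Subgroup.mem_zpowers y')⟩ = y' →
          f (Subgroup.inclusion le_sup_right w) = y' ^ n := fun f hf => by
      rw [zpowers_hom f (Subgroup.mem_sup_right (Subgroup.mem_zpowers y')) (n := n)
        (x := Subgroup.inclusion le_sup_right w) hn.symm, hf]
    refine h1 _ ?_
    show ψ ⟨χ ⟨ω ⟨y', _⟩, _⟩, _⟩ = y'
    refine congrArg ψ (Subtype.ext ?_)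
    exact (congrArg χ (Subtype.ext hωy)).trans (hχy ⟨y, Subgroup.mem_zpowers y⟩)
where
  commute_zpow {a b : Ω} {n : ℤ} (h : Commute a b) : Commute (a ^ n) b := h.zpow_left n

/-- An automorphism of order prime to `p` trivial modulo `Q ∩ T` and acting there through `E` fixes
centralized elements. -/
theorem fix_cent (hS : IsPGroup p S) (hE : E.IsNormalIn F p) {Q : Subgroup Ω} (hQ : Q ≤ S)
    (hc : E.IsCentric (Q ⊓ T)) {y : Ω} (hyQ : y ∈ Q) (hy : Cent F E y) {a : MulAut Q}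
    (ha : a ∈ F.autGroup Q) (hs : a ∈ SatCriterion.stab Q (Q ⊓ T))
    (hγ : SatCriterion.restr inf_le_left ⟨a, hs⟩ ∈ IndexPrime.pPart E p (Q ⊓ T))
    (hsh : (((⟨y, hyQ⟩ : Q)⁻¹ * a ⟨y, hyQ⟩ : Q) : Ω) ∈ Q ⊓ T)
    (hcop : (orderOf a).Coprime p) : a ⟨y, hyQ⟩ = ⟨y, hyQ⟩ := by
  obtain ⟨-, hF, hEi⟩ := hE.1
  let R := Q ⊓ T
  let γ : MulAut ↥(Q ⊓ T) := SatCriterion.restr inf_le_left ⟨a, hs⟩
  have hγcop : (orderOf γ).Coprime p := by
    refine Nat.Coprime.coprime_dvd_left ?_ hcop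
    have h := orderOf_map_dvd (SatCriterion.restr (inf_le_left : Q ⊓ T ≤ Q)) ⟨a, hs⟩
    rwa [show orderOf (⟨a, hs⟩ : ↥(SatCriterion.stab Q (Q ⊓ T))) = orderOf a from
      Subgroup.orderOf_mk a hs] at h
  obtain ⟨d⟩ := exists_data' hS hE hc hγcop (Or.inr hγ)
  let Y : Q := ⟨y, hyQ⟩
  set h : Q := Y⁻¹ * a Y with hhdef
  have hle : (Q ⊓ T) ⊔ Subgroup.zpowers y ≤ Q := sup_le inf_le_left (Subgroup.zpowers_le.2 hyQ)
  have hmap := restrict_mem hle ((mem_autGroup hQ).1 ha)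
  have hyh : y * (h : Ω) ∈ (Q ⊓ T) ⊔ centralizerIn S T :=
    mul_mem (Subgroup.mem_sup_right hy.1) (Subgroup.mem_sup_left hsh)
  have haY : ((a Y : Q) : Ω) = y * h := by
    rw [hhdef, Subgroup.coe_mul, Subgroup.coe_inv]
    show _ = y * (y⁻¹ * _)
    rw [mul_inv_cancel_left]
  obtain ⟨χ₀, hχ₀, hχ₀P, hχ₀y⟩ := d.transport (δ := γ) hy.1 hyh hmap (fun x => rfl) haY
  have hext : ExtendsOver F (Subgroup.zpowers y) ⊥ ((Q ⊓ T).subtype.comp γ.toMonoidHom) := by
    obtain ⟨-, -, -, ψ, hψ, hψP, hψY⟩ :=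
      hy.2 _ ((mem_autGroup hc.1).1 (IndexPrime.pPart_le E p _ hγ))
    exact extendsOver_bot_iff.2 ⟨ψ, hψ, hψP, hψY⟩
  obtain ⟨hyC', hfix⟩ := d.mem_fixed.1 (d.fixed_of_ext hS hF hy.1 hext)
  -- compare with the lift
  let Q₀ := d.P₀ ⊔ centralizerIn S d.P₀
  let y₀ := d.map (Subgroup.inclusion le_sup_right ⟨y, hy.1⟩)
  have hy₀U : y₀ ∈ centralizerIn S d.P₀ := d.map_right _
  have hDQ : d.P₀ ⊔ Subgroup.zpowers y₀ ≤ Q₀ := sup_le_sup_left (Subgroup.zpowers_le.2 hy₀U) _
  have hQ₀S : Q₀ ≤ S := sup_le d.fc.1 (centralizerIn_le S d.P₀)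
  let f := (Q₀.subtype.comp (d.a.1⁻¹ : MulAut Q₀).toMonoidHom).comp (Subgroup.inclusion hDQ)
  have hf : f ∈ F.Hom _ := restrict_mem hDQ ((mem_autGroup hQ₀S).1 (inv_mem d.a_mem.1))
  have hfy : f ⟨y₀, Subgroup.mem_sup_right (Subgroup.mem_zpowers y₀)⟩ = y₀ := by
    show (((d.a.1⁻¹ : MulAut Q₀) ⟨y₀, _⟩ : Q₀) : Ω) = y₀
    have h1 : d.a.1 ⟨y₀, Subgroup.mem_sup_right hy₀U⟩ = ⟨y₀, Subgroup.mem_sup_right hy₀U⟩ :=
      Subtype.ext hfix
    conv_lhs => rw [← h1]
    rw [MulAut.inv_apply_self]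
  have hfv : ∀ w, f w ∈ d.P₀ ⊔ Subgroup.zpowers y₀ := fun w => by
    refine sup_map_le (fun x => Subgroup.mem_sup_left ?_) (fun x => ?_) w
    · exact ((d.a⁻¹).2 _).2 x.2
    · obtain ⟨n, hn⟩ := x.2
      rw [zpowers_hom f (Subgroup.mem_sup_right (Subgroup.mem_zpowers y₀)) (n := n)
        (x := Subgroup.inclusion le_sup_right x) hn.symm, hfy]
      exact Subgroup.mem_sup_right (Subgroup.zpow_mem _ (Subgroup.mem_zpowers y₀) n)
  have hhZ : (h : Ω) ∈ centralizerIn S (Q ⊓ T) := by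
    refine mem_centralizerIn.2 ⟨hQ h.2, fun x hx => ?_⟩
    obtain ⟨x', hx'⟩ := (γ : ↥(Q ⊓ T) ≃* ↥(Q ⊓ T)).surjective ⟨x, hx⟩
    have h1 : Commute (Subgroup.inclusion (inf_le_left : Q ⊓ T ≤ Q) x') Y :=
      Subtype.ext ((mem_centralizerIn.1 hy.1).2 x' x'.2.2)
    have h2 : Commute x (y * h) := by
      rw [← haY, ← show (γ x' : Ω) = x from congrArg Subtype.val hx']
      exact congrArg Subtype.val ((h1.map (a : Q ≃* Q)).eq)
    have h3 : Commute x y := (mem_centralizerIn.1 hy.1).2 x hx.2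
    have h4 := h3.inv_right.mul_right h2
    rw [inv_mul_cancel_left] at h4
    exact h4.eq
  set h₀ := d.e ⟨(h : Ω), hsh⟩ with hh₀def
  have hh₀U : (h₀ : Ω) ∈ centralizerIn S d.P₀ := by
    refine mem_centralizerIn.2 ⟨d.fc.1 h₀.2, fun x hx => ?_⟩
    obtain ⟨x', hx'⟩ := d.e.surjective ⟨x, hx⟩
    rw [← show (d.e x' : Ω) = x from congrArg Subtype.val hx', hh₀def, ← Subgroup.coe_mul,
      ← map_mul, ← Subgroup.coe_mul, ← map_mul]
    exact congrArg (fun w => (d.e w : Ω)) (Subtype.ext ((mem_centralizerIn.1 hhZ).2 x' x'.2))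
  have hχy' : χ₀ ⟨y₀, Subgroup.mem_sup_right (Subgroup.mem_zpowers y₀)⟩ = y₀ * (h₀ : Ω) := by
    refine hχ₀y.trans ?_
    rw [show (⟨y * (h : Ω), hyh⟩ : ↥((Q ⊓ T) ⊔ centralizerIn S T)) =
      Subgroup.inclusion le_sup_right ⟨y, hy.1⟩ * Subgroup.inclusion le_sup_left ⟨(h : Ω), hsh⟩ from rfl,
      map_mul, d.map_left]
  have hdiv := fix_div hS hF d.fc d.a_mem d.cop hy₀U (mul_mem hy₀U hh₀U)
    (F.comp_mem hf hχ₀ hfv) (fun x => by
      set x₁ : d.P₀ := ⟨_, ((d.a⁻¹).2 (Subgroup.inclusion le_sup_left x)).2 x.2⟩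
      obtain ⟨x₂, hx₂⟩ := d.e.surjective x₁
      show χ₀ (Subgroup.inclusion le_sup_left x₁) = x
      rw [← hx₂, hχ₀P, ← d.a_coe, hx₂]
      exact congrArg Subtype.val
        (MulAut.apply_inv_self _ d.a.1 (Subgroup.inclusion (le_sup_left : d.P₀ ≤ Q₀) x)))
    ((congrArg χ₀ (Subtype.ext hfy)).trans hχy')
  have hγh : γ ⟨(h : Ω), hsh⟩ = ⟨(h : Ω), hsh⟩ := by
    apply d.e.injective
    apply Subtype.ext
    rw [← d.a_coe]
    refine Eq.trans ?_ (hdiv.trans (inv_mul_cancel_left y₀ _))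
    exact congrArg (fun w => ((d.a.1 w : Q₀) : Ω)) (Subtype.ext (inv_mul_cancel_left y₀ _).symm)
  have hah : a h = h := Subtype.ext (congrArg (fun w : ↥(Q ⊓ T) => (w : Ω)) hγh)
  have hiter : ∀ j : ℕ, (a ^ j) Y = Y * h ^ j := by
    intro j
    induction j with
    | zero => simp
    | succ j ih =>
      rw [pow_succ', MulAut.mul_apply, ih, map_mul, map_pow, hah, pow_succ']
      simp [hhdef, mul_assoc]
  have h1 := hiter (orderOf a)
  rw [pow_orderOf_eq_one, MulAut.one_apply] at h1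
  obtain ⟨k, hk⟩ := (hS.to_le hQ) h
  have h2 : h = 1 := eq_one_of_pGroup_coprime ⟨k, hk⟩ (mul_eq_left.1 h1.symm) hcop
  exact (inv_mul_eq_one.1 h2).symm

/-- Centralized elements have only centralized conjugates. -/
theorem cent_map (hS : IsPGroup p S) (hE : E.IsNormalIn F p) :
    ∀ (Q : Subgroup Ω) (φ : Q →* Ω), φ ∈ F.Hom Q → ∀ y : Q, Cent F E y → Cent F E (φ y) := by
  obtain ⟨hEs, hF, hEi⟩ := id hE.1
  have hT := hEi.2.1
  have hTS := hT.1
  have : Finite T := finite_of_le hTS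
  have hTp : IsPGroup p T := hS.to_le hTS
  intro Q
  induction hn : Nat.card S - Nat.card Q using Nat.strong_induction_on generalizing Q with
  | _ n ih =>
    subst hn
    intro φ hφ y hy
    by_cases hTQ : T ≤ Q
    · exact cent_transport hE hy
        (restrict_mem (sup_le hTQ (Subgroup.zpowers_le.2 y.2)) hφ)
    have hQS := src_le hφ
    have hup : ∀ (Q' D : Subgroup Ω), Nat.card Q' = Nat.card Q → Q' < D →
        ∀ (χ : D →* Ω), χ ∈ F.Hom D → ∀ z : D, Cent F E z → Cent F E (χ z) := by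
      intro Q' D hc hlt χ hχ z hz
      have : Finite D := finite_of_le (src_le hχ)
      have h1 : Nat.card Q' < Nat.card D :=
        lt_of_not_ge fun hge => hlt.ne (eq_of_le_card hlt.le hge)
      have h2 : Nat.card D ≤ Nat.card S := Subgroup.card_le_of_le (src_le hχ)
      exact ih _ (by omega) D rfl χ hχ z hz
    obtain ⟨Q₀, hQQ₀, hQ₀⟩ := exists_fullyNormalized (F := F) hQS
    have hQ₀S := hQ₀.1
    have hcard : Nat.card Q₀ = Nat.card Q := (isConj_card hQQ₀).symm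
    -- the automorphisms of `Q₀`
    have haut : ∀ β ∈ F.autGroup Q₀, ∀ z : Q₀, Cent F E z → Cent F E ((β z : Q₀) : Ω) := by
      intro β hβ z hz
      have := finite_mulAut hQ₀S
      have : Finite Q₀ := finite_of_le hQ₀S
      obtain ⟨hA, hrec⟩ := fullyNormalized_props hS hF hQ₀
      obtain ⟨-, hsyl⟩ := isFullyAutomized_iff.1 hA
      have hβi : IsIso F (β : Q₀ ≃* Q₀) := (mem_autGroup hQ₀S).1 hβ
      by_cases hTQ₀ : T ≤ Q₀
      · exact cent_transport hE hz
          (restrict_mem (sup_le hTQ₀ (Subgroup.zpowers_le.2 z.2)) hβi)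
      have hextend : ∀ (B : Subgroup (MulAut Q₀)) (g : Ω) (hg : g ∈ normalizerIn S Q₀), g ∉ Q₀ →
          conjAut Q₀ hg.2 ∈ B → B ≤ autInducedBy S Q₀ → ∀ b ∈ F.autGroup Q₀,
          (∀ x ∈ B, b * x * b⁻¹ ∈ autInducedBy S Q₀) →
            ∀ w : Q₀, Cent F E w → Cent F E ((b w : Q₀) : Ω) := by
        intro B g hg hgQ hgB hB b hb hnorm w hw
        obtain ⟨χ, hχ, hχe⟩ := receptive_extend hrec ((mem_autGroup hQ₀S).1 hb)
        let D := extender S Q₀ (Q₀.subtype.comp (b : Q₀ ≃* Q₀).toMonoidHom)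
        have hgD : g ∈ D := (mem_extender_iso _).2 ⟨hg, by
          rw [congr_eq_conj]; exact hnorm _ hgB⟩
        have hle : Q₀ ≤ D := le_extender ((mem_autGroup hQ₀S).1 hb)
        have h := hup Q₀ D hcard (lt_of_le_of_ne hle fun h => hgQ (h ▸ hgD)) χ hχ
          ⟨w, hle w.2⟩ hw
        rwa [hχe w (hle w.2)] at h
      by_cases hcent : centralizerIn S Q₀ ≤ Q₀
      swap
      · obtain ⟨g, hg, hgQ⟩ := SetLike.not_le_iff_exists.1 hcent
        have hg' := centralizerIn_le_normalizerIn S Q₀ hg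
        have h1 : conjAut Q₀ hg'.2 = 1 := by
          refine MulEquiv.ext fun x => Subtype.ext ?_
          rw [conjAut_apply, ← (mem_centralizerIn.1 hg).2 x x.2, mul_inv_cancel_right]
          rfl
        refine hextend ⊥ g hg' hgQ (Subgroup.mem_bot.2 h1) bot_le β hβ (fun x hx => ?_) z hz
        rw [Subgroup.mem_bot.1 hx]
        simp
      by_cases hcore : SatCriterion.core F p Q₀ ≤ Inn Q₀
      swap
      · obtain ⟨x, hx, hxI⟩ := SetLike.not_le_iff_exists.1 hcore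
        have hcle : SatCriterion.core F p Q₀ ≤ autInducedBy S Q₀ := by
          rintro _ ⟨c, hc, rfl⟩
          haveI := pCore_normal (p := p) (X := F.autGroup Q₀)
          exact IsPGroup.le_sylow_of_normal isPGroup_pCore hsyl.toSylow hc
        obtain ⟨g, hg, hgx⟩ := exists_of_mem_autInducedBy (hcle hx)
        have hxg : x = conjAut Q₀ hg.2 := MulEquiv.ext fun w => Subtype.ext (by
          rw [conjAut_apply, hgx])
        refine hextend _ g hg (fun hgQ => hxI ?_) (hxg ▸ hx) hcle β hβ (fun b hb => ?_) z hz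
        · exact ⟨⟨g, hgQ⟩, MulEquiv.ext fun w => Subtype.ext (by simp [hgx])⟩
        · exact hcle (conj_mem_of_mem_normalizer (SatCriterion.core_normal hβ) hb)
      have hFd : PPrimeKernel.Data F E p (F.autGroup T) :=
        ⟨hE.1, le_rfl, fun b hb k hk => mul_mem (mul_mem hb hk) (inv_mem hb),
          autGroup_mono_of_subsystem hEi.1 T, fun x hx _ _ => hx⟩
      have hcen : Cen F T (Q₀ ⊓ T) := by
        by_contra hnot
        obtain ⟨Q₁, hQ₀₁, hQ₁⟩ :=
          PPrimeKernel.exists_conj_notLe hS hFd hQ₀S (fun h => hnot h.2)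
        have hQ₁S := isConj_right_le hQ₀₁
        obtain ⟨g, hg, hgQ, hgc⟩ :=
          PPrimeKernel.exists_core_elt hS hFd (G := F) (fun _ => subset_rfl) hQ₁S hQ₁
        obtain ⟨e, he⟩ := isConj_iff_iso.1 hQ₀₁
        have := finite_mulAut hQ₁S
        have h2 : conjAut Q₁ hg.2 ∈ Inn Q₁ := by
          rw [← inn_map e]
          exact ⟨_, hcore (SatCriterion.congr_core he.symm hgc), by ext x; simp⟩
        -- `Q₀` is centric, so is `Q₁`
        have hQ₀c : F.IsCentric Q₀ := ⟨hQ₀S, fun Q₂ hQ₂ => by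
          have hfc := fullyNormalized_fullyCentralized hS hF hQ₀
          obtain ⟨f, hf⟩ := isConj_iff_iso.1 hQ₂
          intro c hc
          obtain ⟨χ, hχ, hχe⟩ := receptive_extend (fullyNormalized_props hS hF hQ₀).2 hf.symm
          have hcD := centralizerIn_le_extender S Q₂ (Q₀.subtype.comp f.symm.toMonoidHom) hc
          have h3 := hcent (extension_centralizer (le_extender hf.symm) (val_mem hχ) hχe
            (g := ⟨c, hcD⟩) hc)
          obtain ⟨w, hw⟩ := f.symm.surjective ⟨_, h3⟩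
          have h4 : χ ⟨w, le_extender hf.symm w.2⟩ = χ ⟨c, hcD⟩ :=
            (hχe w _).trans (congrArg Subtype.val hw)
          have h5 := congrArg Subtype.val (F.injective_of_mem hχ h4)
          simp only at h5
          exact h5 ▸ w.2⟩
        exact hgQ (mem_of_induced_inn (hQ₀c.2 Q₁ hQ₀₁) hQ₁S hg h2)
      have hRc : E.IsCentric (Q₀ ⊓ T) := PPrimeKernel.isCentric_of_cen hFd hcen
      have hSN : S ≤ Subgroup.normalizer (T : Set Ω) := le_normalizer_of_stronglyClosed hT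
      have hstab : ∀ b ∈ F.autGroup Q₀, b ∈ SatCriterion.stab Q₀ (Q₀ ⊓ T) := by
        intro b hb x
        have h1 := (mem_autGroup hQ₀S).1 hb
        constructor
        · intro hx
          refine ⟨x.2, ?_⟩
          show (x : Ω) ∈ T
          simpa using map_mem_of_stronglyClosed hT (IsIso.symm h1) (b x) hx.2
        · intro hx
          exact ⟨(b x).2, map_mem_of_stronglyClosed hT h1 x hx.2⟩
      -- the normal subgroup `K`
      have hEI := IsInvariantIn.strongInvariant hEi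
      have := finite_mulAut hRc.1
      let K : Subgroup (MulAut Q₀) :=
        { carrier := {b | ∃ hb : b ∈ F.autGroup Q₀,
            SatCriterion.restr inf_le_left ⟨b, hstab b hb⟩ ∈ IndexPrime.pPart E p (Q₀ ⊓ T) ∧
            ∀ x : Q₀, (((x⁻¹ * b x : Q₀)) : Ω) ∈ Q₀ ⊓ T}
          one_mem' := ⟨one_mem _, by
            refine Eq.mpr (congrArg (· ∈ IndexPrime.pPart E p (Q₀ ⊓ T)) ?_) (one_mem _)
            exact map_one (SatCriterion.restr (inf_le_left : Q₀ ⊓ T ≤ Q₀)), fun x => by simp⟩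
          mul_mem' := fun {b c} hb hc => ⟨mul_mem hb.1 hc.1, by
            refine Eq.mpr (congrArg (· ∈ IndexPrime.pPart E p (Q₀ ⊓ T)) ?_) (mul_mem hb.2.1 hc.2.1)
            exact map_mul (SatCriterion.restr (inf_le_left : Q₀ ⊓ T ≤ Q₀)) ⟨b, hstab b hb.1⟩
              ⟨c, hstab c hc.1⟩, fun x => by
            rw [MulAut.mul_apply, show x⁻¹ * b (c x) = (x⁻¹ * c x) * ((c x)⁻¹ * b (c x)) by group,
              Subgroup.coe_mul]
            exact mul_mem (hc.2.2 x) (hb.2.2 _)⟩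
          inv_mem' := fun {b} hb => ⟨inv_mem hb.1, by
            refine Eq.mpr (congrArg (· ∈ IndexPrime.pPart E p (Q₀ ⊓ T)) ?_) (inv_mem hb.2.1)
            exact map_inv (SatCriterion.restr (inf_le_left : Q₀ ⊓ T ≤ Q₀)) ⟨b, hstab b hb.1⟩,
            fun x => by
            have h := inv_mem (hb.2.2 ((b⁻¹ : MulAut Q₀) x))
            rw [MulAut.apply_inv_self, ← Subgroup.coe_inv, mul_inv_rev, inv_inv] at h
            exact h⟩ }
      have hKle : K ≤ F.autGroup Q₀ := fun b hb => hb.1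
      have hKn : F.autGroup Q₀ ≤ Subgroup.normalizer (K : Set (MulAut Q₀)) := by
        intro c hc
        refine mem_normalizer_of_conj_mem fun b hb => ⟨mul_mem (mul_mem hc hb.1) (inv_mem hc), ?_, fun x => ?_⟩
        · let γc := SatCriterion.restr inf_le_left ⟨c, hstab c hc⟩
          have hγc : IsIso F (γc : ↥(Q₀ ⊓ T) ≃* ↥(Q₀ ⊓ T)) :=
            (mem_autGroup (inf_le_left.trans hQ₀S)).1
              (SatCriterion.restr_mem_autGroup inf_le_left hQ₀S ⟨c, hstab c hc⟩ hc)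
          have h1 : IndexPrime.pPart E p (Q₀ ⊓ T) ≤
              (IndexPrime.pPart E p (Q₀ ⊓ T)).comap (MulAut.conj γc).toMonoidHom := by
            refine IndexPrime.pPart_le_of fun δ hδ ⟨k, hk⟩ => IndexPrime.mem_pPart ?_ ⟨k, ?_⟩
            · show γc * δ * γc⁻¹ ∈ _
              rw [← congr_eq_conj]
              exact Residual.congr_mem hEI hRc.1 hRc.1 hγc hδ
            · rw [← hk]
              exact orderOf_injective (MulAut.conj γc).toMonoidHom (MulAut.conj γc).injective δ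
          refine Eq.mpr (congrArg (· ∈ IndexPrime.pPart E p (Q₀ ⊓ T)) ?_) (h1 hb.2.1)
          show _ = γc * _ * γc⁻¹
          rw [← map_inv, ← map_mul, ← map_mul]
          rfl
        · rw [MulAut.mul_apply, MulAut.mul_apply]
          have h := (hstab c hc _).2 (hb.2.2 ((c⁻¹ : MulAut Q₀) x))
          rw [map_mul, map_inv, MulAut.apply_inv_self] at h
          exact h
      have hTK : ∀ g ∈ T, ∀ hg : g ∈ Subgroup.normalizer (Q₀ : Set Ω), conjAut Q₀ hg ∈ K := by
        intro g hgT hg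
        have hgA := conjAut_mem_autInducedBy (hTS hgT) hg
        refine ⟨autInducedBy_le_autGroup hQ₀S hgA, ?_, fun x => ⟨Subtype.coe_prop _, ?_⟩⟩
        · refine IndexPrime.autInducedBy_le_pPart hTp E hRc.1 (mem_autInducedBy.2 ⟨g, hgT, fun x => ?_⟩)
          rw [SatCriterion.restr_coe, conjAut_apply]
        · rw [Subgroup.coe_mul, Subgroup.coe_inv, conjAut_apply,
            show (x : Ω)⁻¹ * (g * x * g⁻¹) = (x : Ω)⁻¹ * g * x * g⁻¹ by group]
          refine T.mul_mem ?_ (T.inv_mem hgT)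
          simpa using conj_mem_of_mem_normalizer (hSN (S.inv_mem (hQ₀S x.2))) hgT
      obtain ⟨g, hgT, hgN, hgQ⟩ : ∃ g, g ∈ T ∧ g ∈ Subgroup.normalizer (Q₀ : Set Ω) ∧ g ∉ Q₀ := by
        by_contra hne
        push Not at hne
        exact hTQ₀ (le_of_centric_radical_aux hS hQ₀S hTS (hQ₀S.trans hSN) hne)
      let A := autInducedBy S Q₀ ⊓ K
      have hAsyl : IsSylowIn p A K := hsyl.inf_of_normalizes hKle hKn
      obtain ⟨k, hk, hkA⟩ := hsyl.exists_frattini hKle hKn (inv_mem hβ)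
      -- `K` is generated by `A` and elements of order prime to `p`
      let H : Subgroup (MulAut Q₀) := Subgroup.closure {b | b ∈ K ∧ (orderOf b).Coprime p}
      have hAH : A ≤ Subgroup.normalizer (H : Set (MulAut Q₀)) := by
        intro c hc
        refine mem_normalizer_of_conj_mem fun b hb => ?_
        have hle : H ≤ H.comap (MulAut.conj c).toMonoidHom := by
          refine (Subgroup.closure_le _).2 fun b hb => Subgroup.subset_closure ⟨?_, ?_⟩
          · exact conj_mem_of_mem_normalizer (hKn (hKle hc.2)) hb.1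
          · exact (orderOf_injective (MulAut.conj c).toMonoidHom (MulAut.conj c).injective b).symm ▸ hb.2
        exact hle hb
      have hKAH : K ≤ A ⊔ H := le_of_coprime_sylow hAsyl
        (fun b hb hcop => Subgroup.mem_sup_right (Subgroup.subset_closure ⟨hb, hcop⟩)) le_sup_left
      obtain ⟨s, hs, h, hh, hsh⟩ := mem_sup_of_normalizes hAH (hKAH hk)
      have hHfix : h z = z := by
        have hle : H ≤ (MulAction.stabilizer (MulAut Q₀) z) := by
          refine (Subgroup.closure_le _).2 fun b hb => ?_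
          obtain ⟨⟨hbF, hbγ, hbs⟩, hbcop⟩ := hb
          exact fix_cent hS hE hQ₀S hRc z.2 hz hbF (hstab b hbF) hbγ (hbs z) hbcop
        exact hle hh
      let β₁ := (k * β⁻¹)⁻¹ * s
      have hβz : β z = β₁ z := by
        have h1 : β = β₁ * h := by
          rw [show β₁ * h = (k * β⁻¹)⁻¹ * (s * h) from mul_assoc _ _ _, hsh]
          group
        rw [h1, MulAut.mul_apply, hHfix]
      have hkβ : k * β⁻¹ ∈ F.autGroup Q₀ := mul_mem (hKle hk) (inv_mem hβ)
      have hnormA : ∀ x ∈ A, β₁ * x * β₁⁻¹ ∈ autInducedBy S Q₀ := by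
        intro x hx
        have hcjle : cj (k * β⁻¹) A ≤ A := by
          rintro _ ⟨w, hw, rfl⟩
          exact hkA w hw
        have heq : cj (k * β⁻¹) A = A := eq_of_le_card hcjle (card_cj _ _).ge
        have hsx : s * x * s⁻¹ ∈ A := mul_mem (mul_mem hs hx) (inv_mem hs)
        obtain ⟨w, hw, hwe⟩ := heq.ge hsx
        have h1 : β₁ * x * β₁⁻¹ = w := by
          have h2 : w = (k * β⁻¹)⁻¹ * (s * x * s⁻¹) * (k * β⁻¹) := by
            rw [← hwe]
            show w = (k * β⁻¹)⁻¹ * ((k * β⁻¹) * w * (k * β⁻¹)⁻¹) * (k * β⁻¹)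
            group
          rw [h2]
          simp only [β₁]
          group
        exact h1 ▸ hw.1
      rw [hβz]
      exact hextend A g ⟨hTS hgT, hgN⟩ hgQ ⟨conjAut_mem_autInducedBy (hTS hgT) hgN, hTK g hgT hgN⟩
        inf_le_left β₁ (mul_mem (inv_mem hkβ) (hKle hs.2)) hnormA z hz
    -- general maps
    obtain ⟨e₀, he₀⟩ := isConj_iff_iso.1 hQQ₀
    obtain ⟨γ₁, hγ₁, u, hu, -, hue⟩ := exists_extend_fullyNormalized hS hF hQ₀ he₀
    let e := e₀.trans γ₁
    have he : IsIso F e := he₀.trans ((mem_autGroup hQ₀S).1 hγ₁)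
    have hNlt : ∀ R : Subgroup Ω, R ≤ S → Nat.card R = Nat.card Q → R < normalizerIn S R := by
      intro R hR hc
      refine lt_normalizer_inf hS (lt_of_le_of_ne hR fun h => hTQ ?_)
      rw [eq_of_le_card hQS (by rw [← hc, h])]
      exact hTS
    let f := toIso φ hφ (rfl : φ.range = φ.range)
    have hf : IsIso F f := isIso_toIso φ hφ rfl
    obtain ⟨f₀, hf₀⟩ := isConj_iff_iso.1 (isConj_trans (isConj_symm ⟨φ, hφ, rfl⟩) hQQ₀)
    obtain ⟨γ₂, hγ₂, v, hv, -, hve⟩ := exists_extend_fullyNormalized hS hF hQ₀ hf₀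
    let f' := f₀.trans γ₂
    have hf' : IsIso F f' := hf₀.trans ((mem_autGroup hQ₀S).1 hγ₂)
    have hey : Cent F E ((e y : Q₀) : Ω) := by
      have h := hup Q (normalizerIn S Q) rfl (hNlt Q hQS rfl) u hu ⟨y, le_normalizerIn hQS y.2⟩ hy
      rwa [hue y (le_normalizerIn hQS y.2)] at h
    have hm : ((e.symm.trans f).trans f' : MulAut Q₀) ∈ F.autGroup Q₀ :=
      (mem_autGroup hQ₀S).2 ((he.symm.trans hf).trans hf')
    have h1 := haut _ hm (e y) hey
    have h2 : (((e.symm.trans f).trans f' : MulAut Q₀) (e y) : Ω) = (f' (f y) : Ω) := by simp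
    rw [h2] at h1
    have hrS : φ.range ≤ S := range_le hφ
    obtain ⟨ω, hω, hωe⟩ := F.inv_mem hv
    let w₀ : normalizerIn S φ.range := ⟨(f y : Ω), le_normalizerIn hrS (f y).2⟩
    have hv₀ : v w₀ = (f' (f y) : Ω) := hve (f y) _
    have hlt : Q₀ < v.range := by
      have hle : Q₀ ≤ v.range := fun x hx => by
        obtain ⟨w, hw⟩ := f'.surjective ⟨x, hx⟩
        exact ⟨⟨w, le_normalizerIn hrS w.2⟩, (hve w _).trans (congrArg Subtype.val hw)⟩
      refine lt_of_le_of_ne hle fun h => ?_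
      have hfc : Nat.card φ.range = Nat.card Q := (Nat.card_congr f.toEquiv).symm
      have hlt' := hNlt φ.range hrS hfc
      haveI := finite_of_le (normalizerIn_le S φ.range)
      refine hlt'.ne (eq_of_le_card hlt'.le ?_)
      rw [← SatCriterion.card_range hv, ← h, hcard, hfc]
    have h3 := hup Q₀ v.range hcard hlt ω hω ⟨v w₀, w₀, rfl⟩ (show Cent F E (v w₀) from hv₀ ▸ h1)
    rw [hωe] at h3
    exact h3

theorem mem_sSup_iff (hS : IsPGroup p S) (hE : E.IsNormalIn F p) {y : Ω} :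
    y ∈ sSup {X : Subgroup Ω | X ≤ centralizerIn S T ∧
      ∀ P : Subgroup Ω, E.Hom P ⊆ F.centralizerHom X P} ↔ Cent F E y := by
  constructor
  · intro hy
    let C := sSup {X : Subgroup Ω | X ≤ centralizerIn S T ∧
      ∀ P : Subgroup Ω, E.Hom P ⊆ F.centralizerHom X P}
    have hC : C ≤ centralizerIn S T := sSup_le fun X hX => hX.1
    have hle : Subgroup.zpowers y ≤ C := Subgroup.zpowers_le.2 hy
    refine ⟨hC hy, fun P φ hφ => ?_⟩
    obtain ⟨hF, hP, hv, ψ, hψ, hψP, hψC⟩ := sSup_centralized hS hE P hφ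
    have hmono : centralizerIn S C ≤ centralizerIn S (Subgroup.zpowers y) :=
      inf_le_inf le_rfl (Subgroup.centralizer_le hle)
    exact ⟨hF, hP.trans hmono, fun x => hmono (hv x), _,
      restrict_mem (sup_le_sup_left hle P) hψ, fun x => hψP x, fun x => hψC ⟨x, hle x.2⟩⟩
  · intro hy
    suffices h : Subgroup.zpowers y ∈ {X : Subgroup Ω | X ≤ centralizerIn S T ∧
        ∀ P : Subgroup Ω, E.Hom P ⊆ F.centralizerHom X P} from
      (le_sSup h : Subgroup.zpowers y ≤ _) (Subgroup.mem_zpowers y)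
    exact ⟨Subgroup.zpowers_le.2 hy.1, hy.2⟩

/-- The largest subgroup centralized by `E` is strongly closed. -/
theorem stronglyClosed_centralized (hS : IsPGroup p S) (hE : E.IsNormalIn F p) :
    F.StronglyClosed (sSup {X : Subgroup Ω | X ≤ centralizerIn S T ∧
      ∀ P : Subgroup Ω, E.Hom P ⊆ F.centralizerHom X P}) :=
  ⟨sSup_le fun _ hX => hX.1.trans (centralizerIn_le S T), fun R hR φ hφ x =>
    (mem_sSup_iff hS hE).2 (cent_map hS hE R φ hφ x ((mem_sSup_iff hS hE).1 (hR x.2)))⟩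

end Cfsg.Agent.Lib.Fusion.CentralizerOfNormal
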