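import Cfsg.Agent.Lib.Fusion.CentralizerClosed
import Cfsg.Agent.Lib.Fusion.ResidualLimit
import Cfsg.Agent.Lib.Fusion.IsoTransport
import Cfsg.Agent.S5120

/-!
The normal subsystem over `C_S(E)` inside the centralizer system of `T`.
-/

set_option autoImplicit false

namespace Cfsg.Agent.Lib.Fusion.CentralizerSub

open Cfsg Cfsg.FusionSystem

variable {Ω : Type*} [Group Ω] {S T Y : Subgroup Ω} {F : FusionSystem S} {p : ℕ}
  [Finite S] [Fact p.Prime]

/-- The inputs: `T` strongly closed and `Y` strongly closed inside `C_S(T)`. -/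
structure Base (F : FusionSystem S) (T Y : Subgroup Ω) (p : ℕ) : Prop where
  hS : IsPGroup p S
  hF : F.IsSaturated p
  hT : F.StronglyClosed T
  hY : F.StronglyClosed Y
  hYC : Y ≤ centralizerIn S T

/-- A map between subgroups of `Y` extends over `T`. -/
theorem Base.exists_ext_sup (h : Base F T Y p) {P : Subgroup Ω} {φ : P →* Ω} (hφ : φ ∈ F.Hom P)
    (hP : P ≤ Y) :
    ∃ ψ ∈ F.Hom (P ⊔ T), (∀ x : P, ψ (Subgroup.inclusion le_sup_left x) = φ x) ∧
      ∀ t : T, ψ (Subgroup.inclusion le_sup_right t) ∈ T := by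
  have hTS := h.hT.1
  obtain ⟨R, hPR, hR⟩ := exists_fullyCentralized (F := F) (src_le hφ)
  have hrec := fullyCentralized_receptive h.hS h.hF hR
  have hφY : φ.range ≤ Y := by
    rintro _ ⟨x, rfl⟩
    exact map_mem_of_stronglyClosed h.hY hφ x (hP x.2)
  have key : ∀ (P' : Subgroup Ω) (e : P' ≃* R), P' ≤ Y → IsIso F e →
      ∃ θ ∈ F.Hom (P' ⊔ T), (∀ x : P', θ (Subgroup.inclusion le_sup_left x) = (e x : Ω)) ∧
        ∀ t : T, θ (Subgroup.inclusion le_sup_right t) ∈ T := by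
    intro P' e hP' he
    obtain ⟨θ, hθ, hθe⟩ := receptive_extend hrec he
    have hle : P' ⊔ T ≤ extender S P' (R.subtype.comp e.toMonoidHom) := by
      refine sup_le (le_extender he) fun t ht => ?_
      refine centralizerIn_le_extender S P' _ (mem_centralizerIn.2 ⟨hTS ht, fun x hx => ?_⟩)
      exact ((mem_centralizerIn.1 (h.hYC (hP' hx))).2 t ht).symm
    exact ⟨_, restrict_mem hle hθ, fun x => hθe x _,
      fun t => map_mem_of_stronglyClosed h.hT hθ _ t.2⟩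
  obtain ⟨e, he⟩ := isConj_iff_iso.1 hPR
  obtain ⟨e', he'⟩ := isConj_iff_iso.1 (isConj_trans (isConj_symm ⟨φ, hφ, rfl⟩) hPR)
  let f := toIso φ hφ (rfl : φ.range = φ.range)
  have hf : IsIso F f := isIso_toIso φ hφ rfl
  -- replace the second isomorphism so that both agree with `φ`
  let e₁ : φ.range ≃* R := f.symm.trans e
  have he₁ : IsIso F e₁ := hf.symm.trans he
  obtain ⟨θ, hθ, hθe, hθT⟩ := key P e hP he
  obtain ⟨θ', hθ', hθ'e, hθ'T⟩ := key φ.range e₁ hφY he₁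
  have : Finite T := finite_of_le hTS
  obtain ⟨μ, -, hμ⟩ := exists_aut_of_self_map (restrict_mem (le_sup_right : T ≤ φ.range ⊔ T) hθ') hθ'T
  obtain ⟨ω, hω, hωe⟩ := F.inv_mem hθ'
  have hmemR : ∀ x : P, θ (Subgroup.inclusion le_sup_left x) ∈ θ'.range := fun x => by
    refine ⟨Subgroup.inclusion le_sup_left (f x), ?_⟩
    rw [hθe, hθ'e]
    simp [e₁]
  have hmemT : ∀ t : T, θ (Subgroup.inclusion le_sup_right t) ∈ θ'.range := fun t => by
    obtain ⟨u, hu⟩ := μ.surjective ⟨_, hθT t⟩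
    exact ⟨Subgroup.inclusion le_sup_right u, (hμ u).symm.trans (congrArg Subtype.val hu)⟩
  have hmem : ∀ w, θ w ∈ θ'.range := fun w =>
    sup_map_le hmemR hmemT w
  refine ⟨_, F.comp_mem hθ hω hmem, fun x => ?_, fun t => ?_⟩
  · show ω ⟨θ (Subgroup.inclusion le_sup_left x), _⟩ = φ x
    refine Eq.trans (congrArg ω (Subtype.ext ?_)) (hωe (Subgroup.inclusion le_sup_left (f x)))
    show θ (Subgroup.inclusion le_sup_left x) = θ' (Subgroup.inclusion le_sup_left (f x))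
    rw [hθe, hθ'e]
    simp [e₁]
  · show ω ⟨θ (Subgroup.inclusion le_sup_right t), _⟩ ∈ T
    obtain ⟨u, hu⟩ := μ.surjective ⟨_, hθT t⟩
    have h1 : ω ⟨θ (Subgroup.inclusion le_sup_right t), hmem _⟩ = (u : Ω) :=
      Eq.trans (congrArg ω (Subtype.ext ((congrArg Subtype.val hu).symm.trans (hμ u))))
        (hωe (Subgroup.inclusion le_sup_right u))
    rw [h1]
    exact u.2

/-- An automorphism of `T` extends to `T C_S(T)`. -/
theorem Base.exists_ext_aut (h : Base F T Y p) {γ : MulAut T} (hγ : γ ∈ F.autGroup T) :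
    ∃ a ∈ F.autGroup (T ⊔ centralizerIn S T),
      (∀ t : T, ((a (Subgroup.inclusion le_sup_left t) : ↥(T ⊔ centralizerIn S T)) : Ω) = (γ t : Ω)) ∧
        ∀ c : ↥(T ⊔ centralizerIn S T), (c : Ω) ∈ centralizerIn S T →
          ((a c : ↥(T ⊔ centralizerIn S T)) : Ω) ∈ centralizerIn S T := by
  have hTS := h.hT.1
  have hT := h.hT
  have hγ' : IsIso F (γ : T ≃* T) := (mem_autGroup hTS).1 hγ
  have hTfc : F.IsFullyCentralized T := by
    refine ⟨hTS, fun Q ⟨φ, hφ, hr⟩ => ?_⟩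
    have := finite_of_le hTS
    have hQ : Q = T := by
      rw [← hr]
      refine eq_of_le_card (by rintro _ ⟨x, rfl⟩; exact map_mem_of_stronglyClosed hT hφ x x.2)
        (Nat.card_congr (MonoidHom.ofInjective (F.injective_of_mem hφ)).toEquiv).le
    rw [hQ]
  obtain ⟨ψ, hψ, hψe⟩ := receptive_extend (fullyCentralized_receptive h.hS h.hF hTfc) hγ'
  have hle : T ⊔ centralizerIn S T ≤ extender S T (T.subtype.comp γ.toMonoidHom) :=
    sup_le (le_extender hγ') (centralizerIn_le_extender S T _)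
  have hC : ∀ c : ↥(T ⊔ centralizerIn S T), (c : Ω) ∈ centralizerIn S T →
      ψ (Subgroup.inclusion hle c) ∈ centralizerIn S T := fun c hc =>
    extension_centralizer (le_extender hγ') (val_mem hψ) hψe (g := Subgroup.inclusion hle c) hc
  have : Finite ↥(T ⊔ centralizerIn S T) := finite_of_le (sup_le hTS (centralizerIn_le S T))
  obtain ⟨a, ha, hae⟩ := exists_aut_of_self_map (restrict_mem hle hψ) fun w =>
    sup_map_le (f := ψ.comp (Subgroup.inclusion hle))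
      (fun t => Subgroup.mem_sup_left ((hψe t (le_extender hγ' t.2)).symm ▸ (γ t).2))
      (fun c => Subgroup.mem_sup_right (hC _ c.2)) w
  refine ⟨a, ha, fun t => (hae _).trans (hψe t _), fun c hc => ?_⟩
  rw [hae]
  exact hC c hc

/-- Conjugating a map fixing `T` by an automorphism preserving `T` gives a map fixing `T`. -/
theorem Base.conj_fix (h : Base F T Y p) {γ : MulAut T} {a : MulAut ↥(T ⊔ centralizerIn S T)}
    (ha : a ∈ F.autGroup (T ⊔ centralizerIn S T))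
    (haT : ∀ t : T, ((a (Subgroup.inclusion le_sup_left t) : ↥(T ⊔ centralizerIn S T)) : Ω) = (γ t : Ω))
    {P P₁ : Subgroup Ω} {φ : P →* Ω} (hφ : φ ∈ F.centralizerHom T P) (hP₁ : P₁ ≤ centralizerIn S T)
    (hmem : ∀ x : P₁, ((a ⟨x, Subgroup.mem_sup_right (hP₁ x.2)⟩ : ↥(T ⊔ centralizerIn S T)) : Ω) ∈ P) :
    ∃ χ ∈ F.centralizerHom T P₁, ∀ x : P₁, ∃ hv : φ ⟨_, hmem x⟩ ∈ T ⊔ centralizerIn S T,
      χ x = ((a⁻¹ : MulAut ↥(T ⊔ centralizerIn S T)) ⟨φ ⟨_, hmem x⟩, hv⟩ : Ω) := by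
  obtain ⟨-, hP, hval, ψ, hψ, hψP, hψT⟩ := hφ
  let R₀ := T ⊔ centralizerIn S T
  have hR₀ : R₀ ≤ S := sup_le h.hT.1 (centralizerIn_le S T)
  have hle : P₁ ⊔ T ≤ R₀ := sup_le (hP₁.trans le_sup_right) le_sup_left
  let f := (R₀.subtype.comp (a : R₀ ≃* R₀).toMonoidHom).comp (Subgroup.inclusion hle)
  have hf : f ∈ F.Hom _ := restrict_mem hle ((mem_autGroup hR₀).1 ha)
  have hfv : ∀ w, f w ∈ P ⊔ T := fun w => sup_map_le (f := f)
    (fun x => Subgroup.mem_sup_left (hmem x))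
    (fun t => Subgroup.mem_sup_right ((congrArg (· ∈ T) (haT t)).mpr (γ t).2)) w
  have hψv : ∀ w, ψ w ∈ R₀ := fun w => sup_map_le (f := ψ)
    (fun x => Subgroup.mem_sup_right ((hψP x).symm ▸ hval x))
    (fun t => Subgroup.mem_sup_left ((hψT t).symm ▸ t.2)) w
  let g := R₀.subtype.comp ((a⁻¹ : MulAut R₀) : R₀ ≃* R₀).toMonoidHom
  have hg : g ∈ F.Hom R₀ := (mem_autGroup hR₀).1 (inv_mem ha)
  have h1 := F.comp_mem (F.comp_mem hf hψ hfv) hg fun w => hψv _
  set η := g.comp ((ψ.comp (f.codRestrict _ hfv)).codRestrict R₀ fun w => hψv _) with hη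
  have hηT : ∀ t : T, η (Subgroup.inclusion le_sup_right t) = t := fun t => by
    show ((a⁻¹ : MulAut R₀) ⟨ψ ⟨f (Subgroup.inclusion le_sup_right t), _⟩, _⟩ : Ω) = t
    have e1 : ψ ⟨f (Subgroup.inclusion le_sup_right t), hfv _⟩ = (γ t : Ω) :=
      (congrArg ψ (Subtype.ext (haT t))).trans (hψT (γ t))
    have e2 : (⟨_, hψv _⟩ : R₀) = a (Subgroup.inclusion le_sup_left t) :=
      Subtype.ext (e1.trans (haT t).symm)
    rw [e2, MulAut.inv_apply_self]
    rfl
  have hηC : ∀ x : P₁, η (Subgroup.inclusion le_sup_left x) ∈ centralizerIn S T := fun x => by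
    refine mem_centralizerIn.2 ⟨val_mem h1 _, fun t ht => ?_⟩
    rw [show t = η (Subgroup.inclusion le_sup_right ⟨t, ht⟩) from (hηT ⟨t, ht⟩).symm, ← map_mul, ← map_mul]
    exact congrArg η (Subtype.ext ((mem_centralizerIn.1 (hP₁ x.2)).2 t ht))
  refine ⟨_, ⟨restrict_mem (le_sup_left : P₁ ≤ P₁ ⊔ T) h1, hP₁, hηC, η, h1, fun x => rfl, hηT⟩,
    fun x => ⟨Subgroup.mem_sup_right (hval _), ?_⟩⟩
  show ((a⁻¹ : MulAut R₀) ⟨ψ ⟨f (Subgroup.inclusion le_sup_left x), _⟩, _⟩ : Ω) = _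
  exact congrArg (fun z : R₀ => ((a⁻¹ : MulAut R₀) z : Ω)) (Subtype.ext (hψP ⟨_, hmem x⟩))

/-- A map with prescribed effect on `T` is a map fixing `T` followed by an automorphism. -/
theorem Base.decompose (h : Base F T Y p) {P : Subgroup Ω} {φ : P →* Ω} (hφ : φ ∈ F.Hom P)
    (hP : P ≤ Y) :
    ∃ γ : MulAut T, ∃ a ∈ F.autGroup (T ⊔ centralizerIn S T),
      (∀ t : T, ((a (Subgroup.inclusion le_sup_left t) : ↥(T ⊔ centralizerIn S T)) : Ω) = (γ t : Ω)) ∧
      ∃ c ∈ F.centralizerHom T P, (∀ x, c x ∈ Y) ∧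
        ∀ (x : P) (hc : c x ∈ T ⊔ centralizerIn S T),
          φ x = ((a ⟨c x, hc⟩ : ↥(T ⊔ centralizerIn S T)) : Ω) := by
  obtain ⟨ψ, hψ, hψP, hψT⟩ := h.exists_ext_sup hφ hP
  have : Finite T := finite_of_le h.hT.1
  obtain ⟨γ, hγ, hγe⟩ := exists_aut_of_self_map (restrict_mem (le_sup_right : T ≤ P ⊔ T) hψ) hψT
  obtain ⟨a, ha, haT, haC⟩ := h.exists_ext_aut hγ
  let R₀ := T ⊔ centralizerIn S T
  have hR₀ : R₀ ≤ S := sup_le h.hT.1 (centralizerIn_le S T)
  have hφY : ∀ x : P, φ x ∈ Y := fun x => map_mem_of_stronglyClosed h.hY hφ x (hP x.2)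
  have hψv : ∀ w, ψ w ∈ R₀ := fun w => sup_map_le (f := ψ)
    (fun x => Subgroup.mem_sup_right ((hψP x).symm ▸ h.hYC (hφY x)))
    (fun t => Subgroup.mem_sup_left (hψT t)) w
  let g := R₀.subtype.comp ((a⁻¹ : MulAut R₀) : R₀ ≃* R₀).toMonoidHom
  have hg : g ∈ F.Hom R₀ := (mem_autGroup hR₀).1 (inv_mem ha)
  have h1 := F.comp_mem hψ hg hψv
  set η := g.comp (ψ.codRestrict R₀ hψv) with hη
  have hηT : ∀ t : T, η (Subgroup.inclusion le_sup_right t) = t := fun t => by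
    show ((a⁻¹ : MulAut R₀) ⟨ψ (Subgroup.inclusion le_sup_right t), _⟩ : Ω) = t
    have e2 : (⟨_, hψv (Subgroup.inclusion le_sup_right t)⟩ : R₀) = a (Subgroup.inclusion le_sup_left t) :=
      Subtype.ext ((hγe t).symm.trans (haT t).symm)
    rw [e2, MulAut.inv_apply_self]
    rfl
  have hηY : ∀ x : P, η (Subgroup.inclusion le_sup_left x) ∈ Y := fun x =>
    map_mem_of_stronglyClosed h.hY h1 _ (hP x.2)
  refine ⟨γ, a, ha, haT, _, ⟨restrict_mem (le_sup_left : P ≤ P ⊔ T) h1, hP.trans h.hYC,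
    fun x => h.hYC (hηY x), η, h1, fun x => rfl, hηT⟩, hηY, fun x hc => ?_⟩
  have e3 : (⟨η (Subgroup.inclusion le_sup_left x), hc⟩ : R₀) =
      (a⁻¹ : MulAut R₀) ⟨φ x, Subgroup.mem_sup_right (h.hYC (hφY x))⟩ := Subtype.ext (by
    show ((a⁻¹ : MulAut R₀) ⟨ψ _, _⟩ : Ω) = _
    exact congrArg (fun z : R₀ => ((a⁻¹ : MulAut R₀) z : Ω)) (Subtype.ext (hψP x)))
  show φ x = (a ⟨η (Subgroup.inclusion le_sup_left x), hc⟩ : Ω)
  rw [e3, MulAut.apply_inv_self]

/-- An automorphism of `T C_S(T)` restricts to `Y`. -/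
theorem Base.restrict_Y (h : Base F T Y p) {a : MulAut ↥(T ⊔ centralizerIn S T)}
    (ha : a ∈ F.autGroup (T ⊔ centralizerIn S T)) :
    ∃ δ ∈ F.autGroup Y, ∀ y : Y, ((δ y : Y) : Ω) =
      ((a ⟨y, Subgroup.mem_sup_right (h.hYC y.2)⟩ : ↥(T ⊔ centralizerIn S T)) : Ω) := by
  have : Finite Y := finite_of_le h.hY.1
  have hR₀ : T ⊔ centralizerIn S T ≤ S := sup_le h.hT.1 (centralizerIn_le S T)
  have hf := restrict_mem (h.hYC.trans le_sup_right : Y ≤ T ⊔ centralizerIn S T)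
    ((mem_autGroup hR₀).1 ha)
  exact exists_aut_of_self_map hf fun y => map_mem_of_stronglyClosed h.hY hf y y.2

/-- The centralizer system of `T`. -/
def cent (F : FusionSystem S) (hT : T ≤ S) : FusionSystem (centralizerIn S T) :=
  extSystem F (centralizerIn S T) T ⊥ (centralizerIn_le S T) hT fun _ hg =>
    ⟨(centralizerIn_le_normalizerIn S T hg).2,
      Subgroup.mem_bot.2 ((conjAut_eq_one_iff _).2 (mem_centralizerIn.1 hg).2)⟩

omit [Finite S] in
theorem cent_hom (hT : T ≤ S) (P : Subgroup Ω) : (cent F hT).Hom P = F.centralizerHom T P := by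
  ext φ
  constructor
  · rintro ⟨h1, h2, h3, h4⟩
    exact ⟨h1, h2, h3, extendsOver_bot_iff.1 h4⟩
  · rintro ⟨h1, h2, h3, h4⟩
    exact ⟨h1, h2, h3, extendsOver_bot_iff.2 h4⟩

theorem Base.cent_saturated (h : Base F T Y p) : (cent F h.hT.1).IsSaturated p := by
  have hT := h.hT
  have hTfc : F.IsFullyCentralized T := by
    refine ⟨hT.1, fun Q ⟨φ, hφ, hr⟩ => ?_⟩
    have := finite_of_le hT.1
    have hQ : Q = T := by
      rw [← hr]
      refine eq_of_le_card (by rintro _ ⟨x, rfl⟩; exact map_mem_of_stronglyClosed hT hφ x x.2)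
        (Nat.card_congr (MonoidHom.ofInjective (F.injective_of_mem hφ)).toEquiv).le
    rw [hQ]
  exact kSystem_saturated h.hS h.hF hT.1 (kExtends_bot h.hS h.hF hTfc) (normK_bot S T).symm _
    fun P φ => Iff.rfl

/-- The subsystem of `p`-power index over `Y` is normal in the whole system. -/
theorem Base.isNormalIn (h : Base F T Y p)
    (hhyp : (cent F h.hT.1).hyperfocalSubgroup p ≤ Y) {D : FusionSystem Y} (hD : D.IsSaturated p)
    (hDi : D.HasPPowerIndexIn (cent F h.hT.1) p) :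
    D.IsNormalIn F p := by
  have hTS := h.hT.1
  have hC := centralizerIn_le S T
  have : Finite (centralizerIn S T) := finite_of_le hC
  have hYS := h.hY.1
  have : Finite Y := finite_of_le hYS
  have hSN := le_normalizer_of_stronglyClosed h.hY
  have hDC : D.IsNormalIn (cent F hTS) p :=
    Cfsg.Agent.S5120.normal_of_ppower (h.hS.to_le hC) h.cent_saturated h.hYC (hC.trans hSN) hhyp hD hDi
  have hDF : D.IsSubsystemOf F := fun P φ hφ => (hDi.1 P hφ).1
  -- automorphisms coming from `T C_S(T)` preserve the subsystem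
  have hiso : ∀ {γ : MulAut T} {a : MulAut ↥(T ⊔ centralizerIn S T)},
      a ∈ F.autGroup (T ⊔ centralizerIn S T) →
      (∀ t : T, ((a (Subgroup.inclusion le_sup_left t) : ↥(T ⊔ centralizerIn S T)) : Ω) = (γ t : Ω)) →
      ∀ {δ : MulAut Y}, (∀ y : Y, ((δ y : Y) : Ω) =
        ((a ⟨y, Subgroup.mem_sup_right (h.hYC y.2)⟩ : ↥(T ⊔ centralizerIn S T)) : Ω)) →
      Fwd δ.symm D D := by
    intro γ a ha haT δ hδ
    obtain ⟨D', hDD', -⟩ := exists_push (e := (δ : Y ≃* Y)) D le_rfl δ (fun _ => rfl)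
    have hle : D ≤ D' := by
      refine alperin (h.hS.to_le hYS) hD D' fun R hR => ?_
      obtain ⟨-, -, hn⟩ := centric_radical_of_top_or_essential (h.hS.to_le hYS) hD hR
      have hRY := hn.1
      refine autGroup_le_of_coprime (h.hS.to_le hYS) hD hn _ (autInducedBy_le_autGroup hRY)
        fun β hβ hcop => ?_
      -- pull back along `δ`
      let R₁ : Subgroup Ω := (R.subgroupOf Y).map (Y.subtype.comp (δ.symm : Y ≃* Y).toMonoidHom)
      have hR₁ : R₁ ≤ Y := by rintro _ ⟨y, -, rfl⟩; exact Subtype.coe_prop _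
      have hback : ∀ x : R₁, ((δ ⟨x, hR₁ x.2⟩ : Y) : Ω) ∈ R := by
        rintro ⟨_, y, hy, rfl⟩
        show ((δ ((δ : Y ≃* Y).symm y) : Y) : Ω) ∈ R
        rw [MulEquiv.apply_symm_apply]
        exact hy
      have hmem : ∀ x : R₁, ((a ⟨x, Subgroup.mem_sup_right (h.hYC (hR₁ x.2))⟩ :
          ↥(T ⊔ centralizerIn S T)) : Ω) ∈ R := fun x => (hδ ⟨x, hR₁ x.2⟩) ▸ hback x
      have hβC := hDi.1 R ((mem_autGroup hRY).1 hβ)
      rw [cent_hom] at hβC
      obtain ⟨χ, hχ, hχe⟩ := h.conj_fix ha haT hβC (hR₁.trans h.hYC) hmem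
      have hchi : ∀ x : R₁, χ x = ((δ : Y ≃* Y).symm ⟨(β ⟨_, hback x⟩ : R), hRY (β _).2⟩ : Ω) := by
        intro x
        obtain ⟨hv, hx⟩ := hχe x
        rw [hx]
        generalize hz : (δ : Y ≃* Y).symm ⟨(β ⟨_, hback x⟩ : R), hRY (β _).2⟩ = z
        have h1 : a ⟨z, Subgroup.mem_sup_right (h.hYC z.2)⟩ = ⟨_, hv⟩ := Subtype.ext (by
          rw [← hδ, ← hz, MulEquiv.apply_symm_apply]
          show _ = (β ⟨_, hmem x⟩ : Ω)
          exact congrArg (fun w : R => (β w : Ω)) (Subtype.ext (hδ ⟨x, hR₁ x.2⟩)))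
        rw [← h1, MulAut.inv_apply_self]
      have hval : ∀ x : R₁, χ x ∈ R₁ := fun x => by
        rw [hchi x]
        exact ⟨_, (β ⟨_, hback x⟩).2, rfl⟩
      have : Finite R₁ := finite_of_le (hR₁.trans hYS)
      obtain ⟨β₁, hβ₁, hβ₁e⟩ := exists_aut_of_self_map (F := cent F hTS) (cent_hom hTS R₁ ▸ hχ) hval
      have hpow : ∀ (n : ℕ) (x : R₁),
          ((δ ⟨((β₁ ^ n) x : R₁), hR₁ (Subtype.coe_prop _)⟩ : Y) : Ω) = ((β ^ n) ⟨_, hback x⟩ : R) := by
        intro n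
        induction n with
        | zero => intro x; rfl
        | succ n ih =>
          intro x
          have e1 : (⟨((β₁ x : R₁) : Ω), hR₁ (β₁ x).2⟩ : Y) =
              (δ : Y ≃* Y).symm ⟨(β ⟨_, hback x⟩ : R), hRY (β _).2⟩ :=
            Subtype.ext ((hβ₁e x).trans (hchi x))
          simp only [pow_succ, MulAut.mul_apply]
          rw [ih (β₁ x)]
          refine congrArg (fun w : R => ((β ^ n) w : Ω)) (Subtype.ext ?_)
          show ((δ ⟨((β₁ x : R₁) : Ω), _⟩ : Y) : Ω) = _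
          rw [e1, MulEquiv.apply_symm_apply]
      have hcop₁ : (orderOf β₁).Coprime p := by
        refine Nat.Coprime.coprime_dvd_left (orderOf_dvd_of_pow_eq_one ?_) hcop
        ext x
        have h1 := hpow (orderOf β) x
        rw [pow_orderOf_eq_one] at h1
        exact congrArg (fun z : Y => (z : Ω)) ((δ : Y ≃* Y).injective (Subtype.ext h1))
      have hβD : β₁ ∈ D.autGroup R₁ := hDi.2.2 R₁ hR₁ ⟨⟨β₁, hβ₁⟩, coprime_mem_pResidual hcop₁, rfl⟩
      refine (mem_autGroup hRY).2 (hDD'.1 R₁ _ ((mem_autGroup hR₁).1 hβD) R _ hRY fun r => ?_)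
      let x : Y := (δ : Y ≃* Y).symm ⟨r, hRY r.2⟩
      have hx : (x : Ω) ∈ R₁ := ⟨⟨r, hRY r.2⟩, r.2, rfl⟩
      refine ⟨x, ⟨(β₁ ⟨x, hx⟩ : R₁), hR₁ (β₁ _).2⟩, hx, ?_, rfl, ?_⟩
      · show ((δ ((δ : Y ≃* Y).symm _) : Y) : Ω) = r
        rw [MulEquiv.apply_symm_apply]
      · have h1 := hpow 1 ⟨x, hx⟩
        rw [pow_one, pow_one] at h1
        refine Eq.trans ?_ h1.symm
        show (β r : Ω) = (β ⟨(δ ⟨(x : Ω), _⟩ : Ω), _⟩ : Ω)
        refine congrArg (fun w : R => (β w : Ω)) (Subtype.ext ?_)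
        show (r : Ω) = (δ ((δ : Y ≃* Y).symm _) : Ω)
        rw [MulEquiv.apply_symm_apply]
    exact fun P φ hφ => hDD'.2 P φ (hle P hφ)
  have hYeq : ∀ φ : Y →* Ω, φ ∈ F.Hom Y → ∀ x, φ x ∈ Y := fun φ hφ x =>
    map_mem_of_stronglyClosed h.hY hφ x x.2
  have hautC : ∀ {c : MulAut Y}, Y.subtype.comp (c : Y ≃* Y).toMonoidHom ∈ F.centralizerHom T Y →
      c ∈ (cent F hTS).autGroup Y := fun hc =>
    (mem_autGroup h.hYC).2 (show _ ∈ (cent F hTS).Hom Y from (cent_hom hTS Y).symm ▸ hc)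
  have hsplit : ∀ α ∈ F.autGroup Y, ∃ δ : MulAut Y, (Fwd δ D D ∧ Fwd δ.symm D D) ∧
      ∃ c ∈ (cent F hTS).autGroup Y, α = δ * c := by
    intro α hα
    obtain ⟨γ, a, ha, haT, c, hc, hcY, hce⟩ := h.decompose ((mem_autGroup hYS).1 hα) le_rfl
    obtain ⟨δ, -, hδ⟩ := h.restrict_Y ha
    obtain ⟨c₁, -, hc₁⟩ := exists_aut_of_self_map hc.1 hcY
    have hinv : ∀ t : T, (((a⁻¹ : MulAut _) (Subgroup.inclusion le_sup_left t) :
        ↥(T ⊔ centralizerIn S T)) : Ω) = ((γ⁻¹ : MulAut T) t : Ω) := fun t => by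
      have : Subgroup.inclusion (le_sup_left : T ≤ T ⊔ centralizerIn S T) t =
          a (Subgroup.inclusion le_sup_left ((γ⁻¹ : MulAut T) t)) := Subtype.ext (by
        rw [haT, MulAut.apply_inv_self]; rfl)
      rw [this, MulAut.inv_apply_self]
      rfl
    have hδinv : ∀ y : Y, ((((δ⁻¹ : MulAut Y) y) : Y) : Ω) =
        (((a⁻¹ : MulAut _) ⟨y, Subgroup.mem_sup_right (h.hYC y.2)⟩ : ↥(T ⊔ centralizerIn S T)) : Ω) := by
      intro y
      generalize hz : (δ⁻¹ : MulAut Y) y = z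
      have h1 : a ⟨z, Subgroup.mem_sup_right (h.hYC z.2)⟩ = ⟨y, Subgroup.mem_sup_right (h.hYC y.2)⟩ :=
        Subtype.ext (by rw [← hδ, ← hz, MulAut.apply_inv_self])
      rw [← h1, MulAut.inv_apply_self]
    refine ⟨δ, ⟨?_, hiso ha haT hδ⟩, c₁, hautC ?_, ?_⟩
    · have h1 := hiso (inv_mem ha) hinv hδinv
      exact h1
    · refine ⟨hc.1 |> fun h1 => mem_of_agree le_rfl h1 fun x => hc₁ x, h.hYC, fun x => h.hYC (c₁ x).2, ?_⟩
      obtain ⟨ψ, hψ, hψP, hψT⟩ := hc.2.2.2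
      exact ⟨ψ, hψ, fun x => (hψP x).trans (hc₁ x).symm, hψT⟩
    · refine MulEquiv.ext fun y => Subtype.ext ?_
      refine Eq.trans (hce y (Subgroup.mem_sup_right (h.hYC (hcY y)))) ?_
      rw [MulAut.mul_apply, hδ]
      exact congrArg (fun z => ((a z : ↥(T ⊔ centralizerIn S T)) : Ω)) (Subtype.ext (hc₁ y).symm)
  refine ⟨⟨hD, h.hF, hDF, h.hY, fun P hPY φ hφ α hα => ?_, fun P hPY φ hφ => ?_⟩, ?_⟩
  · obtain ⟨δ, ⟨hδ, hδ'⟩, c, hc, rfl⟩ := hsplit α hα
    have hs := sysIso_of_invariant hDC.1.2.2 hc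
    have hfwd : Fwd (δ * c) D D := (show SysIso ((c : Y ≃* Y).trans δ) D D from hs.trans ⟨hδ, hδ'⟩).1
    set P' := (P.subgroupOf Y).map (Y.subtype.comp (δ * c).toMonoidHom)
    have hP' : P' ≤ Y := by rintro _ ⟨x, -, rfl⟩; exact Subtype.coe_prop _
    obtain ⟨χ, hχ⟩ := exists_corr (δ * c : Y ≃* Y) (val_mem hφ) hP' (by
      rintro ⟨_, x, hx, rfl⟩
      show (((δ * c : Y ≃* Y).symm ((δ * c : Y ≃* Y) x) : Y) : Ω) ∈ P
      rw [MulEquiv.symm_apply_apply]
      exact hx)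
    exact ⟨χ, hfwd P φ hφ P' χ hP' hχ, fun x hφx hαx => hχ.val_eq (x := ⟨x, hPY x.2⟩) x.2 rfl hφx⟩
  · obtain ⟨γ, a, ha, haT, c, hc, hcY, hce⟩ := h.decompose hφ hPY
    obtain ⟨δ, hδm, hδ⟩ := h.restrict_Y ha
    obtain ⟨θ, hθ, φ₀, hφ₀, hφ₀e⟩ := hDC.1.2.2.2.2.2 P hPY c ((cent_hom hTS P).symm ▸ hc)
    refine ⟨δ * θ, mul_mem hδm ((mem_autGroup hYS).2 ((mem_autGroup h.hYC).1 hθ).1), φ₀, hφ₀,
      fun x hx => ?_⟩
    refine Eq.trans (hce x (Subgroup.mem_sup_right (h.hYC (hcY x)))) ?_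
    rw [MulAut.mul_apply, hδ]
    exact congrArg (fun z => ((a z : ↥(T ⊔ centralizerIn S T)) : Ω)) (Subtype.ext (hφ₀e x hx))
  -- the extension condition
  intro α hα
  let W := Y ⊔ centralizerIn S Y
  have hWS : W ≤ S := sup_le hYS (centralizerIn_le S Y)
  let Z₀ := centralizerIn (centralizerIn S T) Y
  have hmapC : ∀ (β : MulAut W) (α : MulAut Y), β ∈ F.autGroup W →
      (∀ x : Y, ((β (Subgroup.inclusion le_sup_left x) : W) : Ω) = (α x : Ω)) →
      ∀ c : W, (c : Ω) ∈ centralizerIn S Y → ((β c : W) : Ω) ∈ centralizerIn S Y := by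
    intro β α hβ hβα c hc
    refine mem_centralizerIn.2 ⟨hWS (β c).2, fun y hy => ?_⟩
    obtain ⟨y', hy'⟩ := α.surjective ⟨y, hy⟩
    have h1 : (β (Subgroup.inclusion le_sup_left y') : Ω) = y := (hβα y').trans (congrArg Subtype.val hy')
    rw [← h1, ← Subgroup.coe_mul, ← Subgroup.coe_mul, ← map_mul, ← map_mul]
    exact congrArg (fun z : W => (β z : Ω)) (Subtype.ext ((mem_centralizerIn.1 hc).2 _ y'.2))
  let H : Subgroup (MulAut Y) :=
    { carrier := {α | ∃ β ∈ F.autGroup W,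
        (∀ x : Y, ((β (Subgroup.inclusion le_sup_left x) : W) : Ω) = (α x : Ω)) ∧
        ∀ c : W, (c : Ω) ∈ centralizerIn S Y → (c : Ω)⁻¹ * (β c : Ω) ∈ Y ⊓ Subgroup.centralizer (Y : Set Ω)}
      one_mem' := ⟨1, one_mem _, fun x => rfl, fun c _ => by simp⟩
      mul_mem' := by
        rintro a b ⟨β, hβ, hβT, hβC⟩ ⟨γ, hγ, hγT, hγC⟩
        refine ⟨β * γ, mul_mem hβ hγ, fun x => ?_, fun c hc => ?_⟩
        · rw [MulAut.mul_apply, MulAut.mul_apply, show γ (Subgroup.inclusion le_sup_left x) =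
            Subgroup.inclusion le_sup_left (b x) from Subtype.ext (hγT x)]
          exact hβT _
        · rw [MulAut.mul_apply]
          have h1 := mul_mem (hγC c hc) (hβC (γ c) (hmapC γ b hγ hγT c hc))
          rw [mul_assoc, mul_inv_cancel_left] at h1
          exact h1
      inv_mem' := by
        rintro a ⟨β, hβ, hβT, hβC⟩
        have hT' : ∀ x : Y, (β⁻¹ (Subgroup.inclusion le_sup_left x) : Ω) = (a⁻¹ x : Ω) := fun x => by
          rw [show Subgroup.inclusion le_sup_left x = β (Subgroup.inclusion le_sup_left (a⁻¹ x)) from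
            Subtype.ext (by rw [hβT, MulAut.apply_inv_self]; rfl), MulAut.inv_apply_self]
          rfl
        refine ⟨β⁻¹, inv_mem hβ, hT', fun c hc => ?_⟩
        have h1 := inv_mem (hβC (β⁻¹ c) (hmapC β⁻¹ a⁻¹ (inv_mem hβ) hT' c hc))
        rw [mul_inv_rev, inv_inv, MulAut.apply_inv_self] at h1
        exact h1 }
  suffices hH : D.autGroup Y ≤ H from hH hα
  refine autGroup_le_of_coprime (h.hS.to_le hYS) hD fullyNormalized_self H ?_ ?_
  · intro b hb
    obtain ⟨g, hg, hgb⟩ := exists_of_mem_autInducedBy hb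
    have hgN : g ∈ Subgroup.normalizer (W : Set Ω) := Subgroup.le_normalizer (Subgroup.mem_sup_left hg.1)
    refine ⟨conjAut W hgN, autInducedBy_le_autGroup hWS (conjAut_mem_autInducedBy (hYS hg.1) hgN),
      fun x => ?_, fun c hc => ?_⟩
    · rw [conjAut_apply, hgb]; rfl
    · rw [conjAut_apply, (mem_centralizerIn.1 hc).2 g hg.1, mul_inv_cancel_right, inv_mul_cancel]
      exact one_mem _
  intro b hb hcop
  have hbC := hDi.1 Y ((mem_autGroup le_rfl).1 hb)
  rw [cent_hom] at hbC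
  obtain ⟨hbF, -, -, ψ₀, hψ₀, hψ₀Y, hψ₀T⟩ := hbC
  let M := Y ⊔ T
  have hMS : M ≤ S := sup_le hYS hTS
  have hMfix : ∀ Q, F.IsConj M Q → Q = M := by
    rintro Q ⟨φ, hφ, rfl⟩
    have := finite_of_le hMS
    refine eq_of_le_card ?_ (Nat.card_congr (MonoidHom.ofInjective (F.injective_of_mem hφ)).toEquiv).le
    rintro _ ⟨w, rfl⟩
    exact sup_map_le (f := φ)
      (fun x => Subgroup.mem_sup_left (map_mem_of_stronglyClosed h.hY hφ _ x.2))
      (fun t => Subgroup.mem_sup_right (map_mem_of_stronglyClosed h.hT hφ _ t.2)) w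
  have hMfc : F.IsFullyCentralized M := ⟨hMS, fun Q hQ => by rw [hMfix Q hQ]⟩
  have : Finite M := finite_of_le hMS
  obtain ⟨e, heF, hee⟩ := exists_aut_of_self_map hψ₀ fun w => sup_map_le (f := ψ₀)
    (fun x => Subgroup.mem_sup_left ((hψ₀Y x).symm ▸ (b x).2))
    (fun t => Subgroup.mem_sup_right ((hψ₀T t).symm ▸ t.2)) w
  have he : IsIso F (e : M ≃* M) := (mem_autGroup hMS).1 heF
  obtain ⟨ψ, hψ, hψe⟩ := receptive_extend (fullyCentralized_receptive h.hS h.hF hMfc) he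
  have heY : ∀ y : Y, (e (Subgroup.inclusion le_sup_left y) : Ω) = (b y : Ω) := fun y =>
    (hee _).trans (hψ₀Y y)
  have heT : ∀ t : T, (e (Subgroup.inclusion le_sup_right t) : Ω) = t := fun t =>
    (hee _).trans (hψ₀T t)
  have hle : W ≤ extender S M (M.subtype.comp (e : M ≃* M).toMonoidHom) := by
    refine sup_le (le_sup_left.trans (le_extender he)) fun s hs => ?_
    have hsT : ∀ t ∈ T, s * t * s⁻¹ ∈ T := fun t ht =>
      conj_mem_of_mem_normalizer (le_normalizer_of_stronglyClosed h.hT hs.1) ht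
    have hsY : ∀ y ∈ Y, s * y * s⁻¹ = y := fun y hy => by
      rw [← (mem_centralizerIn.1 hs).2 y hy, mul_inv_cancel_right]
    have hsM : s ∈ Subgroup.normalizer (M : Set Ω) := by
      refine mem_normalizer_of_conj_mem fun x hx => ?_
      have hle : M ≤ M.comap (MulAut.conj s).toMonoidHom := sup_le
        (fun y hy => Subgroup.mem_sup_left (show s * y * s⁻¹ ∈ Y from (hsY y hy).symm ▸ hy))
        (fun t ht => Subgroup.mem_sup_right (hsT t ht))
      exact hle hx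
    refine mem_extender.2 ⟨hs.1, hsM, s, hs.1, fun x hx => ?_⟩
    let f₁ : M →* Ω := (M.subtype.comp (e : M ≃* M).toMonoidHom).comp (conjAut M hsM).toMonoidHom
    let f₂ : M →* Ω := (MulAut.conj s).toMonoidHom.comp (M.subtype.comp (e : M ≃* M).toMonoidHom)
    have hf : ∀ w, f₁ w * (f₂ w)⁻¹ ∈ (⊥ : Subgroup Ω) := by
      intro w
      rw [Subgroup.mem_bot, mul_inv_eq_one]
      refine DFunLike.congr_fun (?_ : f₁ = f₂) w
      refine sup_hom_ext (fun y => ?_) (fun t => ?_)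
      · show ((e (conjAut M hsM (Subgroup.inclusion le_sup_left y)) : M) : Ω) = s * _ * s⁻¹
        have h1 : conjAut M hsM (Subgroup.inclusion le_sup_left y) = Subgroup.inclusion le_sup_left y :=
          Subtype.ext (by rw [conjAut_apply]; exact hsY y y.2)
        rw [h1]
        show _ = s * (e (Subgroup.inclusion le_sup_left y) : Ω) * s⁻¹
        rw [heY, hsY _ (b y).2]
      · show ((e (conjAut M hsM (Subgroup.inclusion le_sup_right t)) : M) : Ω) = s * _ * s⁻¹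
        have h1 : conjAut M hsM (Subgroup.inclusion le_sup_right t) =
            Subgroup.inclusion le_sup_right ⟨s * t * s⁻¹, hsT t t.2⟩ :=
          Subtype.ext (by rw [conjAut_apply]; rfl)
        rw [h1, heT]
        show _ = s * (e (Subgroup.inclusion le_sup_right t) : Ω) * s⁻¹
        rw [heT]
    have h1 := hf x
    rw [Subgroup.mem_bot, mul_inv_eq_one] at h1
    refine Eq.trans (congrArg (M.subtype.comp (e : M ≃* M).toMonoidHom) (Subtype.ext ?_)) h1
    exact (conjAut_apply M hsM x).symm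
  have : Finite W := finite_of_le hWS
  have hψW := restrict_mem hle hψ
  have hmapW : ∀ w, ψ (Subgroup.inclusion hle w) ∈ W := fun w =>
    sup_map_le (f := ψ.comp (Subgroup.inclusion hle))
      (fun y => Subgroup.mem_sup_left (map_mem_of_stronglyClosed h.hY hψ _ y.2))
      (fun c => by
        refine Subgroup.mem_sup_right (mem_centralizerIn.2 ⟨val_mem hψ _, fun y hy => ?_⟩)
        obtain ⟨y', hy'⟩ := b.surjective ⟨y, hy⟩
        have hy'M : (y' : Ω) ∈ M := Subgroup.mem_sup_left y'.2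
        have h1 : ψ ⟨(y' : Ω), le_extender he hy'M⟩ = y :=
          (hψe ⟨y', hy'M⟩ _).trans ((heY y').trans (congrArg Subtype.val hy'))
        rw [← h1]
        show ψ _ * ψ _ = ψ _ * ψ _
        rw [← map_mul, ← map_mul]
        exact congrArg ψ (Subtype.ext ((mem_centralizerIn.1 c.2).2 _ y'.2))) w
  obtain ⟨β₀, hβ₀, hβ₀e⟩ := exists_aut_of_self_map hψW hmapW
  have := finite_mulAut hWS
  obtain ⟨m, hm, hm1⟩ := exists_pPrime_exponent β₀ (N := orderOf b) hcop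
  have hβ₀Y : ∀ y : Y, ((β₀ ⟨y, Subgroup.mem_sup_left y.2⟩ : W) : Ω) = (b y : Ω) := fun y =>
    (hβ₀e _).trans ((hψe ⟨y, Subgroup.mem_sup_left y.2⟩ _).trans (heY y))
  have hTW : T ≤ W := fun t ht => Subgroup.mem_sup_right (mem_centralizerIn.2
    ⟨hTS ht, fun y hy => ((mem_centralizerIn.1 (h.hYC hy)).2 t ht).symm⟩)
  have hβ₀T : ∀ t : T, ((β₀ ⟨t, hTW t.2⟩ : W) : Ω) = t := fun t =>
    (hβ₀e _).trans ((hψe ⟨t, Subgroup.mem_sup_right t.2⟩ _).trans (heT t))
  set β := β₀ ^ m with hβdef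
  have hβY : ∀ y : Y, ((β (Subgroup.inclusion le_sup_left y) : W) : Ω) = (b y : Ω) := fun y => by
    have h1 := pow_apply_eq (le_sup_left : Y ≤ W) (fun z => (hβ₀Y z).symm) m y
    rw [pow_eq_self_of_modEq hm1] at h1
    exact h1.symm
  have hβT : ∀ t : T, ((β (Subgroup.inclusion hTW t) : W) : Ω) = t := fun t => by
    have h1 := pow_apply_eq hTW (α := (1 : MulAut T)) (fun z => (hβ₀T z).symm) m t
    rw [one_pow] at h1
    exact h1.symm
  have hβm : β ∈ F.autGroup W := pow_mem hβ₀ m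
  have hβC := hmapC β b hβm hβY
  -- `β` moves `C_S(Y)` only inside `C_S(T)`
  have hstep : ∀ c : W, (c : Ω) ∈ centralizerIn S Y → (c : Ω)⁻¹ * (β c : Ω) ∈ Z₀ := by
    intro c hc
    have h1 := mul_mem (inv_mem hc) (hβC c hc)
    refine mem_centralizerIn.2 ⟨mem_centralizerIn.2 ⟨h1.1, fun t ht => ?_⟩, (mem_centralizerIn.1 h1).2⟩
    have hct : (c : Ω) * t * (c : Ω)⁻¹ ∈ T :=
      conj_mem_of_mem_normalizer (le_normalizer_of_stronglyClosed h.hT hc.1) ht
    have e1 := hβT ⟨_, hct⟩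
    rw [show Subgroup.inclusion hTW ⟨_, hct⟩ = c * Subgroup.inclusion hTW ⟨t, ht⟩ * c⁻¹ from rfl,
      map_mul, map_mul, map_inv, Subgroup.coe_mul, Subgroup.coe_mul, Subgroup.coe_inv, hβT] at e1
    have e2 : (c : Ω)⁻¹ * ((β c : Ω) * t * (β c : Ω)⁻¹) * c = t := by rw [e1]; group
    calc t * ((c : Ω)⁻¹ * (β c : Ω))
        = (c : Ω)⁻¹ * ((β c : Ω) * t * (β c : Ω)⁻¹) * c * ((c : Ω)⁻¹ * (β c : Ω)) := by rw [e2]
      _ = (c : Ω)⁻¹ * (β c : Ω) * t := by group
  -- and inside `C_S(T)` only inside `Y`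
  let U : Subgroup W := (centralizerIn S Y).subgroupOf W
  let V : Subgroup U := (Z₀.subgroupOf W).subgroupOf U
  have hβU : ∀ u : W, u ∈ U → β u ∈ U := fun u hu => hβC u hu
  have : Finite U := inferInstance
  obtain ⟨βU, hβUe⟩ : ∃ βU : MulAut U, ∀ u : U, ((βU u : U) : W) = β u := by
    have hsur : U.map (β : W ≃* W).toMonoidHom = U := eq_of_le_card
      (by rintro _ ⟨u, hu, rfl⟩; exact hβU u hu)
      (Nat.card_congr (U.equivMapOfInjective _ (β : W ≃* W).injective).toEquiv).le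
    exact ⟨(U.equivMapOfInjective _ (β : W ≃* W).injective).trans (MulEquiv.subgroupCongr hsur),
      fun u => rfl⟩
  have hcopU : (orderOf βU).Coprime p := by
    refine Nat.Coprime.coprime_dvd_left (orderOf_dvd_of_pow_eq_one ?_) hm
    have key : ∀ (n : ℕ) (u : U), (((βU ^ n) u : U) : W) = (β ^ n) u := by
      intro n
      induction n with
      | zero => intro u; rfl
      | succ n ih => intro u; rw [pow_succ', pow_succ', MulAut.mul_apply, MulAut.mul_apply, hβUe, ih]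
    ext u
    rw [key, pow_orderOf_eq_one]
    rfl
  have hUp : IsPGroup p U := (h.hS.to_le hWS).to_subgroup U
  refine ⟨β, hβm, hβY, fun c hc => ?_⟩
  have hdisp := ResidualLimit.disp_mem hUp βU hcopU V (fun u => by
    show (((u⁻¹ * βU u : U) : W) : Ω) ∈ Z₀
    rw [Subgroup.coe_mul, Subgroup.coe_inv, hβUe, Subgroup.coe_mul, Subgroup.coe_inv]
    exact hstep u u.2) ⟨c, hc⟩
  -- the part inside `C_S(T)`
  let Q : Subgroup Ω := Y ⊔ Z₀
  have hZC : Z₀ ≤ centralizerIn S T := centralizerIn_le _ _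
  have hQC : Q ≤ centralizerIn S T := sup_le h.hYC hZC
  have hZS : Z₀ ≤ centralizerIn S Y := fun z hz => ⟨hC (hZC hz), hz.2⟩
  have hQW : Q ≤ W := sup_le_sup_left hZS Y
  have hQTW : Q ⊔ T ≤ W := sup_le hQW hTW
  let fQ := (W.subtype.comp (β : W ≃* W).toMonoidHom).comp (Subgroup.inclusion hQTW)
  have hfQ : fQ ∈ F.Hom (Q ⊔ T) := restrict_mem hQTW ((mem_autGroup hWS).1 hβm)
  have hfQC : ∀ q : Q, fQ (Subgroup.inclusion le_sup_left q) ∈ centralizerIn S T := fun q => by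
    refine mem_centralizerIn.2 ⟨val_mem hfQ _, fun t ht => ?_⟩
    have h1 : fQ (Subgroup.inclusion le_sup_right ⟨t, ht⟩) = t := hβT ⟨t, ht⟩
    rw [← h1, ← map_mul, ← map_mul]
    exact congrArg fQ (Subtype.ext ((mem_centralizerIn.1 (hQC q.2)).2 t ht))
  have hφQ : fQ.comp (Subgroup.inclusion le_sup_left) ∈ (cent F hTS).Hom Q := by
    rw [cent_hom]
    exact ⟨restrict_mem le_sup_left hfQ, hQC, hfQC, fQ, hfQ, fun _ => rfl, fun t => hβT t⟩
  have : Finite Q := finite_of_le (hQC.trans hC)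
  obtain ⟨βQ, hβQ, hβQe⟩ := exists_aut_of_self_map hφQ fun q =>
    sup_map_le (f := fQ.comp (Subgroup.inclusion le_sup_left))
      (fun y => Subgroup.mem_sup_left ((congrArg (· ∈ Y) (hβY y)).mpr (b y).2))
      (fun z => Subgroup.mem_sup_right (mem_centralizerIn.2 ⟨hfQC _,
        (mem_centralizerIn.1 (hβC _ (hZS z.2))).2⟩)) q
  have hcopQ : (orderOf βQ).Coprime p := by
    refine Nat.Coprime.coprime_dvd_left (orderOf_dvd_of_pow_eq_one ?_) hm
    exact restrict_pow_eq hQW (fun z => hβQe z) (pow_orderOf_eq_one _)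
  have hle2 : Subgroup.closure {z : U | ∃ r ∈ V, z = r⁻¹ * βU r} ≤
      ((Y ⊓ Subgroup.centralizer (Y : Set Ω)).comap (W.subtype.comp U.subtype)) := by
    refine (Subgroup.closure_le _).2 ?_
    rintro _ ⟨r, hr, rfl⟩
    have h1 := hhyp (inv_mul_mem_hyperfocal (F := cent F hTS) hQC (α := ⟨βQ, hβQ⟩)
      (coprime_mem_pResidual hcopQ) ⟨((r : W) : Ω), Subgroup.mem_sup_right hr⟩)
    rw [hβQe] at h1
    refine ⟨?_, ?_⟩
    · show (((r⁻¹ * βU r : U) : W) : Ω) ∈ Y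
      rw [Subgroup.coe_mul, Subgroup.coe_inv, hβUe, Subgroup.coe_mul, Subgroup.coe_inv]
      exact h1
    · exact (SetLike.coe_mem (r⁻¹ * βU r)).2
  have h2 := hle2 hdisp
  rw [Subgroup.mem_comap] at h2
  simp only [MonoidHom.comp_apply, Subgroup.coe_subtype, Subgroup.coe_mul, Subgroup.coe_inv,
    hβUe] at h2
  exact h2

end Cfsg.Agent.Lib.Fusion.CentralizerSub
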