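import Cfsg.Agent.Lib.Fusion.Transport
import Cfsg.Agent.Lib.Fusion.Realized
import Cfsg.Agent.Lib.Fusion.ModelGroup
import Cfsg.Agent.Lib.Thompson.Stable
import Cfsg.Agent.S5103
import Cfsg.Agent.S5118
import Cfsg.Agent.S5342

/-!
Systems with one realization between them are constrained together; constrained systems of subnormal subgroups.
-/

set_option autoImplicit false

universe u v w

namespace Cfsg.Agent.Lib.Fusion

open Cfsg Cfsg.FusionSystem

variable {Ω : Type u} [Group Ω] {S : Subgroup Ω} {Ω' : Type v} [Group Ω'] {S' : Subgroup Ω'} {p : ℕ}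

/-- The realization condition, read through an isomorphism of the underlying groups. -/
theorem cond_iff {X : Type*} [Group X] (j : S →* X) (e : S ≃* S') {P' : Subgroup Ω'} (hP' : P' ≤ S')
    {φ' : P' →* Ω'} (hφ' : ∀ x, φ' x ∈ S') {P : Subgroup Ω} (hPe : P = imageAlong (S.subtype.comp e.symm.toMonoidHom) P')
    (hP : P ≤ S) {φ : P →* Ω} (hφ : ∀ x, φ x ∈ S) (hc : Corr e.symm φ' φ) :
    (∃ l : X, ∀ x : P, j ⟨φ x, hφ x⟩ = l * j ⟨x, hP x.2⟩ * l⁻¹) ↔
      ∃ l : X, ∀ y : P', (j.comp e.symm.toMonoidHom) ⟨φ' y, hφ' y⟩ =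
        l * (j.comp e.symm.toMonoidHom) ⟨y, hP' y.2⟩ * l⁻¹ := by
  constructor
  · rintro ⟨l, hl⟩
    refine ⟨l, fun y => ?_⟩
    have hy : ((e.symm ⟨y, hP' y.2⟩ : S) : Ω) ∈ P := hPe ▸ ⟨⟨y, hP' y.2⟩, y.2, rfl⟩
    have h1 := hl ⟨_, hy⟩
    have h2 := hc.val_eq (y := ⟨_, hy⟩) (x := ⟨(y : Ω'), hP' y.2⟩) y.2 rfl (hφ' _)
    rw [show (⟨φ ⟨_, hy⟩, hφ _⟩ : S) = e.symm ⟨φ' y, hφ' y⟩ from Subtype.ext h2] at h1
    exact h1
  · rintro ⟨l, hl⟩
    refine ⟨l, fun x => ?_⟩
    obtain ⟨y, s, hy, h1, h2, h3⟩ := hc x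
    have h4 := hl ⟨y, hy⟩
    rw [show (⟨φ x, hφ x⟩ : S) = e.symm s from Subtype.ext h3,
      show (⟨(x : Ω), hP x.2⟩ : S) = e.symm y from Subtype.ext h1.symm,
      show s = ⟨φ' ⟨y, hy⟩, hφ' _⟩ from Subtype.ext h2]
    exact h4

/-- A second realization of a system gives one of every system sharing the first. -/
theorem realized_change {B : Type*} [Group B] {L : Type*} [Group L] {F : FusionSystem S} {F' : FusionSystem S'}
    {ι : S →* B} {ι' : S' →* B} (hr : F.IsRealizedBy ι) (hr' : F'.IsRealizedBy ι') (e : S ≃* S')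
    (he : ∀ s, ι' (e s) = ι s) {κ : S →* L} (hκ : F.IsRealizedBy κ) :
    F'.IsRealizedBy (κ.comp e.symm.toMonoidHom) := by
  refine ⟨hκ.1.comp e.symm.injective, fun P' hP' φ' hφ' => ?_⟩
  set P := imageAlong (S.subtype.comp e.symm.toMonoidHom) P' with hPdef
  have hP : P ≤ S := by rintro _ ⟨x, -, rfl⟩; exact (e.symm x).2
  obtain ⟨φ, hc⟩ := exists_corr e.symm hφ' hP (by
    rintro ⟨_, z, hz, rfl⟩
    show ((e.symm.symm (e.symm z) : S') : Ω') ∈ P'
    rw [MulEquiv.symm_symm, MulEquiv.apply_symm_apply]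
    exact hz)
  have hφ : ∀ x, φ x ∈ S := fun x => by
    obtain ⟨y, s, hy, -, -, h3⟩ := hc x
    rw [h3]; exact (e.symm s).2
  have heq : ι' = ι.comp e.symm.toMonoidHom := MonoidHom.ext fun y => by
    show ι' y = ι (e.symm y)
    rw [← he, MulEquiv.apply_symm_apply]
  rw [hr'.2 P' hP' φ' hφ', heq, ← cond_iff ι e hP' hφ' hPdef hP hφ hc, ← hr.2 P hP φ hφ, hκ.2 P hP φ hφ,
    cond_iff κ e hP' hφ' hPdef hP hφ hc]

/-- Systems sharing a realization are constrained together. -/
theorem constrained_change [Finite S] [Fact p.Prime] (hS : IsPGroup p S) {B : Type*} [Group B]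
    {F : FusionSystem S} {F' : FusionSystem S'} {ι : S →* B} {ι' : S' →* B} (hr : F.IsRealizedBy ι)
    (hr' : F'.IsRealizedBy ι') (e : S ≃* S') (he : ∀ s, ι' (e s) = ι s) (hF : F.IsConstrained p) :
    F'.IsConstrained p := by
  have : Finite S' := Finite.of_equiv S e.toEquiv
  obtain ⟨L, _, κ, hfin, hκ, ⟨T, hT⟩, hc⟩ := exists_model hS hF
  refine S5103.result p (hS.of_equiv e) F' (κ.comp e.symm.toMonoidHom)
    ⟨hfin, realized_change hr hr' e he hκ, ⟨T, ?_⟩, hc⟩
  rw [hT]
  ext y
  exact ⟨fun ⟨x, hx⟩ => ⟨e x, by simpa using hx⟩, fun ⟨x, hx⟩ => ⟨e.symm x, hx⟩⟩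

theorem realized_comp_equiv {G : Type*} [Group G] {B : Type*} [Group B] {F : FusionSystem S} {ι : S →* G}
    (hr : F.IsRealizedBy ι) (f : G ≃* B) : F.IsRealizedBy (f.toMonoidHom.comp ι) := by
  refine ⟨f.injective.comp hr.1, fun P hP φ hφ => (hr.2 P hP φ hφ).trans ⟨fun ⟨g, hg⟩ => ⟨f g, fun x => ?_⟩, fun ⟨b, hb⟩ => ⟨f.symm b, fun x => ?_⟩⟩⟩
  · show f _ = f g * f _ * (f g)⁻¹
    rw [hg x, map_mul, map_mul, map_inv]
  · apply f.injective
    rw [map_mul, map_mul, map_inv, f.apply_symm_apply]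
    exact hb x

/-- Constrained group systems are carried along isomorphisms of groups. -/
theorem group_constrained_map {A : Type*} [Group A] [Finite A] {B : Type*} [Group B] [Fact p.Prime] (f : A ≃* B)
    (T : Subgroup A) (hT : IsPGroup p T) (h : (groupFusionSystem T).IsConstrained p) :
    (groupFusionSystem (T.map f.toMonoidHom)).IsConstrained p :=
  constrained_change hT (realized_comp_equiv (realized_group T) f) (realized_group _) (f.subgroupMap T) (fun _ => rfl) h

/-- A normal subgroup of a group with constrained system has a constrained system. -/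
theorem group_constrained_normal {A : Type*} [Group A] [Finite A] [Fact p.Prime] (P : Sylow p A)
    (h : (groupFusionSystem (P : Subgroup A)).IsConstrained p) (N : Subgroup A) [N.Normal] :
    ∃ P' : Sylow p N, (P' : Subgroup N) = (P : Subgroup A).subgroupOf N ∧
      (groupFusionSystem (P' : Subgroup N)).IsConstrained p := by
  obtain ⟨P', hP'⟩ := Thompson.exists_sylow_inf_normal P N
  have hP'' : (P' : Subgroup N) = (P : Subgroup A).subgroupOf N := by
    apply Subgroup.map_injective N.subtype_injective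
    rw [hP', Subgroup.subgroupOf_map_subtype]
  refine ⟨P', hP'', ?_⟩
  have hE := S5342.weaklyNormal_constrained P.isPGroup' h (S5118.result p P N).1
  let e : ↥((P : Subgroup A) ⊓ N) ≃* (P' : Subgroup N) :=
    { toFun := fun x => ⟨⟨x, x.2.2⟩, hP'' ▸ x.2.1⟩
      invFun := fun y => ⟨(y : N), (hP''.le y.2 : ((y : N) : A) ∈ (P : Subgroup A)), (y : N).2⟩
      left_inv := fun x => rfl
      right_inv := fun y => rfl
      map_mul' := fun a b => rfl }
  exact constrained_change (P.isPGroup'.to_le inf_le_left) (realized_subgroup inf_le_right) (realized_group _) e (fun _ => rfl) hE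

/-- The system of a subnormal subgroup of a group with constrained system is constrained. -/
theorem group_constrained_subnormal {G : Type*} [Group G] [Finite G] [Fact p.Prime] (S : Sylow p G)
    (hF : (groupFusionSystem (S : Subgroup G)).IsConstrained p) {H : Subgroup G} (hH : H.IsSubnormal) :
    ∃ P : Sylow p H, (P : Subgroup H) = (S : Subgroup G).subgroupOf H ∧
      (groupFusionSystem (P : Subgroup H)).IsConstrained p := by
  induction hH with
  | top =>
    let f : G ≃* (⊤ : Subgroup G) := Subgroup.topEquiv.symm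
    have hPf : ((S.mapSurjective (f := f.toMonoidHom) f.surjective : Sylow p (⊤ : Subgroup G)) : Subgroup (⊤ : Subgroup G)) =
        (S : Subgroup G).map f.toMonoidHom := Sylow.coe_mapSurjective _ _
    refine ⟨S.mapSurjective (f := f.toMonoidHom) f.surjective, ?_, ?_⟩
    · rw [hPf]
      ext x
      constructor
      · rintro ⟨y, hy, rfl⟩; exact hy
      · intro hx; exact ⟨x, hx, rfl⟩
    · rw [hPf]; exact group_constrained_map f _ S.isPGroup' hF
  | step H K hle hK hN ih =>
    obtain ⟨P, hP, hc⟩ := ih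
    obtain ⟨P', hP', hc'⟩ := group_constrained_normal P hc (H.subgroupOf K)
    let f : H.subgroupOf K ≃* H := Subgroup.subgroupOfEquivOfLe hle
    have hPf : ((P'.mapSurjective (f := f.toMonoidHom) f.surjective : Sylow p H) : Subgroup H) =
        (P' : Subgroup (H.subgroupOf K)).map f.toMonoidHom := Sylow.coe_mapSurjective _ _
    refine ⟨P'.mapSurjective (f := f.toMonoidHom) f.surjective, ?_, ?_⟩
    · rw [hPf, hP']
      ext x
      constructor
      · rintro ⟨y, hy, rfl⟩
        have hy' : (y : K) ∈ (P : Subgroup K) := hy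
        rw [hP] at hy'
        exact hy'
      · intro hx
        refine ⟨⟨⟨x, hle x.2⟩, x.2⟩, ?_, rfl⟩
        show (⟨(x : G), hle x.2⟩ : K) ∈ (P : Subgroup K)
        rw [hP]
        exact hx
    · rw [hPf]; exact group_constrained_map f _ P'.isPGroup' hc'

end Cfsg.Agent.Lib.Fusion
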