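import Cfsg.Agent.Lib.Fusion.SmallExp
import Cfsg.Agent.Lib.Fusion.Solvable

/-!
The second centre of a system equal to its hyperfocal part.
-/

set_option autoImplicit false

namespace Cfsg.Agent.Lib.Fusion

open Cfsg Cfsg.FusionSystem
open scoped commutatorElement

variable {Ω : Type*} [Group Ω] {S : Subgroup Ω} {F : FusionSystem S} {p : ℕ} {Ω' : Type*} [Group Ω']
  {S' : Subgroup Ω'}

/-- The maps fixing `X` pointwise. -/
def fixSystem (F : FusionSystem S) (X : Subgroup Ω) (hX : F.StronglyClosed X)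
    (hXS : ∀ x ∈ X, ∀ s ∈ S, s * x = x * s) : FusionSystem S where
  Hom P := {φ | φ ∈ F.Hom P ∧ ∀ x : P, (x : Ω) ∈ X → φ x = x}
  le_of_mem h := F.le_of_mem h.1
  injective_of_mem h := F.injective_of_mem h.1
  conj_mem {P g} hP hg := ⟨F.conj_mem hP hg, fun x hx => by
    show g * x * g⁻¹ = x
    rw [hXS x hx g hg, mul_inv_cancel_right]⟩
  comp_mem {_ _ φ ψ} hφ hψ h := ⟨F.comp_mem hφ.1 hψ.1 h, fun x hx => by
    show ψ ⟨φ x, h x⟩ = x
    exact (hψ.2 ⟨φ x, h x⟩ (show φ x ∈ X from (hφ.2 x hx).symm ▸ hx)).trans (hφ.2 x hx)⟩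
  inv_mem {P φ} hφ := by
    obtain ⟨ψ, hψ, hψe⟩ := F.inv_mem hφ.1
    refine ⟨ψ, ⟨hψ, ?_⟩, hψe⟩
    rintro ⟨_, x, rfl⟩ hx
    have hxX : (x : Ω) ∈ X := by
      have h1 := map_mem_of_stronglyClosed hX hψ ⟨φ x, ⟨x, rfl⟩⟩ hx
      rwa [hψe x] at h1
    rw [hψe x]
    exact (hφ.2 x hxX).symm

theorem center_factor_eq_bot [Finite S] [Fact p.Prime] (hS : IsPGroup p S) (hF : F.IsSaturated p)
    (hperf : F.hyperfocalSubgroup p = S) {θ : S →* Ω'} {E : FusionSystem S'}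
    (hE : F.IsFactorSystem F.center θ E) : E.center = ⊥ := by
  have := finite_of_factor hE
  obtain ⟨-, hker, hrange, -⟩ := id hE
  have hZ : F.StronglyClosed F.center :=
    stronglyClosed_of_isNormal (isNormal_of_isCentral isCentral_center)
  have hmor := (isSurjectiveMorphism_of_factor hS hF hZ hE).1
  have hW := isCentral_center (F := E)
  have hWc := stronglyClosed_of_isNormal (isNormal_of_isCentral hW)
  set X := preimageAlong θ E.center
  have hX : F.StronglyClosed X := stronglyClosed_preimageAlong hmor hWc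
  have hZX : F.center ≤ X := kernel_le_preimage hker hZ.1 _
  have hZfix : ∀ (P : Subgroup Ω) (φ : P →* Ω), φ ∈ F.Hom P → ∀ x : P, (x : Ω) ∈ F.center →
      φ x = x := by
    intro P φ hφ x hx
    obtain ⟨ψ, -, hψP, hψQ⟩ := (isCentral_center (F := F)).2 P φ hφ
    rw [← hψP x]
    exact hψQ ⟨x, hx⟩
  have hmove : ∀ (P : Subgroup Ω) (φ : P →* Ω), φ ∈ F.Hom P → ∀ x : P, (x : Ω) ∈ X →
      (x : Ω)⁻¹ * φ x ∈ F.center := by
    intro P φ hφ x hx
    obtain ⟨φ', hφ', h₁, h₂, h₃, he⟩ := hmor.2 P φ hφ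
    obtain ⟨hxS, hxW⟩ := mem_preimageAlong.1 hx
    obtain ⟨ψ, -, hψP, hψQ⟩ := hW.2 _ φ' hφ'
    have h4 := hψP ⟨_, h₃ x⟩
    rw [he x, show Subgroup.inclusion le_sup_left (⟨_, h₃ x⟩ : imageAlong θ P) =
        Subgroup.inclusion le_sup_right (⟨_, hxW⟩ : E.center) from Subtype.ext rfl, hψQ ⟨_, hxW⟩] at h4
    have h5 : θ (⟨(x : Ω), hxS⟩⁻¹ * ⟨φ x, h₂ x⟩) = 1 := by
      rw [map_mul, map_inv, ← h4, inv_mul_cancel]
    exact (hker _).1 h5
  have hcomm : ∀ x ∈ X, ∀ s ∈ S, ⁅x, s⁆ ∈ F.center := by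
    intro x hx s hs
    have h1 := hmove S _ (F.conj_mem le_rfl hs) ⟨x⁻¹, S.inv_mem (hX.1 hx)⟩ (X.inv_mem hx)
    simpa [conjHom, commutatorElement_def, mul_assoc] using h1
  have hZc : ∀ z ∈ F.center, ∀ s ∈ S, s * z = z * s := fun z hz s hs =>
    F.center_le_centralizer hz s hs
  have hXn : F.IsNormal X := by
    refine isNormal_of_closed_chain hS hF hX 2
      (fun j => if j = 0 then ⊥ else if j = 1 then F.center else X) rfl rfl
      (fun j hj => by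
        rcases show j = 0 ∨ j = 1 by omega with rfl | rfl
        · exact hZ
        · exact hX) fun j hj g hg x hx => ?_
    rcases show j = 0 ∨ j = 1 by omega with rfl | rfl
    · simp only [zero_add, one_ne_zero, if_false, if_true] at hx ⊢
      rw [Subgroup.mem_bot, commutatorElement_eq_one_iff_mul_comm]
      exact hZc x hx g (hX.1 hg)
    · simp only [show (1 + 1 : ℕ) = 2 from rfl, OfNat.ofNat_ne_zero, OfNat.ofNat_ne_one,
        one_ne_zero, if_false, if_true] at hx ⊢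
      exact hcomm g hg x (hX.1 hx)
  have hhom : ∀ x ∈ X, ∀ s ∈ S, ∀ t ∈ S, ⁅x, s * t⁆ = ⁅x, s⁆ * ⁅x, t⁆ := by
    intro x hx s hs t ht
    have h1 : s * ⁅x, t⁆ * s⁻¹ = ⁅x, t⁆ := by
      rw [hZc _ (hcomm x hx t ht) s hs, mul_inv_cancel_right]
    conv_rhs => rw [← h1]
    simp [commutatorElement_def, mul_assoc]
  have hmoved : ∀ (P : Subgroup Ω) (φ : P →* Ω), φ ∈ F.Hom P → ∀ y : P, ∀ x ∈ X,
      ⁅x, (y : Ω)⁻¹ * φ y⁆ = 1 := by
    intro P φ hφ y x hx
    obtain ⟨ψ, hψ, hψP, -⟩ := hXn.2 P φ hφ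
    have hyS : (y : Ω) ∈ S := src_le hφ y.2
    have hc := hcomm x hx y hyS
    have hxm : x ∈ P ⊔ X := Subgroup.mem_sup_right hx
    have hym : (y : Ω) ∈ P ⊔ X := Subgroup.mem_sup_left y.2
    have h1 := hZfix _ ψ hψ ⁅(⟨x, hxm⟩ : ↥(P ⊔ X)), ⟨y, hym⟩⁆ hc
    rw [map_commutatorElement, show ψ ⟨y, hym⟩ = φ y from hψP y] at h1
    have hd := hmove _ ψ hψ ⟨x, hxm⟩ hx
    have h2 : ψ ⟨x, hxm⟩ = x * (x⁻¹ * ψ ⟨x, hxm⟩) := by group
    set d := x⁻¹ * ψ ⟨x, hxm⟩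
    have h3 : ⁅x * d, φ y⁆ = ⁅x, φ y⁆ := by
      rw [commutatorElement_def, commutatorElement_def, mul_inv_rev,
        show x * d * φ y * (d⁻¹ * x⁻¹) = x * (d * φ y * d⁻¹) * x⁻¹ by group,
        ← hZc d hd (φ y) (val_mem hφ y), mul_inv_cancel_right]
    rw [h2, h3] at h1
    rw [hhom x hx _ (S.inv_mem hyS) _ (val_mem hφ y), h1]
    show ⁅x, (y : Ω)⁻¹⁆ * ⁅x, (y : Ω)⁆ = 1
    rw [← hhom x hx _ (S.inv_mem hyS) _ hyS, inv_mul_cancel, commutatorElement_one_right]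
  have hXS : ∀ x ∈ X, ∀ s ∈ S, s * x = x * s := by
    intro x hx s hs
    have hle : F.hyperfocalSubgroup p ≤ Subgroup.centralizer {x} := hyperfocal_le fun P hP α hα _ y => by
      rw [Subgroup.mem_centralizer_singleton_iff]
      exact (commutatorElement_eq_one_iff_mul_comm.1
        (hmoved P _ ((mem_autGroup hP).1 hα) y x hx)).symm
    exact Subgroup.mem_centralizer_singleton_iff.1 (hle (hperf.symm ▸ hs))
  have hle : F ≤ fixSystem F X hX hXS := by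
    refine alperin hS hF _ fun R hR => ?_
    obtain ⟨-, -, hn⟩ := centric_radical_of_top_or_essential hS hF hR
    refine autGroup_le_of_coprime hS hF hn _ (autInducedBy_le_autGroup hn.1) fun α hα hcop => ?_
    have hα' := (mem_autGroup hn.1).1 hα
    refine (mem_autGroup hn.1).2 ⟨hα', fun x hx => ?_⟩
    have hd := hmove R _ hα' x hx
    set d : Ω := (x : Ω)⁻¹ * (α x : Ω)
    have hdR : d ∈ R := R.mul_mem (R.inv_mem x.2) (α x).2
    have hfix : α ⟨d, hdR⟩ = ⟨d, hdR⟩ := Subtype.ext (hZfix R _ hα' ⟨d, hdR⟩ hd)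
    have hstep : α x = x * ⟨d, hdR⟩ := Subtype.ext (by simp [d])
    have hpow : ∀ k : ℕ, (α ^ k) x = x * ⟨d, hdR⟩ ^ k := by
      intro k
      induction k with
      | zero => simp
      | succ k ih =>
        rw [pow_succ', MulAut.mul_apply, ih, map_mul, map_pow, hfix, hstep, pow_succ', mul_assoc]
    have h1 := hpow (orderOf α)
    rw [pow_orderOf_eq_one, MulAut.one_apply, left_eq_mul] at h1
    have h6 := eq_one_of_pGroup_coprime ((hS.to_le hn.1) ⟨d, hdR⟩) h1 hcop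
    show (α x : Ω) = x
    rw [hstep, h6, mul_one]
  have hXc : F.IsCentral X := by
    refine ⟨hX.1, fun P φ hφ => ?_⟩
    obtain ⟨ψ, hψ, hψP, -⟩ := hXn.2 P φ hφ
    exact ⟨ψ, hψ, hψP, fun x => (hle _ hψ).2 _ x.2⟩
  refine (Subgroup.eq_bot_iff_forall _).2 fun w hw => ?_
  obtain ⟨s, rfl⟩ := hrange.ge (hW.1 hw)
  exact (hker s).2 (le_center hXc (mem_preimageAlong.2 ⟨s.2, hw⟩))

end Cfsg.Agent.Lib.Fusion
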