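import Cfsg.Agent.Lib.Fusion.Realized
import Mathlib.GroupTheory.SemidirectProduct

/-!
Systems realized by a given embedding, and the system of a semidirect product.
-/

set_option autoImplicit false

namespace Cfsg.Agent.Lib.Fusion

open Cfsg Cfsg.FusionSystem

variable {Ω : Type*} [Group Ω] {S : Subgroup Ω} {p : ℕ}

/-- The system realized by an injective homomorphism. -/
def realizedSystem {G : Type*} [Group G] (ι : S →* G) (hι : Function.Injective ι) :
    FusionSystem S where
  Hom P := {φ | ∃ (hP : P ≤ S) (hφ : ∀ x : P, φ x ∈ S), ∃ g : G,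
    ∀ x : P, ι ⟨φ x, hφ x⟩ = g * ι ⟨x, hP x.2⟩ * g⁻¹}
  le_of_mem := fun ⟨hP, hφ, _⟩ => ⟨hP, hφ⟩
  injective_of_mem := by
    rintro P φ ⟨hP, hφ, g, hg⟩ a b hab
    have h := (hg a).symm.trans ((congrArg ι (Subtype.ext hab)).trans (hg b))
    exact Subgroup.inclusion_injective hP (hι (mul_left_cancel (mul_right_cancel h)))
  conj_mem := by
    intro P g hP hg
    refine ⟨hP, fun x => S.mul_mem (S.mul_mem hg (hP x.2)) (S.inv_mem hg), ι ⟨g, hg⟩, fun x => ?_⟩
    rw [← map_inv, ← map_mul, ← map_mul]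
    rfl
  comp_mem := by
    rintro P Q φ ψ ⟨hP, hφ, g, hg⟩ ⟨hQ, hψ, k, hk⟩ hm
    refine ⟨hP, fun x => hψ _, k * g, fun x => ?_⟩
    show ι ⟨ψ ⟨φ x, hm x⟩, _⟩ = _
    rw [hk ⟨φ x, hm x⟩, hg x]
    group
  inv_mem := by
    rintro P φ ⟨hP, hφ, g, hg⟩
    have hinj : Function.Injective φ := fun a b hab =>
      Subgroup.inclusion_injective hP (hι (mul_left_cancel (mul_right_cancel
        ((hg a).symm.trans ((congrArg ι (Subtype.ext hab)).trans (hg b))))))
    let e : P ≃* φ.range := MonoidHom.ofInjective hinj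
    refine ⟨P.subtype.comp e.symm.toMonoidHom, ⟨fun _ ⟨x, hx⟩ => hx ▸ hφ x, fun y => hP (e.symm y).2,
      g⁻¹, fun y => ?_⟩, fun x => congrArg Subtype.val (e.symm_apply_apply x)⟩
    obtain ⟨x, rfl⟩ := e.surjective y
    show ι ⟨((e.symm (e x) : P) : Ω), _⟩ = g⁻¹ * ι ⟨φ x, hφ x⟩ * g⁻¹⁻¹
    rw [hg x, inv_inv, show (⟨((e.symm (e x) : P) : Ω), hP (e.symm (e x)).2⟩ : S) = ⟨x, hP x.2⟩ from
      Subtype.ext (congrArg Subtype.val (e.symm_apply_apply x) :)]
    group

theorem realizedSystem_realized {G : Type*} [Group G] (ι : S →* G) (hι : Function.Injective ι) :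
    (realizedSystem ι hι).IsRealizedBy ι :=
  ⟨hι, fun _ hP _ hφ => ⟨fun ⟨_, _, h⟩ => h, fun h => ⟨hP, hφ, h⟩⟩⟩

/-- Every group of automorphisms of order prime to `p` occurs in a saturated system. -/
theorem exists_saturated_autGroup [Finite S] [Fact p.Prime] (hS : IsPGroup p S)
    (H : Subgroup (MulAut S)) (hH : (Nat.card H).Coprime p) :
    ∃ F : FusionSystem S, F.IsSaturated p ∧ H ≤ F.autGroup S := by
  have := finite_mulAut (S := S) (P := S) le_rfl
  let G := S ⋊[H.subtype] H
  have : Finite G := Finite.of_equiv _ SemidirectProduct.equivProd.symm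
  let ι : S →* G := SemidirectProduct.inl
  have hι : Function.Injective ι := SemidirectProduct.inl_injective
  have hr := realizedSystem_realized ι hι
  have hc : Nat.card ι.range = Nat.card S := (Nat.card_congr (MonoidHom.ofInjective hι).toEquiv).symm
  have hidx : ι.range.index = Nat.card H := by
    have h1 := ι.range.card_mul_index
    rw [hc, SemidirectProduct.card] at h1
    exact Nat.eq_of_mul_eq_mul_left Nat.card_pos h1
  have hnd : ¬ p ∣ ι.range.index := by
    rw [hidx]
    exact (Fact.out : p.Prime).coprime_iff_not_dvd.1 hH.symm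
  let T : Sylow p G := (hS.of_surjective ι.rangeRestrict ι.rangeRestrict_surjective).toSylow hnd
  refine ⟨_, isSaturated_of_realized hr (show IsSylowIn p ι.range ⊤ from isSylowIn_top T),
    fun h hh => (mem_autGroup le_rfl).2 ((hr.2 S le_rfl _ fun x => (h x).2).2
      ⟨SemidirectProduct.inr ⟨h, hh⟩, fun x => ?_⟩)⟩
  rw [← map_inv]
  exact SemidirectProduct.inl_aut (φ := H.subtype) ⟨h, hh⟩ x

end Cfsg.Agent.Lib.Fusion
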