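import Mathlib

/-!
Two finite permutation representations of a finite group with the same fixed point numbers for
every subgroup are equivalent.
-/

set_option autoImplicit false

namespace Cfsg.Agent.Lib.Fusion.Marks

variable {A X Y : Type*} [Group A]

/-- The stabilizer of a point in a permutation representation. -/
def stab (r : A →* Equiv.Perm X) (x : X) : Subgroup A where
  carrier := {a | r a x = x}
  one_mem' := by simp
  mul_mem' := fun {a b} (ha : r a x = x) (hb : r b x = x) => by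
    show r (a * b) x = x
    rw [map_mul, Equiv.Perm.mul_apply, hb, ha]
  inv_mem' := fun {a} (ha : r a x = x) => by
    show r a⁻¹ x = x
    conv_lhs => rw [← ha]
    rw [← Equiv.Perm.mul_apply, ← map_mul, inv_mul_cancel, map_one, Equiv.Perm.one_apply]

theorem mem_stab {r : A →* Equiv.Perm X} {x : X} {a : A} : a ∈ stab r x ↔ r a x = x := Iff.rfl

theorem apply_eq_iff {r : A →* Equiv.Perm X} {x : X} {a b : A} :
    r a x = r b x ↔ b⁻¹ * a ∈ stab r x := by
  rw [mem_stab, map_mul, map_inv, Equiv.Perm.mul_apply, Equiv.Perm.inv_def, Equiv.symm_apply_eq]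

theorem eq_iff_eq {r : A →* Equiv.Perm X} {r' : A →* Equiv.Perm Y} {x : X} {y : Y}
    (h : stab r x = stab r' y) {a b : A} : r a x = r b x ↔ r' a y = r' b y := by
  rw [apply_eq_iff, apply_eq_iff, h]

/-- The number of points in `s` fixed by `H`. -/
noncomputable def fixIn (r : A →* Equiv.Perm X) (s : Set X) (H : Subgroup A) : ℕ :=
  {z | z ∈ s ∧ H ≤ stab r z}.ncard

theorem fixIn_split [Finite X] (r : A →* Equiv.Perm X) {s o : Set X} (ho : o ⊆ s)
    (H : Subgroup A) : fixIn r s H = fixIn r o H + fixIn r (s \ o) H := by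
  unfold fixIn
  rw [← Set.ncard_union_eq ?_ (Set.toFinite _) (Set.toFinite _)]
  · congr 1
    ext z
    by_cases h : z ∈ o
    · simp [h, ho h]
    · simp [h]
  · exact Set.disjoint_left.2 fun z hz hz' => hz'.1.2 hz.1

theorem exists_bijOn [Finite A] [Finite X] [Finite Y] [Nonempty Y] (r : A →* Equiv.Perm X)
    (r' : A →* Equiv.Perm Y) :
    ∀ (n : ℕ) (s : Set X) (t : Set Y), s.ncard = n → (∀ a, ∀ x ∈ s, r a x ∈ s) →
      (∀ a, ∀ y ∈ t, r' a y ∈ t) → (∀ H, fixIn r s H = fixIn r' t H) →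
      ∃ f : X → Y, Set.BijOn f s t ∧ ∀ a, ∀ x ∈ s, f (r a x) = r' a (f x) := by
  classical
  intro n
  induction n using Nat.strong_induction_on with
  | _ n IH =>
  intro s t hn hs ht hfix
  by_cases hs0 : s = ∅
  · subst hs0
    have h0 := hfix ⊥
    have : t = ∅ := by
      simp only [fixIn, bot_le, and_true, Set.setOf_mem_eq, Set.ncard_empty] at h0
      exact (Set.ncard_eq_zero).1 h0.symm
    subst this
    exact ⟨fun _ => Classical.arbitrary Y, Set.bijOn_empty _, fun _ x hx => hx.elim⟩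
  obtain ⟨x, hx, hmax⟩ := Set.exists_max_image s (fun z => Nat.card (stab r z)) (Set.toFinite _)
    (Set.nonempty_iff_ne_empty.2 hs0)
  have hpos : 0 < fixIn r s (stab r x) := (Set.ncard_pos).2 ⟨x, hx, le_rfl⟩
  rw [hfix] at hpos
  obtain ⟨y, hy, hxy⟩ := (Set.ncard_pos).1 hpos
  have hst : stab r x = stab r' y := by
    have hpos' : 0 < fixIn r' t (stab r' y) := (Set.ncard_pos).2 ⟨y, hy, le_rfl⟩
    rw [← hfix] at hpos'
    obtain ⟨z, hz, hyz⟩ := (Set.ncard_pos).1 hpos'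
    refine Subgroup.eq_of_le_of_card_ge hxy ?_
    exact (Subgroup.card_le_of_le hyz).trans (hmax z hz)
  set o : Set X := Set.range fun a => r a x
  set o' : Set Y := Set.range fun a => r' a y
  have ho : o ⊆ s := by rintro _ ⟨a, rfl⟩; exact hs a x hx
  have ho' : o' ⊆ t := by rintro _ ⟨a, rfl⟩; exact ht a y hy
  have hofix : ∀ H, fixIn r o H = fixIn r' o' H := by
    intro H
    let e : X → Y := fun z => if h : ∃ a, r a x = z then r' h.choose y else y
    have he : ∀ a, e (r a x) = r' a y := fun a => by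
      have h : ∃ b, r b x = r a x := ⟨a, rfl⟩
      simp only [e, dif_pos h]
      exact (eq_iff_eq hst).1 h.choose_spec
    have hle : ∀ a, H ≤ stab r (r a x) ↔ H ≤ stab r' (r' a y) := fun a => by
      refine forall_congr' fun b => imp_congr_right fun _ => ?_
      rw [mem_stab, mem_stab, ← Equiv.Perm.mul_apply, ← map_mul, ← Equiv.Perm.mul_apply, ← map_mul]
      exact eq_iff_eq hst
    refine Set.ncard_congr (fun z _ => e z) ?_ ?_ ?_
    · rintro _ ⟨⟨a, rfl⟩, h⟩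
      rw [he]
      exact ⟨⟨a, rfl⟩, (hle a).1 h⟩
    · rintro _ _ ⟨⟨a, rfl⟩, -⟩ ⟨⟨b, rfl⟩, -⟩ h
      simp only [he] at h
      exact (eq_iff_eq hst).2 h
    · rintro _ ⟨⟨a, rfl⟩, h⟩
      exact ⟨r a x, ⟨⟨a, rfl⟩, (hle a).2 h⟩, he a⟩
  have hlt : (s \ o).ncard < n := by
    rw [← hn]
    refine Set.ncard_lt_ncard ⟨Set.diff_subset, fun h => ?_⟩ (Set.toFinite _)
    exact (h hx).2 ⟨1, by simp⟩
  have hs' : ∀ a, ∀ z ∈ s \ o, r a z ∈ s \ o := by
    rintro a z ⟨hz, hzo⟩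
    refine ⟨hs a z hz, fun ⟨b, hb⟩ => hzo ⟨a⁻¹ * b, ?_⟩⟩
    change r b x = r a z at hb
    show r (a⁻¹ * b) x = z
    rw [map_mul, Equiv.Perm.mul_apply, hb, ← Equiv.Perm.mul_apply, ← map_mul, inv_mul_cancel,
      map_one, Equiv.Perm.one_apply]
  have ht' : ∀ a, ∀ z ∈ t \ o', r' a z ∈ t \ o' := by
    rintro a z ⟨hz, hzo⟩
    refine ⟨ht a z hz, fun ⟨b, hb⟩ => hzo ⟨a⁻¹ * b, ?_⟩⟩
    change r' b y = r' a z at hb
    show r' (a⁻¹ * b) y = z
    rw [map_mul, Equiv.Perm.mul_apply, hb, ← Equiv.Perm.mul_apply, ← map_mul, inv_mul_cancel,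
      map_one, Equiv.Perm.one_apply]
  have hfix' : ∀ H, fixIn r (s \ o) H = fixIn r' (t \ o') H := fun H => by
    have h1 := hfix H
    rw [fixIn_split r ho, fixIn_split r' ho', hofix] at h1
    omega
  obtain ⟨f, hf, hfe⟩ := IH _ hlt _ _ rfl hs' ht' hfix'
  let g : X → Y := fun z => if h : ∃ a, r a x = z then r' h.choose y else f z
  have hg1 : ∀ a, g (r a x) = r' a y := fun a => by
    have h : ∃ b, r b x = r a x := ⟨a, rfl⟩
    simp only [g, dif_pos h]
    exact (eq_iff_eq hst).1 h.choose_spec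
  have hg2 : ∀ z ∈ s \ o, g z = f z := fun z hz => by
    simp only [g]
    exact dif_neg hz.2
  refine ⟨g, ⟨?_, ?_, ?_⟩, ?_⟩
  · intro z hz
    by_cases h : z ∈ o
    · obtain ⟨a, rfl⟩ := h
      rw [hg1]
      exact ht a y hy
    · rw [hg2 z ⟨hz, h⟩]
      exact (hf.mapsTo ⟨hz, h⟩).1
  · intro z hz w hw hzw
    by_cases h : z ∈ o <;> by_cases h' : w ∈ o
    · obtain ⟨a, rfl⟩ := h
      obtain ⟨b, rfl⟩ := h'
      rw [hg1, hg1] at hzw
      exact (eq_iff_eq hst).2 hzw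
    · obtain ⟨a, rfl⟩ := h
      rw [hg1, hg2 w ⟨hw, h'⟩] at hzw
      exact ((hf.mapsTo ⟨hw, h'⟩).2 ⟨a, hzw⟩).elim
    · obtain ⟨a, rfl⟩ := h'
      rw [hg1, hg2 z ⟨hz, h⟩] at hzw
      exact ((hf.mapsTo ⟨hz, h⟩).2 ⟨a, hzw.symm⟩).elim
    · rw [hg2 z ⟨hz, h⟩, hg2 w ⟨hw, h'⟩] at hzw
      exact hf.injOn ⟨hz, h⟩ ⟨hw, h'⟩ hzw
  · intro w hw
    by_cases h : w ∈ o'
    · obtain ⟨a, rfl⟩ := h
      exact ⟨r a x, hs a x hx, hg1 a⟩
    · obtain ⟨z, hz, rfl⟩ := hf.surjOn ⟨hw, h⟩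
      exact ⟨z, hz.1, hg2 z hz⟩
  · intro a z hz
    by_cases h : z ∈ o
    · obtain ⟨b, rfl⟩ := h
      rw [← Equiv.Perm.mul_apply, ← map_mul, hg1, hg1, map_mul, Equiv.Perm.mul_apply]
    · rw [hg2 z ⟨hz, h⟩, hg2 _ (hs' a z ⟨hz, h⟩)]
      exact hfe a z ⟨hz, h⟩

/-- Equal fixed point numbers give a conjugating permutation. -/
theorem exists_intertwiner [Finite A] [Finite X] (r r' : A →* Equiv.Perm X)
    (h : ∀ H : Subgroup A, Nat.card {x // H ≤ stab r x} = Nat.card {x // H ≤ stab r' x}) :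
    ∃ g : Equiv.Perm X, ∀ a, g * r a = r' a * g := by
  rcases isEmpty_or_nonempty X with hX | hX
  · exact ⟨1, fun a => Equiv.ext fun x => (IsEmpty.false x).elim⟩
  obtain ⟨f, hf, hfe⟩ := exists_bijOn r r' _ Set.univ Set.univ rfl (fun _ _ _ => trivial)
    (fun _ _ _ => trivial) (fun H => by
      simp only [fixIn, Set.mem_univ, true_and]
      exact (Nat.card_coe_set_eq _).symm.trans ((h H).trans (Nat.card_coe_set_eq _)))
  refine ⟨Equiv.ofBijective f (Set.bijOn_univ.1 hf), fun a => ?_⟩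
  ext x
  simpa using hfe a x trivial

end Cfsg.Agent.Lib.Fusion.Marks
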