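import Cfsg.Agent.Lib.Fusion.MathieuCert
import Cfsg.Agent.Lib.Golay.Simple

/-! Certificate that the 2-fusion system of M22 is simple. -/

set_option autoImplicit false

namespace Cfsg.Agent.Lib.Fusion.Mathieu

open Cfsg Cfsg.Agent.Lib.Golay

/-- Generators of a Sylow 2-subgroup of M22 above its Frattini subgroup. -/
def m22A : List ℕ := [970499521320593848449538959124630048, 965346966670364367458681901213092896, 979463059671913328358098609083353120]

/-- Generators of the Frattini subgroup. -/
def m22B : List ℕ := [959968451597855124662187115405838976, 962750373820247208505083556844120096, 979625635716138325955160962816418848, 960154302143379000665722555663588384]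

/-- The central involution. -/
def m22Z : ℕ := 962750373820247208505083556844120096

/-- Square words. -/
def m22W : List (List ℕ) := [[963238465211615445959590984204552736], [961290749813605437571357117617740832], [975569257927743335899325032792757280], [980884074185715139811814220349253152]]

/-- Coset invariants. -/
def m22K : List ℕ := [keySet id [2704, 5604, 5608, 15608], keySet id [2704, 5604], keySet id [2704, 5608], keySet id [2704], keySet id [2704, 5604], keySet id [2702], keySet id [2704], keySet id [1352]]

/-- Derivation. -/
def m22Steps : List Step := [.conj 973973056059801076845215186661322208 979463059671913328358098609083353120 0, .conj 963821502783720595726271570761661984 965346966670364367458681901213092896 0, .conj 963822094069678649884203579764719264 960154302143379000665722555663588384 0, .conj 984290411816692516674672945075261472 979625635716138325955160962816418848 0, .conj 979034933776865450732450690731987392 970499521320593848449538959124630048 0, .conj 971050349278632190275857321184188864 959968451597855124662187115405838976 0]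

theorem m22_cert : cert (inStab [] (1 <<< 23 ||| 1)) m22A m22B m22Z m22W m22K m22Steps = true := by decide +kernel

theorem m22_simple (S : Sylow 2 gM22) :
    (groupFusionSystem (S : Subgroup gM22)).IsSimple 2 :=
  simple_of_cert (fun p hp => ⟨(inStab_spec hp).2, (inStab_spec hp).1⟩)
    m22_cert 3465 (by rw [gM22_card]; rfl) (by decide) (by decide) S

end Cfsg.Agent.Lib.Fusion.Mathieu
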