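import Cfsg.Agent.Lib.Fusion.MathieuCert

/-!
Certificates that 2-fusion systems of finite groups are simple, for groups containing an embedded
permutation group on 24 points with a Sylow 2-subgroup of the whole group; the automorphisms of the
Sylow subgroup are restricted by an intrinsic invariant.
-/

set_option autoImplicit false

namespace Cfsg.Agent.Lib.Fusion.Mathieu

open Cfsg Cfsg.FusionSystem Cfsg.Agent.Lib.Golay

/-- An invariant of an element of a group under automorphisms. -/
noncomputable def codeT {T : Type*} [Group T] (s : T) : ℕ :=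
  haveI := Classical.propDecidable
  (if s * s = 1 then 1 else 0) + (if s * s * (s * s) = 1 then 2 else 0) +
    (if ∀ y : T, s * s * y = y * (s * s) then 4 else 0)

theorem codeT_equiv {T U : Type*} [Group T] [Group U] (e : T ≃* U) (s : T) :
    codeT (e s) = codeT s := by
  classical
  have h1 : e s * e s = 1 ↔ s * s = 1 := by rw [← map_mul, map_eq_one_iff _ e.injective]
  have h2 : e s * e s * (e s * e s) = 1 ↔ s * s * (s * s) = 1 := by
    rw [← map_mul, ← map_mul, map_eq_one_iff _ e.injective]
  have h3 : (∀ y : U, e s * e s * y = y * (e s * e s)) ↔ ∀ y : T, s * s * y = y * (s * s) := by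
    constructor
    · intro h y
      exact e.injective (by simpa using h (e y))
    · intro h y
      obtain ⟨x, rfl⟩ := e.surjective y
      simpa using congrArg e (h x)
  unfold codeT
  congr 1
  · congr 1
    · exact if_congr h1 rfl rfl
    · exact if_congr h2 rfl rfl
  · exact if_congr h3 rfl rfl

/-- The invariant of a coded element within a coded group. -/
def codeB (L : List ℕ) (x : ℕ) : ℕ :=
  (if eqv (comp x x) idCode then 1 else 0) +
    (if eqv (comp (comp x x) (comp x x)) idCode then 2 else 0) +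
    (if L.all fun y => eqv (comp (comp x x) y) (comp y (comp x x)) then 4 else 0)

/-- The code of the invariants of the coset `a N`. -/
def cosetCode (L LN : List ℕ) (a : ℕ) : ℕ := keySet id (LN.map fun l => codeB L (comp a l))

/-- The certificate. -/
def certE (inH : ℕ → Bool) (A B : List ℕ) (z : ℕ) (ws : List (List ℕ)) (ks : List ℕ)
    (steps : List Step) : Bool :=
  pcOK (A ++ B) && pcOK B && (A ++ B).all inH &&
  ((span (A ++ B)).all fun l => memP (comp l l) (span B)) &&
  (ws.all fun w => w.all fun l => memP l (span (A ++ B)) && valid l) &&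
  (B.all fun g => ws.any fun w => eqv g (w.foldr (fun l acc => comp (comp l l) acc) idCode)) &&
  valid z &&
  ((span (A ++ B)).all fun l => eqv l idCode || eqv l z ||
    (A ++ B).any fun g => !eqv (comp l g) (comp g l)) &&
  ((span A).map (cosetCode (span (A ++ B)) (span B)) == ks) &&
  (ks.all fun v => Nat.ble (ks.filter fun w => w == v).length 2) &&
  match derive inH (span (A ++ B)) [z] steps with
  | none => false
  | some D => (A ++ B).all fun g => memP g D

theorem simple_of_embedded {G : Type*} [Group G] [Finite G] {H : Subgroup (Equiv.Perm GolayPt)}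
    (ψ : ↥H →* G) (hψ : Function.Injective ψ) {inH : ℕ → Bool}
    (hinH : ∀ p, inH p = true → valid p = true ∧ toPerm p ∈ H) {A B : List ℕ} {z : ℕ}
    {ws : List (List ℕ)} {ks : List ℕ} {steps : List Step}
    (h : certE inH A B z ws ks steps = true) (m : ℕ)
    (hcard : Nat.card G = 2 ^ (A ++ B).length * m) (hm : Odd m) (hlen : 0 < (A ++ B).length)
    (S : Sylow 2 G) : (groupFusionSystem (S : Subgroup G)).IsSimple 2 := by
  simp only [certE, Bool.and_eq_true] at h
  obtain ⟨⟨⟨⟨⟨⟨⟨⟨⟨⟨hpc, hpcB⟩, hin⟩, hsq⟩, hws⟩, hword⟩, hzv⟩, hcen⟩, hks⟩, hcount⟩, hder⟩ := h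
  have hval := valid_of_pcOK _ hpc
  have hvS := valid_span _ hval
  have hvB := valid_of_pcOK B hpcB
  have hvSB := valid_span B hvB
  obtain ⟨hKset, hKcard⟩ := grp_spec _ hpc
  set K := grp (A ++ B)
  have hKH : K ≤ H := by
    refine (Subgroup.closure_le _).2 ?_
    rintro _ ⟨l, hl, rfl⟩
    exact (hinH l (List.all_eq_true.1 hin l hl)).2
  -- the Sylow subgroup and the embedding
  have : Fact (Nat.Prime 2) := ⟨Nat.prime_two⟩
  let P : Subgroup G := (K.subgroupOf H).map ψ
  have hPcard : Nat.card P = 2 ^ (A ++ B).length := by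
    rw [Nat.card_congr ((K.subgroupOf H).equivMapOfInjective ψ hψ).symm.toEquiv,
      Nat.card_congr (Subgroup.subgroupOfEquivOfLe hKH).toEquiv, hKcard]
  have hidx : ¬ 2 ∣ P.index := by
    have h1 := Subgroup.card_mul_index P
    rw [hPcard, hcard] at h1
    rw [Nat.eq_of_mul_eq_mul_left (Nat.two_pow_pos _) h1]
    exact fun hd => (Nat.not_even_iff_odd.2 hm) (even_iff_two_dvd.2 hd)
  obtain ⟨g, hg⟩ := MulAction.exists_smul_eq G ((IsPGroup.of_card hPcard).toSylow hidx) S
  let ψ' : ↥H →* G := (MulAut.conj g).toMonoidHom.comp ψ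
  have hψ' : Function.Injective ψ' := (MulAut.conj g).injective.comp hψ
  have hF := groupFusionSystem_saturated S
  set T₂ := ((S : Subgroup G) : Subgroup G) with hT₂
  have hmap : (K.subgroupOf H).map ψ' = T₂ := by
    rw [hT₂, ← hg, Sylow.coe_subgroup_smul, ← Subgroup.map_map]
    rfl
  let e : ↥(K.subgroupOf H) ≃* T₂ :=
    ((K.subgroupOf H).equivMapOfInjective ψ' hψ').trans (MulEquiv.subgroupCongr hmap)
  let φ : T₂ →* Equiv.Perm GolayPt :=
    H.subtype.comp ((K.subgroupOf H).subtype.comp e.symm.toMonoidHom)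
  have hφinj : Function.Injective φ := fun a b hab =>
    e.symm.injective (Subtype.ext (Subtype.ext hab))
  have hφK : ∀ s, φ s ∈ K := fun s => (e.symm s).2
  have hrep : ∀ s : T₂, ψ' (e.symm s : ↥H) = (s : G) := fun s =>
    congrArg (Subtype.val (p := fun x => x ∈ T₂)) (e.apply_symm_apply s)
  have hKsurj : ∀ σ ∈ K, ∃ s : T₂, φ s = σ := fun σ hσ =>
    ⟨e ⟨⟨σ, hKH hσ⟩, hσ⟩, by
      show (((e.symm (e _) : ↥(K.subgroupOf H)) : ↥H) : Equiv.Perm GolayPt) = σ
      rw [e.symm_apply_apply]⟩
  have hS1 : T₂ ≠ ⊥ := by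
    intro h1
    have h2 : Nat.card T₂ = 1 := by rw [h1]; exact Subgroup.card_bot
    rw [← Nat.card_congr e.toEquiv, Nat.card_congr (Subgroup.subgroupOfEquivOfLe hKH).toEquiv,
      hKcard] at h2
    exact absurd h2 (Nat.one_lt_two_pow (by omega)).ne'
  -- the squares
  set N := grp B
  have hNset := (grp_spec B hpcB).1
  let N' : Subgroup T₂ := N.comap φ
  have hsqN : ∀ s : T₂, φ s * φ s ∈ N := fun s => by
    obtain ⟨l, hl, he⟩ := hKset.le (hφK s)
    rw [← he, ← SetLike.mem_coe, hNset, ← toPerm_comp (hvS l hl) (hvS l hl)]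
    exact (memP_iff (valid_comp (hvS l hl) (hvS l hl)) hvSB).1 (List.all_eq_true.1 hsq l hl)
  set Q : Subgroup T₂ := Subgroup.closure {y | ∃ s : T₂, s * s = y}
  have hQN : Q ≤ N' := (Subgroup.closure_le _).2 (by
    rintro _ ⟨s, rfl⟩
    show φ (s * s) ∈ N
    rw [map_mul]; exact hsqN s)
  have hQQ : N ≤ Q.map φ := by
    refine (Subgroup.closure_le _).2 ?_
    rintro _ ⟨b, hb, rfl⟩
    obtain ⟨w, hw, hwe⟩ := List.any_eq_true.1 (List.all_eq_true.1 hword b hb)
    have key : ∀ v : List ℕ, (∀ l ∈ v, memP l (span (A ++ B)) = true ∧ valid l = true) →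
        valid (v.foldr (fun l acc => comp (comp l l) acc) idCode) = true ∧
        toPerm (v.foldr (fun l acc => comp (comp l l) acc) idCode) ∈ Q.map φ := by
      intro v
      induction v with
      | nil => exact fun _ => ⟨valid_idCode, by rw [List.foldr_nil, toPerm_id]; exact one_mem _⟩
      | cons l v ih =>
        intro hl
        obtain ⟨h1, h2⟩ := hl l (by simp)
        obtain ⟨h3, h4⟩ := ih fun x hx => hl x (by simp [hx])
        rw [List.foldr_cons]
        refine ⟨valid_comp (valid_comp h2 h2) h3, ?_⟩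
        rw [toPerm_comp (valid_comp h2 h2) h3, toPerm_comp h2 h2]
        refine mul_mem ?_ h4
        obtain ⟨s, hs⟩ := hKsurj _ (hKset.ge ((memP_iff h2 hvS).1 h1))
        exact ⟨s * s, Subgroup.subset_closure ⟨s, rfl⟩, by rw [map_mul, hs]⟩
    have hw' := List.all_eq_true.1 (List.all_eq_true.1 hws w hw)
    simp only [Bool.and_eq_true] at hw'
    obtain ⟨h1, h2⟩ := key w hw'
    rw [SetLike.mem_coe, (eqv_iff (hvB b hb) h1).1 hwe]
    exact h2
  have hN'Q : N' ≤ Q := fun s hs => by
    obtain ⟨t, ht, hts⟩ := hQQ hs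
    rwa [← hφinj hts]
  have hFr : N' ≤ frattini T₂ := hN'Q.trans ((Subgroup.closure_le _).2 (by
    rintro _ ⟨s, rfl⟩
    rw [← pow_two]
    exact PGroupFrattini.pow_mem_frattini S.2 s))
  have hNinv : ∀ α : MulAut T₂, ∀ x ∈ N', α x ∈ N' := fun α x hx => by
    have h1 : Q ≤ Q.comap α.toMonoidHom := (Subgroup.closure_le _).2 (by
      rintro _ ⟨s, rfl⟩
      exact Subgroup.subset_closure ⟨α s, (map_mul α s s).symm⟩)
    exact hQN (h1 (hN'Q hx))
  refine isSimple_of_autS_inn hF hS1 ?_ ?_
  · -- strongly closed subgroups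
    intro T hT
    by_cases hT1 : T = ⊥
    · exact Or.inl hT1
    refine Or.inr (le_antisymm hT.1 ?_)
    have : (T.subgroupOf T₂).Normal :=
      Subgroup.normal_subgroupOf_of_le_normalizer (le_normalizer_of_stronglyClosed hT)
    obtain ⟨c, hcT, hcc, hc1⟩ := GenStruct.exists_mem_center S.2 (T.subgroupOf T₂)
      (fun h => hT1 ((Subgroup.subgroupOf_eq_bot.1 h).eq_bot_of_le hT.1))
    obtain ⟨l, hl, hle⟩ := hKset.le (hφK c)
    have hlz : toPerm l = toPerm z := by
      have h1 := List.all_eq_true.1 hcen l hl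
      rw [Bool.or_eq_true, Bool.or_eq_true] at h1
      rcases h1 with (h1 | h1) | h1
      · rw [eqv_iff (hvS l hl) valid_idCode, toPerm_id, hle] at h1
        exact absurd (hφinj (h1.trans (map_one φ).symm)) hc1
      · exact (eqv_iff (hvS l hl) hzv).1 h1
      · exfalso
        obtain ⟨b, hb, hne⟩ := List.any_eq_true.1 h1
        obtain ⟨t, ht⟩ := hKsurj _ (Subgroup.subset_closure ⟨b, hb, rfl⟩)
        have h3 := congrArg φ (Subgroup.mem_center_iff.1 hcc t)
        rw [map_mul, map_mul, ht, ← hle] at h3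
        simp only [Bool.not_eq_true', ← Bool.not_eq_true] at hne
        exact hne ((eqv_iff (valid_comp (hvS l hl) (hval b hb)) (valid_comp (hval b hb) (hvS l hl))).2
          (by rw [toPerm_comp (hvS l hl) (hval b hb), toPerm_comp (hval b hb) (hvS l hl), h3]))
    cases hd : derive inH (span (A ++ B)) [z] steps with
    | none => rw [hd] at hder; simp at hder
    | some D =>
      rw [hd] at hder
      have hD := derive_spec hinH hvS (fun σ => ∃ x : T₂, (x : G) ∈ T ∧ φ x = σ)
        (fun a b ⟨x, hx, hxa⟩ ⟨y, hy, hyb⟩ =>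
          ⟨x * y, T.mul_mem hx hy, by rw [map_mul, hxa, hyb]⟩)
        (by
          rintro σ hσ _ ⟨x, hx, rfl⟩ hmem
          obtain ⟨y, hy⟩ := hKsurj _ (hKset.ge hmem)
          refine ⟨y, ?_, hy⟩
          set u : G := ψ' ⟨σ, hσ⟩
          have hxy : u * (x : G) * u⁻¹ = (y : G) := by
            rw [← hrep x, ← hrep y, ← map_mul, ← map_inv, ← map_mul]
            exact congrArg ψ' (Subtype.ext hy.symm)
          have hm : conjHom (Subgroup.zpowers (x : G)) u ∈
              (groupFusionSystem T₂).Hom (Subgroup.zpowers (x : G)) := by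
            refine ⟨Subgroup.zpowers_le.2 x.2, fun w => ?_, u, fun w => rfl⟩
            obtain ⟨w, k, rfl⟩ := w
            show u * (x : G) ^ k * u⁻¹ ∈ T₂
            rw [← conj_zpow, hxy]; exact zpow_mem y.2 k
          rw [← hxy]
          exact hT.2 _ (Subgroup.zpowers_le.2 hx) _ hm ⟨x, Subgroup.mem_zpowers _⟩)
        steps [z] D hd (by
          intro d hd
          obtain rfl := List.mem_singleton.1 hd
          exact ⟨hzv, c, hcT, by rw [← hle, hlz]⟩)
      have hKle : K ≤ (T.subgroupOf T₂).map φ := by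
        refine (Subgroup.closure_le _).2 ?_
        rintro _ ⟨b, hb, rfl⟩
        obtain ⟨d, hd', hde⟩ := List.any_eq_true.1 (List.all_eq_true.1 hder b hb)
        rw [SetLike.mem_coe, (eqv_iff (hval b hb) (hD d hd').1).1 hde]
        obtain ⟨x, hx, hxe⟩ := (hD d hd').2
        exact ⟨x, hx, hxe⟩
      intro x hx
      obtain ⟨y, hy, hyx⟩ := hKle (hφK ⟨x, hx⟩)
      have h4 : y = ⟨x, hx⟩ := hφinj hyx
      rw [h4] at hy
      exact hy
  · -- the automorphism group of `S` is inner
    have hsyl := (isFullyAutomized_iff.1 (saturated_autS S.2 hF)).2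
    have := finite_mulAut (le_refl T₂)
    rw [autInducedBy_self] at hsyl
    suffices hp : IsPGroup 2 ((groupFusionSystem T₂).autGroup T₂) from
      hsyl.eq_of_le (inn_le_autGroup le_rfl) le_rfl hp
    set Au := (groupFusionSystem T₂).autGroup T₂
    -- the invariant of coded elements
    have hcode : ∀ (s : T₂) (l : ℕ), valid l = true → φ s = toPerm l →
        codeT s = codeB (span (A ++ B)) l := by
      intro s l hl hs
      have hll := valid_comp hl hl
      have h1 : s * s = 1 ↔ eqv (comp l l) idCode = true := by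
        rw [eqv_iff hll valid_idCode, toPerm_comp hl hl, toPerm_id, ← hs, ← map_mul,
          map_eq_one_iff φ hφinj]
      have h2 : s * s * (s * s) = 1 ↔ eqv (comp (comp l l) (comp l l)) idCode = true := by
        rw [eqv_iff (valid_comp hll hll) valid_idCode, toPerm_comp hll hll, toPerm_comp hl hl,
          toPerm_id, ← hs, ← map_mul, ← map_mul, map_eq_one_iff φ hφinj]
      have h3 : (∀ y : T₂, s * s * y = y * (s * s)) ↔
          ((span (A ++ B)).all fun y => eqv (comp (comp l l) y) (comp y (comp l l))) = true := by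
        rw [List.all_eq_true]
        constructor
        · intro h y hy
          obtain ⟨t, ht⟩ := hKsurj _ (hKset.ge ⟨y, hy, rfl⟩)
          rw [eqv_iff (valid_comp hll (hvS y hy)) (valid_comp (hvS y hy) hll),
            toPerm_comp hll (hvS y hy), toPerm_comp (hvS y hy) hll, toPerm_comp hl hl, ← hs, ← ht,
            ← map_mul, ← map_mul, ← map_mul, h t]
        · intro h t
          obtain ⟨y, hy, hye⟩ := hKset.le (hφK t)
          have h4 := h y hy
          rw [eqv_iff (valid_comp hll (hvS y hy)) (valid_comp (hvS y hy) hll),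
            toPerm_comp hll (hvS y hy), toPerm_comp (hvS y hy) hll, toPerm_comp hl hl, ← hs, hye,
            ← map_mul, ← map_mul, ← map_mul] at h4
          exact hφinj h4
      unfold codeT codeB
      simp only [h1, h2, h3]
    have hall : ∀ q : ℕ, q.Prime → q ∣ Nat.card Au → q = 2 := by
      intro q hq hqd
      by_contra hq2
      have : Fact q.Prime := ⟨hq⟩
      obtain ⟨⟨α, hα⟩, hord⟩ := exists_prime_orderOf_dvd_card' q hqd
      rw [Subgroup.orderOf_mk] at hord
      have h1 : α = 1 := eq_one_of_invariant S.2 hq hq2 (hord ▸ pow_orderOf_eq_one α) hFr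
        (hNinv α) (fun s : T₂ => {v : ℕ | ∃ m ∈ N', codeT (s * m) = v})
        (fun s => by
          ext v
          simp only [Set.mem_ofPred_eq]
          constructor
          · rintro ⟨m, hm, rfl⟩
            refine ⟨α⁻¹ m, hNinv α⁻¹ m hm, ?_⟩
            rw [← codeT_equiv α, map_mul, MulAut.apply_inv_self]
          · rintro ⟨m, hm, rfl⟩
            refine ⟨α m, hNinv α m hm, ?_⟩
            rw [← map_mul, codeT_equiv])
        (by
          intro x y w hxy hxw
          have hex : ∀ s : T₂, ∃ a ∈ span A, ∃ b ∈ N, φ s = toPerm a * b := fun s => by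
            obtain ⟨a, ha, b, hb, he⟩ := span_append A B hval _ (hKset.le (hφK s))
            exact ⟨a, ha, b, hNset.ge hb, he⟩
          have hvA := valid_span A fun x hx => hval x (List.mem_append.2 (Or.inl hx))
          have hkey : ∀ {s : T₂} {a : ℕ} {b : Equiv.Perm GolayPt}, a ∈ span A → b ∈ N →
              φ s = toPerm a * b →
              ∀ v, (cosetCode (span (A ++ B)) (span B) a).testBit v = true ↔
                ∃ m ∈ N', codeT (s * m) = v := by
            intro s a b ha hb he v
            rw [cosetCode, testBit_keySet]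
            constructor
            · rintro ⟨k, hk, rfl⟩
              obtain ⟨l, hl, rfl⟩ := List.mem_map.1 hk
              have hlN : toPerm l ∈ N := hNset.ge ⟨l, hl, rfl⟩
              obtain ⟨t, ht⟩ := hKsurj (b⁻¹ * toPerm l)
                (grp_right_le A B (mul_mem (inv_mem hb) hlN))
              refine ⟨t, ?_, ?_⟩
              · show φ t ∈ N
                rw [ht]; exact mul_mem (inv_mem hb) hlN
              · rw [id, hcode _ (comp a l) (valid_comp (hvA a ha) (hvSB l hl))]
                rw [map_mul, he, ht, toPerm_comp (hvA a ha) (hvSB l hl), mul_assoc,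
                  mul_inv_cancel_left]
            · rintro ⟨m, hm, rfl⟩
              have hbm : b * φ m ∈ N := mul_mem hb hm
              obtain ⟨l, hl, hle⟩ := hNset.le hbm
              refine ⟨_, List.mem_map.2 ⟨l, hl, rfl⟩, ?_⟩
              rw [id, hcode _ (comp a l) (valid_comp (hvA a ha) (hvSB l hl))]
              rw [map_mul, he, toPerm_comp (hvA a ha) (hvSB l hl), hle, mul_assoc]
          obtain ⟨a₁, ha₁, b₁, hb₁, e₁⟩ := hex x
          obtain ⟨a₂, ha₂, b₂, hb₂, e₂⟩ := hex y
          obtain ⟨a₃, ha₃, b₃, hb₃, e₃⟩ := hex w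
          have hk12 : cosetCode (span (A ++ B)) (span B) a₂ = cosetCode (span (A ++ B)) (span B) a₁ := by
            apply Nat.eq_of_testBit_eq; intro v
            rw [Bool.eq_iff_iff, hkey ha₂ hb₂ e₂, hkey ha₁ hb₁ e₁]
            exact (Set.ext_iff.1 hxy v).symm
          have hk13 : cosetCode (span (A ++ B)) (span B) a₃ = cosetCode (span (A ++ B)) (span B) a₁ := by
            apply Nat.eq_of_testBit_eq; intro v
            rw [Bool.eq_iff_iff, hkey ha₃ hb₃ e₃, hkey ha₁ hb₁ e₁]
            exact (Set.ext_iff.1 hxw v).symm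
          rw [beq_iff_eq] at hks
          have hc := List.all_eq_true.1 hcount (cosetCode (span (A ++ B)) (span B) a₁)
            (hks ▸ List.mem_map.2 ⟨a₁, ha₁, rfl⟩)
          rw [Nat.ble_eq, ← hks] at hc
          have same : ∀ {s t : T₂} {a : ℕ} {b b' : Equiv.Perm GolayPt}, b ∈ N → b' ∈ N →
              φ s = toPerm a * b → φ t = toPerm a * b' → s⁻¹ * t ∈ N' := by
            intro s t a b b' hb hb' hs ht
            show φ (s⁻¹ * t) ∈ N
            rw [map_mul, map_inv, hs, ht]
            simpa [mul_assoc] using mul_mem (inv_mem hb) hb'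
          rcases filter_map_count _ hc ha₁ ha₂ ha₃ rfl hk12 hk13 with h | h | h
          · exact Or.inl (same hb₁ hb₂ e₁ (h ▸ e₂))
          · exact Or.inr (Or.inl (same hb₁ hb₃ e₁ (h ▸ e₃)))
          · exact Or.inr (Or.inr (same hb₂ hb₃ e₂ (h ▸ e₃))))
      rw [h1, orderOf_one] at hord
      exact hq.ne_one hord.symm
    intro a
    have h2 := Nat.eq_prime_pow_of_unique_prime_dvd (p := 2)
      (Nat.card_pos (α := Au)).ne' fun {q} hq hqd => hall q hq hqd
    exact ⟨_, orderOf_dvd_iff_pow_eq_one.1 (h2 ▸ orderOf_dvd_natCard a)⟩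

end Cfsg.Agent.Lib.Fusion.Mathieu
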