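import Cfsg.Agent.Lib.Fusion.MclCert
import Cfsg.Agent.Lib.Fusion.Mathieu22
import Cfsg.Agent.Lib.Leech.PairGroups

/-! Certificate that the 2-fusion system of the McLaughlin group is simple. -/

set_option autoImplicit false

namespace Cfsg.Agent.Lib.Fusion.Mathieu

open Cfsg Cfsg.Agent.Lib.Golay Cfsg.Agent.Lib.Leech

theorem mcl_cert : certE (inStab [] (1 <<< 23 ||| 1)) m22A m22B m22Z m22W
    [192, 192, 132, 4, 132, 4, 68, 1] m22Steps = true := by decide +kernel

theorem gM22_le : gM22 ≤ st2 none (pt 0) := le_of_eq (by rw [gM22_eq]; congr)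

/-- The embedding of M22 in the McLaughlin group. -/
noncomputable def m22ToMcl : ↥gM22 →* ↥(pairStab fourFour) :=
  (permTwo.codRestrict _ (permTwo_mem shapes.2.2.1)).comp (Subgroup.inclusion gM22_le)

theorem m22ToMcl_injective : Function.Injective m22ToMcl := fun _ _ e =>
  Subgroup.inclusion_injective _ (permTwo_injective (congrArg Subtype.val e))

theorem mcl_fusion_simple {G : Type*} [Group G] [Finite G] (e : G ≃* ↥(pairStab fourFour))
    (S : Sylow 2 G) : (groupFusionSystem (S : Subgroup G)).IsSimple 2 :=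
  simple_of_embedded (e.symm.toMonoidHom.comp m22ToMcl) (e.symm.injective.comp m22ToMcl_injective)
    (fun p hp => ⟨(inStab_spec hp).2, (inStab_spec hp).1⟩) mcl_cert 7016625
    (by rw [Nat.card_congr e.toEquiv, mcl_simple.2]; rfl) (by decide) (by decide) S

end Cfsg.Agent.Lib.Fusion.Mathieu
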