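import Cfsg.Agent.Lib.Fusion.Centric
import Cfsg.Agent.Lib.Fusion.Normal

/-!
A centric subgroup meeting a normal subsystem in a non-centric subgroup is not radical.
-/

set_option autoImplicit false

namespace Cfsg.Agent.Lib.Fusion.NotCentricBelow

open Cfsg Cfsg.FusionSystem

variable {Ω : Type*} [Group Ω] {S : Subgroup Ω} {F : FusionSystem S} {p : ℕ}

/-- Automorphisms stabilizing the chain `1 ≤ P ∩ T ≤ P`. -/
theorem exists_chain (hS : IsPGroup p S) [Finite S] [Fact p.Prime] {T : Subgroup Ω}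
    (hT : F.StronglyClosed T) {P : Subgroup Ω} (hP : P ≤ S) :
    ∃ K : Subgroup (F.autGroup P), K.Normal ∧ IsPGroup p K ∧ ∀ α : F.autGroup P,
      (∀ x : P, (x : Ω) ∈ T → (α : MulAut P) x = x) →
      (∀ x : P, (((α : MulAut P) x : P) : Ω) * (x : Ω)⁻¹ ∈ T) → α ∈ K := by
  have := finite_of_le hP
  let D : ℕ → Subgroup P := fun i => if i = 0 then ⊥ else if i = 1 then T.subgroupOf P else ⊤
  have hinv : ∀ α ∈ F.autGroup P, ∀ i, ∀ x ∈ D i, α x ∈ D i := by
    intro α hα i x hx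
    simp only [D] at hx ⊢
    split_ifs at hx ⊢
    · rw [Subgroup.mem_bot] at hx ⊢; rw [hx, map_one]
    · rw [Subgroup.mem_subgroupOf] at hx ⊢
      exact map_mem_of_stronglyClosed hT ((mem_autGroup hP).1 hα) x hx
    · exact Subgroup.mem_top _
  obtain ⟨K, hKn, hKp, hK⟩ := chainStabilizer (p := p) (F.autGroup P) 2 D rfl rfl hinv (hS.to_le hP)
  refine ⟨K, hKn, hKp, fun α h1 h2 => (hK α).2 fun i hi x hx => ?_⟩
  rcases show i = 0 ∨ i = 1 by omega with rfl | rfl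
  · simp only [D, zero_add, one_ne_zero, if_false, if_true] at hx ⊢
    rw [Subgroup.mem_bot, h1 x hx, mul_inv_cancel]
  · simpa [D, Subgroup.mem_subgroupOf] using h2 x

theorem exists_conj_outer [Finite S] [Fact p.Prime] (hS : IsPGroup p S) (hF : F.IsSaturated p)
    {T : Subgroup Ω} {E : FusionSystem T} (hTs : F.StronglyClosed T)
    (hsub : E.IsSubsystemOf F) {P : Subgroup Ω} (hP : F.IsCentric P)
    (hPT : ¬ E.IsCentric (P ⊓ T)) :
    (∃ φ ∈ F.Hom P, ∃ x ∈ S ⊓ Subgroup.normalizer (φ.range : Set Ω), x ∉ φ.range ∧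
      ∃ α ∈ ((pCore p ↥(F.autGroup φ.range)).map (F.autGroup φ.range).subtype :
          Subgroup (MulAut ↥φ.range)),
        ∀ y : ↥φ.range, ((α y : ↥φ.range) : Ω) = x * (y : Ω) * x⁻¹) ∧
      ¬ F.IsRadical p P := by
  have hPS := hP.1
  have hTS := hTs.1
  have hTN := le_normalizer_of_stronglyClosed hTs
  have hUS : P ⊓ T ≤ S := inf_le_left.trans hPS
  obtain ⟨U', hU', hUn⟩ := exists_fullyNormalized (F := F) hUS
  obtain ⟨e₀, he₀⟩ := isConj_iff_iso.1 hU'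
  obtain ⟨γ, -, ψ, hψ, -, hψe⟩ := exists_extend_fullyNormalized hS hF hUn he₀
  have hPN : P ≤ normalizerIn S (P ⊓ T) := fun x hx => by
    have := finite_of_le hUS
    refine ⟨hPS hx, mem_normalizer_of_conj_mem fun u hu => Subgroup.mem_inf.2 ⟨?_, ?_⟩⟩
    · exact P.mul_mem (P.mul_mem hx hu.1) (P.inv_mem hx)
    · exact conj_mem_of_mem_normalizer (hTN (hPS hx)) hu.2
  let φ : P →* Ω := ψ.comp (Subgroup.inclusion hPN)
  have hφ : φ ∈ F.Hom P := restrict_mem hPN hψ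
  have hφS : φ.range ≤ S := range_le hφ
  -- `φ(P) ∩ T = U'`
  have hU : φ.range ⊓ T = U' := by
    ext y
    constructor
    · rintro ⟨⟨x, rfl⟩, hyT⟩
      obtain ⟨θ, hθ, hθe⟩ := F.inv_mem hφ
      have hxT : (x : Ω) ∈ T := by
        rw [← hθe x]
        exact map_mem_of_stronglyClosed hTs hθ _ hyT
      show ψ ⟨x, hPN x.2⟩ ∈ U'
      rw [hψe ⟨x, Subgroup.mem_inf.2 ⟨x.2, hxT⟩⟩ (hPN x.2)]
      exact (γ _).2
    · intro hy
      have hw := hψe (e₀.symm ((γ : MulAut U').symm ⟨y, hy⟩))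
        (hPN (e₀.symm ((γ : MulAut U').symm ⟨y, hy⟩)).2.1)
      rw [MulEquiv.apply_symm_apply, MulEquiv.apply_symm_apply] at hw
      refine Subgroup.mem_inf.2 ⟨⟨⟨_, (e₀.symm ((γ : MulAut U').symm ⟨y, hy⟩)).2.1⟩, hw⟩, ?_⟩
      rw [← show ψ _ = y from hw]
      exact map_mem_of_stronglyClosed hTs hψ _ (e₀.symm ((γ : MulAut U').symm ⟨y, hy⟩)).2.2
  -- `C_T(U')` is not in `U'`
  have hC : ∃ c ∈ T, c ∉ U' ∧ ∀ u ∈ U', c * u = u * c := by
    by_contra hcon
    push Not at hcon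
    refine hPT ⟨inf_le_right, fun V hV c hc => ?_⟩
    obtain ⟨φ₀, hφ₀, hr⟩ := hV
    obtain ⟨f, hf⟩ := isConj_iff_iso.1
      (isConj_trans (isConj_symm (⟨φ₀, hsub _ hφ₀, hr⟩ : F.IsConj (P ⊓ T) V)) hU')
    obtain ⟨-, hrec⟩ := fullyNormalized_props hS hF hUn
    obtain ⟨θ, hθ, hθe⟩ := receptive_extend hrec hf
    obtain ⟨hcT, hcV⟩ := mem_centralizerIn.1 hc
    have hcS : c ∈ centralizerIn S V := mem_centralizerIn.2 ⟨hTS hcT, hcV⟩
    have hcX := centralizerIn_le_extender S V (U'.subtype.comp f.toMonoidHom) hcS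
    have hy := extension_centralizer (le_extender hf) (val_mem hθ) hθe (g := ⟨c, hcX⟩) hcS
    obtain ⟨-, hyU⟩ := mem_centralizerIn.1 hy
    have hyT := map_mem_of_stronglyClosed hTs hθ ⟨c, hcX⟩ hcT
    by_contra hcn
    have hyn : θ ⟨c, hcX⟩ ∉ U' := fun h => by
      have h1 := hθe (f.symm ⟨_, h⟩) (le_extender hf (f.symm ⟨_, h⟩).2)
      simp only [MulEquiv.apply_symm_apply] at h1
      have h2 := congrArg Subtype.val (F.injective_of_mem hθ h1)
      change _ = c at h2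
      exact hcn (h2 ▸ (f.symm ⟨_, h⟩).2)
    obtain ⟨u, hu, hne⟩ := hcon _ hyT hyn
    exact hne (hyU u hu).symm
  obtain ⟨c₀, hc₀T, hc₀U, hc₀⟩ := hC
  -- an element of `C_T(U')` normalizing `φ(P)` and outside it
  let C := centralizerIn T U'
  have hc₀C : c₀ ∈ C := mem_centralizerIn.2 ⟨hc₀T, fun u hu => (hc₀ u hu).symm⟩
  have hCP : ¬ C ≤ φ.range := fun h => hc₀U (hU ▸ ⟨h hc₀C, hc₀T⟩)
  have hU'fin := finite_of_le (hUn.1)
  have hCn : φ.range ≤ Subgroup.normalizer (C : Set Ω) := fun x hx => by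
    have : Finite C := finite_of_le ((centralizerIn_le T U').trans hTS)
    refine mem_normalizer_of_conj_mem fun d hd => ?_
    obtain ⟨hdT, hdU⟩ := mem_centralizerIn.1 hd
    refine mem_centralizerIn.2 ⟨conj_mem_of_mem_normalizer (hTN (hφS hx)) hdT, fun u hu => ?_⟩
    have hu' : x⁻¹ * u * x ∈ U' := by
      rw [← hU] at hu ⊢
      refine ⟨φ.range.mul_mem (φ.range.mul_mem (φ.range.inv_mem hx) hu.1) hx, ?_⟩
      simpa using conj_mem_of_mem_normalizer (hTN (S.inv_mem (hφS hx))) hu.2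
    calc u * (x * d * x⁻¹) = x * (x⁻¹ * u * x * d) * x⁻¹ := by group
      _ = x * (d * (x⁻¹ * u * x)) * x⁻¹ := by rw [hdU _ hu']
      _ = x * d * x⁻¹ * u := by group
  let W := φ.range ⊔ C
  have hWS : W ≤ S := sup_le hφS ((centralizerIn_le T U').trans hTS)
  have hWfin := finite_of_le hWS
  have hlt : φ.range < W :=
    lt_of_le_of_ne le_sup_left fun h => hCP (h ▸ le_sup_right)
  obtain ⟨w, ⟨hwW, hwN⟩, hwP⟩ :=
    SetLike.exists_of_lt (lt_normalizer_inf (hS.to_le hWS) hlt)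
  obtain ⟨a, ha, x, hx, rfl⟩ := mem_sup_of_normalizes hCn hwW
  have hxN : x ∈ Subgroup.normalizer (φ.range : Set Ω) := by
    have h := Subgroup.mul_mem _ (Subgroup.inv_mem _ (Subgroup.le_normalizer (H := φ.range) ha)) hwN
    simpa using h
  have hxP : x ∉ φ.range := fun h => hwP (φ.range.mul_mem ha h)
  obtain ⟨hxT, hxU⟩ := mem_centralizerIn.1 hx
  have hxS : x ∈ S := hTS hxT
  -- conjugation by `x` stabilizes the chain
  have hcomm : ∀ y ∈ φ.range, x * y * x⁻¹ * y⁻¹ ∈ T := fun y hy => by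
    rw [mul_assoc, mul_assoc]
    refine T.mul_mem hxT ?_
    rw [← mul_assoc]
    exact conj_mem_of_mem_normalizer (hTN (hφS hy)) (T.inv_mem hxT)
  have hfix : ∀ y ∈ φ.range, y ∈ T → x * y * x⁻¹ = y := fun y hy hyT => by
    rw [← hxU y (hU ▸ ⟨hy, hyT⟩), mul_inv_cancel_right]
  let α := conjAut φ.range hxN
  have hαF : α ∈ F.autGroup φ.range :=
    autInducedBy_le_autGroup hφS (conjAut_mem_autInducedBy hxS hxN)
  obtain ⟨K, hKn, hKp, hK⟩ := exists_chain hS hTs hφS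
  have hαK : (⟨α, hαF⟩ : F.autGroup φ.range) ∈ K := by
    refine hK _ (fun y hy => Subtype.ext ?_) (fun y => ?_)
    · simpa [α] using hfix y y.2 hy
    · simpa [α] using hcomm y y.2
  refine ⟨⟨φ, hφ, x, Subgroup.mem_inf.2 ⟨hxS, hxN⟩, hxP, α, ⟨_, le_pCore hKn hKp hαK, rfl⟩,
    fun y => conjAut_apply _ _ y⟩, fun hrad => ?_⟩
  -- `P` is not radical
  obtain ⟨e, he, hee⟩ : ∃ e : P ≃* φ.range, IsIso F e ∧ ∀ y : P, (e y : Ω) = φ y :=
    ⟨toIso φ hφ rfl, isIso_toIso _ _ rfl, fun y => rfl⟩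
  let β : MulAut P := MulAut.congr e.symm α
  have hβ : ∀ y, β y = e.symm (α (e y)) := fun y => rfl
  have hβF : β ∈ F.autGroup P :=
    (mem_autGroup hPS).2 ((he.trans ((mem_autGroup hφS).1 hαF)).trans he.symm)
  obtain ⟨θ, hθ, hθe⟩ := F.inv_mem hφ
  have hθ' : ∀ z : φ.range, (e.symm z : Ω) = θ z := fun z => by
    obtain ⟨y, rfl⟩ := e.surjective z
    rw [e.symm_apply_apply, ← hθe y]
    exact congrArg θ (Subtype.ext (hee y).symm)
  obtain ⟨L, hLn, hLp, hL⟩ := exists_chain hS hTs hPS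
  have hβL : (⟨β, hβF⟩ : F.autGroup P) ∈ L := by
    refine hL _ (fun y hy => ?_) (fun y => ?_)
    · have : α (e y) = e y := Subtype.ext (by
        simpa [α] using hfix (e y) (e y).2 (hee y ▸ map_mem_of_stronglyClosed hTs hφ y hy))
      show e.symm (α (e y)) = y
      rw [this, e.symm_apply_apply]
    · have h1 : ((α (e y) * (e y)⁻¹ : φ.range) : Ω) ∈ T := by
        simpa [α] using hcomm (e y) (e y).2
      have h2 := map_mem_of_stronglyClosed hTs hθ _ h1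
      rw [← hθ' (α (e y) * (e y)⁻¹), map_mul, map_inv, e.symm_apply_apply] at h2
      exact h2
  obtain ⟨y₀, hy₀⟩ := mem_inn_of_radical hrad hLn hLp hβL
  -- hence `x` centralizes `φ(P)` up to an inner automorphism
  have hkey : ∀ z : φ.range, x * (z : Ω) * x⁻¹ = φ y₀ * (z : Ω) * (φ y₀)⁻¹ := fun z => by
    obtain ⟨y, rfl⟩ := e.surjective z
    have h1 : y₀ * y * y₀⁻¹ = e.symm (α (e y)) := by
      rw [← hβ, show β = MulAut.conj y₀ from hy₀.symm]
      rfl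
    have h2 := congrArg (fun w => (e w : Ω)) h1
    simp only [MulEquiv.apply_symm_apply, hee, map_mul, map_inv] at h2
    simpa [α, hee] using h2.symm
  refine hxP ?_
  have hz : (φ y₀)⁻¹ * x ∈ φ.range := by
    refine centralizer_le_of_isCentric (conj_of_isCentric hP ⟨φ, hφ, rfl⟩)
      (mem_centralizerIn.2 ⟨S.mul_mem (S.inv_mem (val_mem hφ y₀)) hxS, fun z hz => ?_⟩)
    have h1 := hkey ⟨z, hz⟩
    calc z * ((φ y₀)⁻¹ * x) = (φ y₀)⁻¹ * (φ y₀ * z * (φ y₀)⁻¹) * x := by group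
      _ = (φ y₀)⁻¹ * x * z := by rw [← h1]; group
  simpa using φ.range.mul_mem ⟨y₀, rfl⟩ hz

end Cfsg.Agent.Lib.Fusion.NotCentricBelow
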