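import Cfsg.Agent.Lib.Fusion.Basic
import Cfsg.Agent.Lib.Fusion.Marks

/-!
Every fusion system over a finite group is realized inside a finite group: a free biset whose
point stabilizers are graphs of maps of the system, and whose fixed point numbers depend only on
the order of such a graph.
-/

set_option autoImplicit false

namespace Cfsg.Agent.Lib.Fusion.Park

open Cfsg Cfsg.FusionSystem Marks

universe u

variable {Ω : Type u} [Group Ω] {S : Subgroup Ω} (F : FusionSystem S)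

/-- A subgroup of `S × S` contained in the graph of a map of the system. -/
def Twisted (Δ : Subgroup (S × S)) : Prop :=
  ∃ (P : Subgroup Ω) (φ : P →* Ω), φ ∈ F.Hom P ∧
    ∀ z ∈ Δ, ∃ h : (z.2 : Ω) ∈ P, φ ⟨_, h⟩ = (z.1 : Ω)

variable {F}

theorem Twisted.mono {Δ Δ' : Subgroup (S × S)} (h : Twisted F Δ) (hle : Δ' ≤ Δ) :
    Twisted F Δ' := by
  obtain ⟨P, φ, hφ, hz⟩ := h
  exact ⟨P, φ, hφ, fun z hz' => hz z (hle hz')⟩

theorem Twisted.injective {Δ : Subgroup (S × S)} (h : Twisted F Δ) {z : S × S} (hz : z ∈ Δ) :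
    (z.1 = 1 → z = 1) ∧ (z.2 = 1 → z = 1) := by
  obtain ⟨P, φ, hφ, hz'⟩ := h
  obtain ⟨h2, e⟩ := hz' z hz
  refine ⟨fun h1 => ?_, fun h1 => ?_⟩
  · refine Prod.ext h1 (Subtype.ext ?_)
    have : (⟨_, h2⟩ : P) = 1 := F.injective_of_mem hφ (by rw [e, h1, map_one]; rfl)
    exact (congrArg Subtype.val this :)
  · refine Prod.ext (Subtype.ext ?_) h1
    have h3 : (⟨_, h2⟩ : P) = 1 := Subtype.ext (congrArg Subtype.val h1 :)
    rw [h3, map_one] at e
    exact e.symm

theorem Twisted.card_le [Finite S] {Δ : Subgroup (S × S)} (h : Twisted F Δ) :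
    Nat.card Δ ≤ Nat.card S := by
  refine Nat.card_le_card_of_injective (fun z : Δ => (z : S × S).2) fun a b hab => ?_
  have h1 := (h.injective (a * b⁻¹ : Δ).2).2
  have hab' : ((a * b⁻¹ : Δ) : S × S).2 = 1 := by
    show (a : S × S).2 * ((b : S × S).2)⁻¹ = 1
    rw [mul_inv_eq_one]
    exact hab
  exact mul_inv_eq_one.1 (Subtype.ext (h1 hab'))

theorem Twisted.conj {Δ : Subgroup (S × S)} (h : Twisted F Δ) (c : S × S) :
    Twisted F (Δ.map (MulAut.conj c).toMonoidHom) := by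
  obtain ⟨P, φ, hφ, hz⟩ := h
  let ι : ↥((P ⊓ S).map (MulAut.conj (c.2 : Ω)).toMonoidHom) →* P :=
    { toFun := fun y => ⟨(c.2 : Ω)⁻¹ * y * c.2, by
        obtain ⟨w, hw, hwy⟩ := y.2
        rw [← hwy]
        simpa [mul_assoc] using hw.1⟩
      map_one' := Subtype.ext (by simp)
      map_mul' := fun a b => Subtype.ext (by simp only [Subgroup.coe_mul]; group) }
  refine ⟨_, (MulAut.conj (c.1 : Ω)).toMonoidHom.comp (φ.comp ι), ?_, ?_⟩
  · have hle : (P ⊓ S).map (MulAut.conj (c.2 : Ω)).toMonoidHom ≤ S := by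
      rintro _ ⟨w, hw, rfl⟩
      exact S.mul_mem (S.mul_mem c.2.2 hw.2) (S.inv_mem c.2.2)
    have h1 : P.subtype.comp ι ∈ F.Hom _ :=
      conj_map_mem hle (S.inv_mem c.2.2) fun y => by
        show (c.2 : Ω)⁻¹ * y * c.2 = _
        simp
    have h2 : φ.comp ι ∈ F.Hom _ :=
      mem_of_comp h1 hφ (fun y => (ι y).2) fun y => rfl
    refine mem_of_comp h2 (conj_map_mem (χ := (MulAut.conj (c.1 : Ω)).toMonoidHom.comp S.subtype)
      le_rfl c.1.2 fun y => by simp) (fun y => val_mem h2 y) fun y => ?_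
    rfl
  · rintro _ ⟨z, hz', rfl⟩
    obtain ⟨h2, e⟩ := hz z hz'
    refine ⟨⟨z.2, ⟨h2, z.2.2⟩, by simp⟩, ?_⟩
    have e' : ι ⟨((((MulAut.conj c).toMonoidHom z).2 : S) : Ω), ⟨z.2, ⟨h2, z.2.2⟩, by simp⟩⟩ =
        ⟨_, h2⟩ := Subtype.ext (by
        show (c.2 : Ω)⁻¹ * ((c.2 : Ω) * z.2 * (c.2 : Ω)⁻¹) * c.2 = z.2
        group)
    show (MulAut.conj (c.1 : Ω)) (φ (ι _)) = _
    rw [e', e]
    simp

theorem twisted_conj_iff {Δ : Subgroup (S × S)} (c : S × S) :
    Twisted F (Δ.map (MulAut.conj c).toMonoidHom) ↔ Twisted F Δ := by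
  refine ⟨fun h => ?_, fun h => h.conj c⟩
  have h' := h.conj c⁻¹
  refine h'.mono fun z hz => ⟨_, ⟨z, hz, rfl⟩, ?_⟩
  simp [mul_assoc]

variable (F) in
/-- A finite biset with twisted stabilizers, a diagonally fixed point, and constant fixed point
numbers on twisted subgroups of each order at least `n`. -/
def Good (n : ℕ) : Prop :=
  ∃ (X : Type u) (_ : Finite X) (r : S × S →* Equiv.Perm X),
    (∀ x, Twisted F (stab r x)) ∧ (∃ x₀, ∀ s : S, r (s, s) x₀ = x₀) ∧
      ∀ Δ Δ' : Subgroup (S × S), Twisted F Δ → Twisted F Δ' → Nat.card Δ = Nat.card Δ' →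
        n ≤ Nat.card Δ → Nat.card {x // Δ ≤ stab r x} = Nat.card {x // Δ' ≤ stab r x}

theorem stab_coset {A : Type*} [Group A] (Δ : Subgroup A) (g : A) :
    stab (MulAction.toPermHom A (A ⧸ Δ)) (g : A ⧸ Δ) = Δ.map (MulAut.conj g).toMonoidHom := by
  ext a
  rw [mem_stab, Subgroup.mem_map]
  simp only [MulAction.toPermHom_apply, MulAction.toPerm_apply]
  change ((a * g : A) : A ⧸ Δ) = g ↔ _
  rw [QuotientGroup.eq]
  constructor
  · intro h
    refine ⟨g⁻¹ * a * g, ?_, by simp [mul_assoc]⟩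
    simpa [mul_assoc] using Δ.inv_mem h
  · rintro ⟨d, hd, rfl⟩
    simpa [mul_assoc] using Δ.inv_mem hd

theorem good_top [Finite S] (hS : 0 < Nat.card S) : Good F (Nat.card S + 1) := by
  let D : Subgroup (S × S) :=
    ((MonoidHom.id S).prod (MonoidHom.id S)).range
  have hD : Twisted F D := by
    refine ⟨S, S.subtype, subtype_mem le_rfl, ?_⟩
    rintro _ ⟨s, rfl⟩
    exact ⟨s.2, rfl⟩
  refine ⟨(S × S) ⧸ D, inferInstance, MulAction.toPermHom _ _, fun x => ?_, ⟨(1 : S × S), fun s => ?_⟩,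
    fun Δ Δ' hΔ _ _ hn => absurd hΔ.card_le (by omega)⟩
  · induction x using QuotientGroup.induction_on with
    | H g => rw [stab_coset]; exact hD.conj g
  · show stab (MulAction.toPermHom _ _) ((1 : S × S) : (S × S) ⧸ D) |> fun K => (s, s) ∈ K
    rw [stab_coset]
    exact ⟨(s, s), ⟨s, rfl⟩, by simp⟩

theorem card_fix_inv {A X : Type*} [Group A] [Finite A] (r : A →* Equiv.Perm X) (H : Subgroup A)
    (c : A) : Nat.card {x // H.map (MulAut.conj c).toMonoidHom ≤ stab r x} =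
      Nat.card {x // H ≤ stab r x} := by
  refine (Nat.card_congr (Equiv.subtypeEquiv (r c) fun x => ?_)).symm
  rw [Subgroup.map_le_iff_le_comap]
  refine forall_congr' fun a => imp_congr_right fun _ => ?_
  rw [Subgroup.mem_comap, mem_stab, mem_stab]
  simp only [MulEquiv.coe_toMonoidHom, MulAut.conj_apply, map_mul, map_inv, Equiv.Perm.mul_apply,
    Equiv.Perm.inv_def, Equiv.symm_apply_apply]
  exact (r c).injective.eq_iff.symm

theorem good_step [Finite S] {n : ℕ} (h : Good F (n + 1)) : Good F n := by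
  classical
  obtain ⟨X, hX, r, hr, ⟨x₀, hx₀⟩, hst⟩ := h
  let M := Nat.card X
  let A := S × S
  let f : Subgroup A → ℕ := fun Δ => Nat.card {x // Δ ≤ stab r x}
  have hfM : ∀ Δ, f Δ ≤ M := fun Δ => Finite.card_subtype_le _
  let K := Nat.card A
  let I := {Δ : Subgroup A // Twisted F Δ ∧ Nat.card Δ = n}
  let J := Σ Δ : I, Fin (n * (M - f Δ.1))
  let Y := fun j : J => A ⧸ j.1.1
  let r₁ : A →* Equiv.Perm (Σ _ : Fin K, X) :=
    (Equiv.Perm.sigmaCongrRightHom fun _ : Fin K => X).comp (MonoidHom.pi fun _ => r)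
  let r₂ : A →* Equiv.Perm (Σ j : J, Y j) :=
    (Equiv.Perm.sigmaCongrRightHom Y).comp (MonoidHom.pi fun j => MulAction.toPermHom A (Y j))
  let r' : A →* Equiv.Perm ((Σ _ : Fin K, X) ⊕ (Σ j : J, Y j)) :=
    (Equiv.Perm.sumCongrHom _ _).comp (r₁.prod r₂)
  have hl : ∀ i x, stab r' (Sum.inl ⟨i, x⟩) = stab r x := fun i x => by
    ext a
    show (Sum.inl ⟨i, r a x⟩ : (Σ _ : Fin K, X) ⊕ (Σ j : J, Y j)) = Sum.inl ⟨i, x⟩ ↔ _
    simp [mem_stab]
  have hrr : ∀ j (y : Y j), stab r' (Sum.inr ⟨j, y⟩) = stab (MulAction.toPermHom A (Y j)) y :=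
    fun j y => by
    ext a
    show (Sum.inr ⟨j, a • y⟩ : (Σ _ : Fin K, X) ⊕ (Σ j : J, Y j)) = Sum.inr ⟨j, y⟩ ↔ _
    simp [mem_stab]
  have hK : 0 < K := Nat.card_pos
  refine ⟨_, inferInstance, r', ?_, ⟨Sum.inl ⟨⟨0, hK⟩, x₀⟩, fun s => ?_⟩, ?_⟩
  · rintro (⟨i, x⟩ | ⟨j, y⟩)
    · rw [hl]; exact hr x
    · rw [hrr]
      induction y using QuotientGroup.induction_on with
      | H g => rw [stab_coset]; exact j.1.2.1.conj g
  · show (s, s) ∈ stab r' (Sum.inl ⟨⟨0, hK⟩, x₀⟩)
    rw [hl]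
    exact hx₀ s
  have hcount : ∀ Δ, Twisted F Δ → n ≤ Nat.card Δ → Nat.card {x // Δ ≤ stab r' x} =
      if Nat.card Δ = n then K * M else K * f Δ := by
    intro Δ hΔ hn
    have e : {x // Δ ≤ stab r' x} ≃
        ({s : Σ _ : Fin K, X // Δ ≤ stab r s.2} ⊕
          {s : Σ j : J, Y j // Δ ≤ stab (MulAction.toPermHom A (Y s.1)) s.2}) :=
      Equiv.subtypeSum.trans (Equiv.sumCongr (Equiv.subtypeEquivRight fun s => by rw [hl])
        (Equiv.subtypeEquivRight fun s => by rw [hrr]))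
    have e1 : {s : Σ _ : Fin K, X // Δ ≤ stab r s.2} ≃ Fin K × {x // Δ ≤ stab r x} :=
      { toFun := fun s => (s.1.1, ⟨s.1.2, s.2⟩)
        invFun := fun q => ⟨⟨q.1, q.2.1⟩, q.2.2⟩
        left_inv := fun s => rfl
        right_inv := fun q => rfl }
    have e2 : {s : Σ j : J, Y j // Δ ≤ stab (MulAction.toPermHom A (Y s.1)) s.2} ≃
        Σ d : I, Fin (n * (M - f d.1)) ×
          {y : A ⧸ d.1 // Δ ≤ stab (MulAction.toPermHom A (A ⧸ d.1)) y} :=
      { toFun := fun s => ⟨s.1.1.1, s.1.1.2, ⟨s.1.2, s.2⟩⟩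
        invFun := fun q => ⟨⟨⟨q.1, q.2.1⟩, q.2.2.1⟩, q.2.2.2⟩
        left_inv := fun s => rfl
        right_inv := fun q => rfl }
    have := Fintype.ofFinite I
    rw [Nat.card_congr e, Nat.card_sum, Nat.card_congr e1, Nat.card_congr e2, Nat.card_prod,
      Nat.card_fin, Nat.card_sigma]
    have hpre : ∀ d : I, Nat.card {g : A // Δ ≤ d.1.map (MulAut.conj g).toMonoidHom} =
        n * Nat.card {y : A ⧸ d.1 // Δ ≤ stab (MulAction.toPermHom A (A ⧸ d.1)) y} := fun d => by
      let T : Set (A ⧸ d.1) := {y | Δ ≤ stab (MulAction.toPermHom A (A ⧸ d.1)) y}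
      have h1 := Nat.card_congr (QuotientGroup.preimageMkEquivSubgroupProdSet d.1 T)
      rw [Nat.card_prod, d.2.2] at h1
      refine Eq.trans ?_ h1
      refine Nat.card_congr (Equiv.subtypeEquivRight fun g => ?_)
      show _ ↔ Δ ≤ stab (MulAction.toPermHom A (A ⧸ d.1)) (g : A ⧸ d.1)
      rw [stab_coset]
    have hterm : ∀ d : I, Nat.card (Fin (n * (M - f d.1)) ×
        {y : A ⧸ d.1 // Δ ≤ stab (MulAction.toPermHom A (A ⧸ d.1)) y}) =
        Nat.card {g : A // Δ ≤ d.1.map (MulAut.conj g).toMonoidHom} * (M - f d.1) := fun d => by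
      rw [hpre, Nat.card_prod, Nat.card_fin]
      ring
    rw [Finset.sum_congr rfl fun d _ => hterm d]
    have hd : ∀ (d : I) (g : A), Nat.card (d.1.map (MulAut.conj g).toMonoidHom) = n := fun d g => by
      rw [Nat.card_congr (d.1.equivMapOfInjective _ (MulAut.conj g).injective).symm.toEquiv, d.2.2]
    split_ifs with hΔn
    · have heq : ∀ (d : I) (g : A), Δ ≤ d.1.map (MulAut.conj g).toMonoidHom ↔
          d.1.map (MulAut.conj g).toMonoidHom = Δ := fun d g =>
        ⟨fun hle => (Subgroup.eq_of_le_of_card_ge hle (by rw [hd, hΔn])).symm, fun he => he.ge⟩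
      have hw : ∀ (d : I) (g : A), Δ ≤ d.1.map (MulAut.conj g).toMonoidHom → f d.1 = f Δ :=
        fun d g hle => by
        rw [← (heq d g).1 hle]
        exact (card_fix_inv r d.1 g).symm
      have hsum : ∀ d : I, Nat.card {g : A // Δ ≤ d.1.map (MulAut.conj g).toMonoidHom} *
          (M - f d.1) = Nat.card {g : A // Δ ≤ d.1.map (MulAut.conj g).toMonoidHom} * (M - f Δ) :=
        fun d => by
        rcases isEmpty_or_nonempty {g : A // Δ ≤ d.1.map (MulAut.conj g).toMonoidHom} with he | he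
        · rw [Nat.card_of_isEmpty, zero_mul, zero_mul]
        · obtain ⟨g, hg⟩ := he
          rw [hw d g hg]
      rw [Finset.sum_congr rfl fun d _ => hsum d, ← Finset.sum_mul, ← Nat.card_sigma]
      have e3 : (Σ d : I, {g : A // Δ ≤ d.1.map (MulAut.conj g).toMonoidHom}) ≃ A :=
        Equiv.ofBijective (fun q => q.2.1) ⟨by
          rintro ⟨d, g, hg⟩ ⟨d', g', hg'⟩ (rfl : g = g')
          obtain rfl : d = d' := Subtype.ext (Subgroup.map_injective
            (MulAut.conj g).injective (((heq d g).1 hg).trans ((heq d' g).1 hg').symm))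
          rfl, fun g => by
          have h1 : (Δ.map (MulAut.conj g⁻¹).toMonoidHom).map (MulAut.conj g).toMonoidHom = Δ := by
            rw [Subgroup.map_map]
            convert Subgroup.map_id Δ
            ext a : 1
            show MulAut.conj g (MulAut.conj g⁻¹ a) = a
            simp [mul_assoc]
          have h2 : Nat.card (Δ.map (MulAut.conj g⁻¹).toMonoidHom) = n := by
            rw [Nat.card_congr (Δ.equivMapOfInjective _
              (MulAut.conj g⁻¹).injective).symm.toEquiv, hΔn]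
          exact ⟨⟨⟨_, hΔ.conj g⁻¹, h2⟩, g, h1.ge⟩, rfl⟩⟩
      rw [Nat.card_congr e3, ← Nat.mul_add, Nat.add_sub_cancel' (hfM Δ)]
    · have h0 : ∀ d : I, Nat.card {g : A // Δ ≤ d.1.map (MulAut.conj g).toMonoidHom} = 0 := by
        intro d
        have : IsEmpty {g : A // Δ ≤ d.1.map (MulAut.conj g).toMonoidHom} :=
          ⟨fun q => hΔn (le_antisymm ((Subgroup.card_le_of_le q.2).trans (hd d q.1).le) hn)⟩
        exact Nat.card_of_isEmpty
      rw [Finset.sum_eq_zero fun d _ => by rw [h0, zero_mul], add_zero]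
  intro Δ Δ' hΔ hΔ' hc hn
  rw [hcount Δ hΔ hn, hcount Δ' hΔ' (hc ▸ hn), ← hc]
  split_ifs with he
  · rfl
  · rw [show f Δ = f Δ' from hst Δ Δ' hΔ hΔ' hc (by omega)]

theorem exists_good [Finite S] : Good F 0 := by
  have hS : 0 < Nat.card S := Nat.card_pos
  suffices ∀ k, Good F (Nat.card S + 1 - k) by simpa using this (Nat.card S + 1)
  intro k
  induction k with
  | zero => exact good_top hS
  | succ k IH =>
    rcases Nat.eq_zero_or_pos (Nat.card S + 1 - k) with h | h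
    · rwa [show Nat.card S + 1 - (k + 1) = Nat.card S + 1 - k by omega]
    · apply good_step
      rwa [show Nat.card S + 1 - (k + 1) + 1 = Nat.card S + 1 - k by omega]

theorem twisted_transport {P : Subgroup Ω} (hP : P ≤ S) {φ : P →* Ω} (hφ : φ ∈ F.Hom P)
    (H : Subgroup (S × P)) :
    Twisted F (H.map ((MonoidHom.id S).prodMap (Subgroup.inclusion hP))) ↔
      Twisted F (H.map ((MonoidHom.id S).prodMap (φ.codRestrict S (val_mem hφ)))) := by
  constructor
  · rintro ⟨P', ψ, hψ, hz⟩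
    obtain ⟨θ, hθ, hθe⟩ := F.inv_mem hφ
    let R : Subgroup Ω := (P'.subgroupOf P).map φ
    have hR : R ≤ φ.range := Subgroup.map_le_range φ _
    have hθ' : θ.comp (Subgroup.inclusion hR) ∈ F.Hom R := restrict_mem hR hθ
    have hmem : ∀ y : R, θ.comp (Subgroup.inclusion hR) y ∈ P' := by
      rintro ⟨_, x, hx, rfl⟩
      show θ ⟨φ x, _⟩ ∈ P'
      rw [hθe x]
      exact hx
    refine ⟨R, ψ.comp ((θ.comp (Subgroup.inclusion hR)).codRestrict P' hmem),
      mem_of_comp hθ' hψ hmem fun _ => rfl, ?_⟩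
    rintro _ ⟨z, hz', rfl⟩
    obtain ⟨h2, e⟩ := hz _ ⟨z, hz', rfl⟩
    refine ⟨⟨z.2, h2, rfl⟩, ?_⟩
    show ψ ⟨θ ⟨φ z.2, _⟩, _⟩ = _
    refine Eq.trans (congrArg ψ (Subtype.ext ?_)) e
    exact hθe z.2
  · rintro ⟨P', ψ, hψ, hz⟩
    let R : Subgroup Ω := (P'.comap φ).map P.subtype
    have hR : R ≤ P := Subgroup.map_subtype_le _
    have hφ' : φ.comp (Subgroup.inclusion hR) ∈ F.Hom R := restrict_mem hR hφ
    have hmem : ∀ y : R, φ.comp (Subgroup.inclusion hR) y ∈ P' := by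
      rintro ⟨_, x, hx, rfl⟩
      exact hx
    refine ⟨R, ψ.comp ((φ.comp (Subgroup.inclusion hR)).codRestrict P' hmem),
      mem_of_comp hφ' hψ hmem fun _ => rfl, ?_⟩
    rintro _ ⟨z, hz', rfl⟩
    obtain ⟨h2, e⟩ := hz _ ⟨z, hz', rfl⟩
    exact ⟨⟨z.2, h2, rfl⟩, e⟩

theorem exists_realization [Finite S] :
    ∃ (G : Type u) (_ : Group G) (_ : Finite G) (ι : S →* G), F.IsRealizedBy ι := by
  obtain ⟨X, hX, r, hr, ⟨x₀, hx₀⟩, hst⟩ := exists_good (F := F)
  let L : Subgroup (Equiv.Perm X) :=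
    Subgroup.centralizer ((r.comp (MonoidHom.inl S S)).range : Set (Equiv.Perm X))
  have hcomm : ∀ s : S, r (1, s) ∈ L := fun s => by
    refine Subgroup.mem_centralizer_iff.2 ?_
    rintro _ ⟨t, rfl⟩
    show r (t, 1) * r (1, s) = r (1, s) * r (t, 1)
    rw [← map_mul, ← map_mul]
    simp
  let ι : S →* L := (r.comp (MonoidHom.inr S S)).codRestrict L hcomm
  refine ⟨L, inferInstance, inferInstance, ι, ?_, ?_⟩
  · rw [injective_iff_map_eq_one]
    intro s hs
    have h1 : ((1 : S), s) ∈ stab r x₀ := by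
      show r (1, s) x₀ = x₀
      rw [show r (1, s) = 1 from congrArg Subtype.val hs]
      rfl
    exact congrArg Prod.snd (((hr x₀).injective h1).1 rfl)
  intro P hP φ hφS
  constructor
  · intro hφ
    let A := S × P
    let j₁ : A →* S × S := (MonoidHom.id S).prodMap (Subgroup.inclusion hP)
    let j₂ : A →* S × S := (MonoidHom.id S).prodMap (φ.codRestrict S (val_mem hφ))
    have hj₁ : Function.Injective j₁ := fun a b h =>
      Prod.ext (congrArg Prod.fst h :) (Subgroup.inclusion_injective hP (congrArg Prod.snd h :))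
    have hj₂ : Function.Injective j₂ := fun a b h =>
      Prod.ext (congrArg Prod.fst h :)
        (F.injective_of_mem hφ (congrArg (fun q : S × S => (q.2 : Ω)) h :))
    have : Finite P := Finite.of_injective _ (Subgroup.inclusion_injective hP)
    have hfix : ∀ H : Subgroup A, Nat.card {x // H ≤ stab (r.comp j₁) x} =
        Nat.card {x // H ≤ stab (r.comp j₂) x} := by
      intro H
      have hcard : ∀ j : A →* S × S, Nat.card {x // H ≤ stab (r.comp j) x} =
          Nat.card {x // H.map j ≤ stab r x} := fun j =>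
        Nat.card_congr (Equiv.subtypeEquivRight fun x =>
          (Subgroup.map_le_iff_le_comap (f := j) (K := H) (H := stab r x)).symm)
      rw [hcard, hcard]
      by_cases ht : Twisted F (H.map j₁)
      · refine hst _ _ ht ((twisted_transport hP hφ H).1 ht) ?_ (Nat.zero_le _)
        rw [← Nat.card_congr (H.equivMapOfInjective j₁ hj₁).toEquiv,
          ← Nat.card_congr (H.equivMapOfInjective j₂ hj₂).toEquiv]
      · have h2 : ¬ Twisted F (H.map j₂) := fun h => ht ((twisted_transport hP hφ H).2 h)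
        have e1 : IsEmpty {x // H.map j₁ ≤ stab r x} := ⟨fun q => ht ((hr q.1).mono q.2)⟩
        have e2 : IsEmpty {x // H.map j₂ ≤ stab r x} := ⟨fun q => h2 ((hr q.1).mono q.2)⟩
        rw [Nat.card_of_isEmpty, Nat.card_of_isEmpty]
    obtain ⟨g, hg⟩ := Marks.exists_intertwiner (r.comp j₁) (r.comp j₂) hfix
    have hgL : g ∈ L := by
      refine Subgroup.mem_centralizer_iff.2 ?_
      rintro _ ⟨s, rfl⟩
      have h := hg (s, 1)
      simp only [MonoidHom.comp_apply] at h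
      rw [show j₁ (s, 1) = (s, 1) from Prod.ext rfl (Subtype.ext rfl),
        show j₂ (s, 1) = (s, 1) from Prod.ext rfl (Subtype.ext (map_one φ))] at h
      exact h.symm
    refine ⟨⟨g, hgL⟩, fun x => Subtype.ext ?_⟩
    have h := hg (1, x)
    simp only [MonoidHom.comp_apply, j₁, j₂, MonoidHom.coe_prodMap, Prod.map_apply,
      MonoidHom.id_apply] at h
    show r (1, ⟨φ x, hφS x⟩) = g * r (1, ⟨x, hP x.2⟩) * g⁻¹
    rw [eq_mul_inv_iff_mul_eq]
    exact h.symm
  · rintro ⟨g, hg⟩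
    obtain ⟨P', ψ, hψ, hz⟩ := hr ((g : Equiv.Perm X) x₀)
    have key : ∀ u : P, ((⟨u, hP u.2⟩ : S), (⟨φ u, hφS u⟩ : S)) ∈
        stab r ((g : Equiv.Perm X) x₀) := by
      intro u
      set a : S := ⟨u, hP u.2⟩
      set b : S := ⟨φ u, hφS u⟩
      have h1 : r (1, b) = (g : Equiv.Perm X) * r (1, a) * (g : Equiv.Perm X)⁻¹ :=
        congrArg Subtype.val (hg u)
      have h2 : r (a, 1) * (g : Equiv.Perm X) = (g : Equiv.Perm X) * r (a, 1) :=
        Subgroup.mem_centralizer_iff.1 g.2 _ ⟨a, rfl⟩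
      show r (a, b) ((g : Equiv.Perm X) x₀) = _
      have h3 : r (a, b) * (g : Equiv.Perm X) = (g : Equiv.Perm X) * r (a, a) := by
        rw [show (a, b) = ((a, 1) : S × S) * (1, b) by simp, map_mul, h1, mul_assoc, mul_assoc,
          inv_mul_cancel, mul_one, ← mul_assoc, h2, mul_assoc, ← map_mul]
        simp
      rw [← Equiv.Perm.mul_apply, h3, Equiv.Perm.mul_apply, hx₀]
    obtain ⟨θ, hθ, hθe⟩ := F.inv_mem hψ
    have hle : P ≤ ψ.range := fun x hx => by
      obtain ⟨h2, e⟩ := hz _ (key ⟨x, hx⟩)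
      exact ⟨_, e⟩
    refine mem_of_agree hle hθ fun x => ?_
    obtain ⟨h2, e⟩ := hz _ (key x)
    have h3 := hθe ⟨φ x, h2⟩
    exact h3.symm.trans (congrArg θ (Subtype.ext e))

end Cfsg.Agent.Lib.Fusion.Park
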