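import Cfsg.Agent.Lib.Fusion.Saturated
import Cfsg.Prelude.Def_FusionComponents

/-!
The direct product of two saturated systems is saturated.
-/

set_option autoImplicit false

namespace Cfsg.Agent.Lib.Fusion.Product

open Cfsg Cfsg.FusionSystem
open scoped Pointwise

variable {Ω₁ Ω₂ : Type*} [Group Ω₁] [Group Ω₂] {S₁ : Subgroup Ω₁} {S₂ : Subgroup Ω₂}
  {F₁ : FusionSystem S₁} {F₂ : FusionSystem S₂} {E : FusionSystem (S₁.prod S₂)} {p : ℕ}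

theorem fst_le {P : Subgroup (Ω₁ × Ω₂)} (hP : P ≤ S₁.prod S₂) :
    P.map (MonoidHom.fst Ω₁ Ω₂) ≤ S₁ := by
  rintro _ ⟨x, hx, rfl⟩
  exact (hP hx).1

theorem snd_le {P : Subgroup (Ω₁ × Ω₂)} (hP : P ≤ S₁.prod S₂) :
    P.map (MonoidHom.snd Ω₁ Ω₂) ≤ S₂ := by
  rintro _ ⟨x, hx, rfl⟩
  exact (hP hx).2

theorem mem_fst {P : Subgroup (Ω₁ × Ω₂)} (x : P) :
    (x : Ω₁ × Ω₂).1 ∈ P.map (MonoidHom.fst Ω₁ Ω₂) := ⟨x, x.2, rfl⟩

theorem mem_snd {P : Subgroup (Ω₁ × Ω₂)} (x : P) :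
    (x : Ω₁ × Ω₂).2 ∈ P.map (MonoidHom.snd Ω₁ Ω₂) := ⟨x, x.2, rfl⟩

theorem isReceptive (hE : IsProductSystem F₁ F₂ E) {Q : Subgroup (Ω₁ × Ω₂)}
    (hQ : Q ≤ S₁.prod S₂) (h₁ : F₁.IsReceptive (Q.map (MonoidHom.fst Ω₁ Ω₂)))
    (h₂ : F₂.IsReceptive (Q.map (MonoidHom.snd Ω₁ Ω₂))) : E.IsReceptive Q := by
  refine ⟨hQ, fun R φ hφ hr => ?_⟩
  obtain ⟨hR, φ₁, hφ₁, φ₂, hφ₂, he⟩ := (hE R φ).1 hφ
  have hr₁ : φ₁.range = Q.map (MonoidHom.fst Ω₁ Ω₂) := by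
    ext y
    constructor
    · rintro ⟨⟨_, x, hx, rfl⟩, rfl⟩
      exact ⟨φ ⟨x, hx⟩, hr ▸ ⟨⟨x, hx⟩, rfl⟩, by
        rw [he ⟨x, hx⟩ (mem_fst _) (mem_snd _)]; rfl⟩
    · rintro ⟨z, hz, rfl⟩
      obtain ⟨x, rfl⟩ := hr.ge hz
      exact ⟨⟨_, mem_fst x⟩, by rw [he x (mem_fst x) (mem_snd x)]; rfl⟩
  have hr₂ : φ₂.range = Q.map (MonoidHom.snd Ω₁ Ω₂) := by
    ext y
    constructor
    · rintro ⟨⟨_, x, hx, rfl⟩, rfl⟩
      exact ⟨φ ⟨x, hx⟩, hr ▸ ⟨⟨x, hx⟩, rfl⟩, by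
        rw [he ⟨x, hx⟩ (mem_fst _) (mem_snd _)]; rfl⟩
    · rintro ⟨z, hz, rfl⟩
      obtain ⟨x, rfl⟩ := hr.ge hz
      exact ⟨⟨_, mem_snd x⟩, by rw [he x (mem_fst x) (mem_snd x)]; rfl⟩
  obtain ⟨ψ₁, hψ₁, hψe₁⟩ := h₁.2 _ φ₁ hφ₁ hr₁
  obtain ⟨ψ₂, hψ₂, hψe₂⟩ := h₂.2 _ φ₂ hφ₂ hr₂
  set X := extender (S₁.prod S₂) R φ
  have hmem : ∀ g : X, (g : Ω₁ × Ω₂).1 ∈ extender S₁ (R.map (MonoidHom.fst Ω₁ Ω₂)) φ₁ ∧
      (g : Ω₁ × Ω₂).2 ∈ extender S₂ (R.map (MonoidHom.snd Ω₁ Ω₂)) φ₂ := by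
    rintro ⟨g, hg⟩
    obtain ⟨hgS, hgN, h, hh, hgh⟩ := mem_extender.1 hg
    constructor
    · refine mem_extender.2 ⟨hgS.1, ?_, h.1, hh.1, ?_⟩
      · rw [Subgroup.mem_normalizer_iff]
        intro y
        constructor
        · rintro ⟨x, hx, rfl⟩
          exact ⟨g * x * g⁻¹, (Subgroup.mem_normalizer_iff.1 hgN x).1 hx, rfl⟩
        · rintro ⟨x, hx, hxy⟩
          refine ⟨g⁻¹ * x * g, ?_, ?_⟩
          · rw [SetLike.mem_coe, Subgroup.mem_normalizer_iff.1 hgN]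
            simpa [mul_assoc] using hx
          · show g.1⁻¹ * x.1 * g.1 = y
            rw [show x.1 = g.1 * y * g.1⁻¹ from hxy]
            group
      · rintro ⟨_, x, hx, rfl⟩ hxy
        have hc : g * x * g⁻¹ ∈ R := (Subgroup.mem_normalizer_iff.1 hgN x).1 hx
        have e := congrArg Prod.fst (hgh ⟨x, hx⟩ hc)
        rw [Prod.fst_mul (h * φ ⟨x, hx⟩), Prod.fst_mul h] at e
        rw [he ⟨_, hc⟩ (mem_fst _) (mem_snd _), he ⟨x, hx⟩ (mem_fst _) (mem_snd _)] at e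
        exact e
    · refine mem_extender.2 ⟨hgS.2, ?_, h.2, hh.2, ?_⟩
      · rw [Subgroup.mem_normalizer_iff]
        intro y
        constructor
        · rintro ⟨x, hx, rfl⟩
          exact ⟨g * x * g⁻¹, (Subgroup.mem_normalizer_iff.1 hgN x).1 hx, rfl⟩
        · rintro ⟨x, hx, hxy⟩
          refine ⟨g⁻¹ * x * g, ?_, ?_⟩
          · rw [SetLike.mem_coe, Subgroup.mem_normalizer_iff.1 hgN]
            simpa [mul_assoc] using hx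
          · show g.2⁻¹ * x.2 * g.2 = y
            rw [show x.2 = g.2 * y * g.2⁻¹ from hxy]
            group
      · rintro ⟨_, x, hx, rfl⟩ hxy
        have hc : g * x * g⁻¹ ∈ R := (Subgroup.mem_normalizer_iff.1 hgN x).1 hx
        have e := congrArg Prod.snd (hgh ⟨x, hx⟩ hc)
        rw [Prod.snd_mul (h * φ ⟨x, hx⟩), Prod.snd_mul h] at e
        rw [he ⟨_, hc⟩ (mem_fst _) (mem_snd _), he ⟨x, hx⟩ (mem_fst _) (mem_snd _)] at e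
        exact e
  have hX₁ : X.map (MonoidHom.fst Ω₁ Ω₂) ≤ extender S₁ (R.map (MonoidHom.fst Ω₁ Ω₂)) φ₁ := by
    rintro _ ⟨g, hg, rfl⟩
    exact (hmem ⟨g, hg⟩).1
  have hX₂ : X.map (MonoidHom.snd Ω₁ Ω₂) ≤ extender S₂ (R.map (MonoidHom.snd Ω₁ Ω₂)) φ₂ := by
    rintro _ ⟨g, hg, rfl⟩
    exact (hmem ⟨g, hg⟩).2
  let a₁ : X →* X.map (MonoidHom.fst Ω₁ Ω₂) :=
    ((MonoidHom.fst Ω₁ Ω₂).comp X.subtype).codRestrict _ mem_fst
  let a₂ : X →* X.map (MonoidHom.snd Ω₁ Ω₂) :=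
    ((MonoidHom.snd Ω₁ Ω₂).comp X.subtype).codRestrict _ mem_snd
  let ψ : X →* Ω₁ × Ω₂ := ((ψ₁.comp (Subgroup.inclusion hX₁)).comp a₁).prod
    ((ψ₂.comp (Subgroup.inclusion hX₂)).comp a₂)
  refine ⟨ψ, (hE X ψ).2 ⟨fun g hg => (mem_extender.1 hg).1, _, restrict_mem hX₁ hψ₁, _,
    restrict_mem hX₂ hψ₂, fun x _ _ => rfl⟩, fun x hx hxX => ?_⟩
  rw [he ⟨x, hx⟩ (mem_fst _) (mem_snd _)]
  exact Prod.ext (hψe₁ _ (mem_fst (⟨x, hx⟩ : R)) (hmem ⟨x, hxX⟩).1)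
    (hψe₂ _ (mem_snd (⟨x, hx⟩ : R)) (hmem ⟨x, hxX⟩).2)

/-- The action of a pair of automorphism groups on the product. -/
def pairAct {Q₁ : Subgroup Ω₁} {Q₂ : Subgroup Ω₂} (A₁ : Subgroup (MulAut Q₁))
    (A₂ : Subgroup (MulAut Q₂)) : A₁ × A₂ →* MulAut (Q₁ × Q₂) where
  toFun a := MulEquiv.prodCongr (a.1 : MulAut Q₁) (a.2 : MulAut Q₂)
  map_one' := MulEquiv.ext fun _ => rfl
  map_mul' _ _ := MulEquiv.ext fun _ => rfl

theorem isSaturated [Finite S₁] [Finite S₂] [Fact p.Prime] (h₁ : IsPGroup p S₁)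
    (h₂ : IsPGroup p S₂) (hF₁ : F₁.IsSaturated p)
    (hF₂ : F₂.IsSaturated p) (hE : IsProductSystem F₁ F₂ E) : E.IsSaturated p := by
  intro P hP
  have hfinS : Finite ↥(S₁.prod S₂) := Finite.of_equiv _ (Subgroup.prodEquiv S₁ S₂).symm.toEquiv
  obtain ⟨Q₁, hc₁, hA₁, hR₁⟩ := hF₁ _ (fst_le hP)
  obtain ⟨Q₂, hc₂, hA₂, hR₂⟩ := hF₂ _ (snd_le hP)
  obtain ⟨e₁, he₁⟩ := isConj_iff_iso.1 hc₁
  obtain ⟨e₂, he₂⟩ := isConj_iff_iso.1 hc₂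
  obtain ⟨hQ₁, hsyl₁⟩ := isFullyAutomized_iff.1 hA₁
  obtain ⟨hQ₂, hsyl₂⟩ := isFullyAutomized_iff.1 hA₂
  have := finite_mulAut hQ₁
  have := finite_mulAut hQ₂
  have := finite_of_le hQ₁
  have := finite_of_le hQ₂
  set A₁ := F₁.autGroup Q₁
  set A₂ := F₂.autGroup Q₂
  -- the image of `P`
  let f : P →* Q₁ × Q₂ :=
    (e₁.toMonoidHom.comp (((MonoidHom.fst Ω₁ Ω₂).comp P.subtype).codRestrict _ mem_fst)).prod
      (e₂.toMonoidHom.comp (((MonoidHom.snd Ω₁ Ω₂).comp P.subtype).codRestrict _ mem_snd))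
  let θ := pairAct A₁ A₂
  -- a Sylow subgroup of the stabilizer
  let R : Subgroup (A₁ × A₂) :=
    ((autInducedBy S₁ Q₁).subgroupOf A₁).prod ((autInducedBy S₂ Q₂).subgroupOf A₂)
  have hR : IsSylowIn p R ⊤ := by
    refine ⟨le_top, ?_, ?_⟩
    · rintro ⟨⟨x, y⟩, hx, hy⟩
      obtain ⟨k, hk⟩ := hsyl₁.2.1 ⟨x, hx⟩
      obtain ⟨l, hl⟩ := hsyl₂.2.1 ⟨y, hy⟩
      have hx' : x ^ p ^ k = 1 := Subtype.ext (congrArg Subtype.val hk :)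
      have hy' : y ^ p ^ l = 1 := Subtype.ext (congrArg Subtype.val hl :)
      refine ⟨k + l, Subtype.ext (Prod.ext ?_ ?_)⟩
      · show x ^ p ^ (k + l) = 1
        rw [pow_add, pow_mul, hx', one_pow]
      · show y ^ p ^ (k + l) = 1
        rw [pow_add, mul_comm, pow_mul, hy', one_pow]
    · rw [Subgroup.relIndex_top_right, Subgroup.index_prod]
      intro hd
      rcases (Fact.out : p.Prime).dvd_mul.1 hd with h | h
      · exact hsyl₁.2.2 h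
      · exact hsyl₂.2.2 h
  let St : Subgroup (Q₁ × Q₂) → Subgroup (A₁ × A₂) := fun W =>
    (MulAction.stabilizer (MulAut (Q₁ × Q₂)) W).comap θ
  obtain ⟨X, hX, -⟩ := exists_isSylowIn (p := p) (K := St f.range) bot_le IsPGroup.of_bot
  obtain ⟨a, -, ha⟩ := hR.exists_conj_le le_top hX.2.1
  let W : Subgroup (Q₁ × Q₂) := θ a • f.range
  let g : P →* Q₁ × Q₂ := (θ a).toMonoidHom.comp f
  have hgW : g.range = W := by
    rw [show W = f.range.map (θ a).toMonoidHom from rfl, MonoidHom.map_range]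
  have hStW : ∀ x, x ∈ St f.range ↔ a * x * a⁻¹ ∈ St W := fun x => by
    simp only [St, W, Subgroup.mem_comap, MulAction.mem_stabilizer_iff, map_mul, map_inv, mul_smul,
      inv_smul_smul, smul_left_cancel_iff]
  -- the fully automized receptive conjugate
  let j : Q₁ × Q₂ →* Ω₁ × Ω₂ := Q₁.subtype.prodMap Q₂.subtype
  have hj : Function.Injective j := fun x y h =>
    Prod.ext (Subtype.ext (congrArg Prod.fst h :)) (Subtype.ext (congrArg Prod.snd h :))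
  let φ : P →* Ω₁ × Ω₂ := j.comp g
  have hφ : φ ∈ E.Hom P := by
    refine (hE P φ).2 ⟨hP, _, (he₁.trans ((mem_autGroup hQ₁).1 a.1.2)), _,
      (he₂.trans ((mem_autGroup hQ₂).1 a.2.2)), fun x _ _ => rfl⟩
  refine ⟨φ.range, ⟨φ, hφ, rfl⟩, ?_, ?_⟩
  swap
  · have h1 : φ.range.map (MonoidHom.fst Ω₁ Ω₂) = Q₁ := by
      ext y
      constructor
      · rintro ⟨_, ⟨x, rfl⟩, rfl⟩
        exact (g x).1.2
      · intro hy
        obtain ⟨x, hx, hxe⟩ := (e₁.symm ((a.1 : MulAut Q₁).symm ⟨y, hy⟩)).2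
        refine ⟨_, ⟨⟨x, hx⟩, rfl⟩, ?_⟩
        show (((a.1 : MulAut Q₁) (e₁ ⟨_, mem_fst (⟨x, hx⟩ : P)⟩) : Q₁) : Ω₁) = y
        rw [show (⟨_, mem_fst (⟨x, hx⟩ : P)⟩ : P.map (MonoidHom.fst Ω₁ Ω₂)) =
          e₁.symm ((a.1 : MulAut Q₁).symm ⟨y, hy⟩) from Subtype.ext hxe]
        simp
    have h2 : φ.range.map (MonoidHom.snd Ω₁ Ω₂) = Q₂ := by
      ext y
      constructor
      · rintro ⟨_, ⟨x, rfl⟩, rfl⟩
        exact (g x).2.2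
      · intro hy
        obtain ⟨x, hx, hxe⟩ := (e₂.symm ((a.2 : MulAut Q₂).symm ⟨y, hy⟩)).2
        refine ⟨_, ⟨⟨x, hx⟩, rfl⟩, ?_⟩
        show (((a.2 : MulAut Q₂) (e₂ ⟨_, mem_snd (⟨x, hx⟩ : P)⟩) : Q₂) : Ω₂) = y
        rw [show (⟨_, mem_snd (⟨x, hx⟩ : P)⟩ : P.map (MonoidHom.snd Ω₁ Ω₂)) =
          e₂.symm ((a.2 : MulAut Q₂).symm ⟨y, hy⟩) from Subtype.ext hxe]
        simp
    exact isReceptive hE (range_le hφ) (h1.symm ▸ hR₁) (h2.symm ▸ hR₂)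
  set Q := φ.range
  have hQS : Q ≤ S₁.prod S₂ := range_le hφ
  have := finite_mulAut hQS
  have hQW : Q = W.map j := by rw [← hgW, MonoidHom.map_range]
  let eW : W ≃* Q := (W.equivMapOfInjective j hj).trans (MulEquiv.subgroupCongr hQW.symm)
  have hstab : ∀ s : St W, ∀ w ∈ W, θ s w ∈ W := fun s w hw => by
    have h1 := Subgroup.smul_mem_pointwise_smul w (θ s) W hw
    rwa [show θ (s : A₁ × A₂) • W = W from s.2] at h1
  let res : St W →* MulAut W :=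
    { toFun := fun s =>
        { toFun := fun w => ⟨θ s w, hstab s w w.2⟩
          invFun := fun w => ⟨θ (s⁻¹ : St W) w, hstab s⁻¹ w w.2⟩
          left_inv := fun w => Subtype.ext (by simp)
          right_inv := fun w => Subtype.ext (by simp)
          map_mul' := fun v w => Subtype.ext (map_mul _ _ _) }
      map_one' := MulEquiv.ext fun w => Subtype.ext (by simp)
      map_mul' := fun s t => MulEquiv.ext fun w => Subtype.ext (by simp) }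
  let ρ : St W →* MulAut Q := (MulAut.congr eW).toMonoidHom.comp res
  have hρ : ∀ (s : St W) (w : W), ρ s (eW w) = eW (res s w) := fun s w => by
    show eW (res s (eW.symm (eW w))) = _
    rw [eW.symm_apply_apply]
  have hρj : ∀ (s : St W) (w : W) , ((ρ s (eW w) : Q) : Ω₁ × Ω₂) = j (θ s w) := fun s w => by
    rw [hρ]; rfl
  have hQ1 : Q.map (MonoidHom.fst Ω₁ Ω₂) ≤ Q₁ := by
    rintro _ ⟨_, ⟨x, rfl⟩, rfl⟩; exact (g x).1.2
  have hQ2 : Q.map (MonoidHom.snd Ω₁ Ω₂) ≤ Q₂ := by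
    rintro _ ⟨_, ⟨x, rfl⟩, rfl⟩; exact (g x).2.2
  have hsurjQ : ∀ y : Q, ∃ w : W, eW w = y := fun y => ⟨eW.symm y, eW.apply_symm_apply y⟩
  have hρA : ∀ s, ρ s ∈ E.autGroup Q := by
    intro s
    refine (mem_autGroup hQS).2 ((hE Q _).2 ⟨hQS, _,
      restrict_mem hQ1 ((mem_autGroup hQ₁).1 (s : A₁ × A₂).1.2), _,
      restrict_mem hQ2 ((mem_autGroup hQ₂).1 (s : A₁ × A₂).2.2), fun y _ _ => ?_⟩)
    obtain ⟨w, rfl⟩ := hsurjQ y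
    exact hρj s w
  have hρsurj : ∀ α ∈ E.autGroup Q, ∃ s, ρ s = α := by
    intro α hα
    obtain ⟨-, φ₁, hφ₁, φ₂, hφ₂, he⟩ := (hE Q _).1 ((mem_autGroup hQS).1 hα)
    have hQ1' : Q₁ ≤ Q.map (MonoidHom.fst Ω₁ Ω₂) := by
      intro y hy
      obtain ⟨x, hx, hxe⟩ := (e₁.symm ((a.1 : MulAut Q₁).symm ⟨y, hy⟩)).2
      refine ⟨_, ⟨⟨x, hx⟩, rfl⟩, ?_⟩
      show (((a.1 : MulAut Q₁) (e₁ ⟨_, mem_fst (⟨x, hx⟩ : P)⟩) : Q₁) : Ω₁) = y
      rw [show (⟨_, mem_fst (⟨x, hx⟩ : P)⟩ : P.map (MonoidHom.fst Ω₁ Ω₂)) =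
        e₁.symm ((a.1 : MulAut Q₁).symm ⟨y, hy⟩) from Subtype.ext hxe]
      simp
    have hQ2' : Q₂ ≤ Q.map (MonoidHom.snd Ω₁ Ω₂) := by
      intro y hy
      obtain ⟨x, hx, hxe⟩ := (e₂.symm ((a.2 : MulAut Q₂).symm ⟨y, hy⟩)).2
      refine ⟨_, ⟨⟨x, hx⟩, rfl⟩, ?_⟩
      show (((a.2 : MulAut Q₂) (e₂ ⟨_, mem_snd (⟨x, hx⟩ : P)⟩) : Q₂) : Ω₂) = y
      rw [show (⟨_, mem_snd (⟨x, hx⟩ : P)⟩ : P.map (MonoidHom.snd Ω₁ Ω₂)) =
        e₂.symm ((a.2 : MulAut Q₂).symm ⟨y, hy⟩) from Subtype.ext hxe]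
      simp
    obtain ⟨b₁, hb₁, hbe₁⟩ : ∃ b ∈ A₁, ∀ q : Q₁, ((b q : Q₁) : Ω₁) = φ₁ ⟨q, hQ1' q.2⟩ := by
      have hm : ∀ q : Q₁, φ₁.comp (Subgroup.inclusion hQ1') q ∈ Q₁ := by
        rintro ⟨q, hq⟩
        obtain ⟨z, hz, hzq⟩ := hQ1' hq
        refine hQ1 ⟨_, (α ⟨z, hz⟩).2, ?_⟩
        have h1 : ((α ⟨z, hz⟩ : Q) : Ω₁ × Ω₂) = _ := he ⟨z, hz⟩ (mem_fst _) (mem_snd _)
        show ((α ⟨z, hz⟩ : Q) : Ω₁ × Ω₂).1 = _
        rw [h1]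
        exact congrArg φ₁ (Subtype.ext hzq)
      have hinj : Function.Injective ((φ₁.comp (Subgroup.inclusion hQ1')).codRestrict Q₁ hm) :=
        fun x y h => Subgroup.inclusion_injective hQ1'
          (F₁.injective_of_mem hφ₁ (congrArg Subtype.val h :))
      refine ⟨MulEquiv.ofBijective _ ⟨hinj, Finite.surjective_of_injective hinj⟩,
        (mem_autGroup hQ₁).2 ?_, fun q => rfl⟩
      exact mem_of_agree hQ1' hφ₁ fun q => rfl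
    obtain ⟨b₂, hb₂, hbe₂⟩ : ∃ b ∈ A₂, ∀ q : Q₂, ((b q : Q₂) : Ω₂) = φ₂ ⟨q, hQ2' q.2⟩ := by
      have hm : ∀ q : Q₂, φ₂.comp (Subgroup.inclusion hQ2') q ∈ Q₂ := by
        rintro ⟨q, hq⟩
        obtain ⟨z, hz, hzq⟩ := hQ2' hq
        refine hQ2 ⟨_, (α ⟨z, hz⟩).2, ?_⟩
        have h1 : ((α ⟨z, hz⟩ : Q) : Ω₁ × Ω₂) = _ := he ⟨z, hz⟩ (mem_fst _) (mem_snd _)
        show ((α ⟨z, hz⟩ : Q) : Ω₁ × Ω₂).2 = _
        rw [h1]
        exact congrArg φ₂ (Subtype.ext hzq)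
      have hinj : Function.Injective ((φ₂.comp (Subgroup.inclusion hQ2')).codRestrict Q₂ hm) :=
        fun x y h => Subgroup.inclusion_injective hQ2'
          (F₂.injective_of_mem hφ₂ (congrArg Subtype.val h :))
      refine ⟨MulEquiv.ofBijective _ ⟨hinj, Finite.surjective_of_injective hinj⟩,
        (mem_autGroup hQ₂).2 ?_, fun q => rfl⟩
      exact mem_of_agree hQ2' hφ₂ fun q => rfl
    let b : A₁ × A₂ := (⟨b₁, hb₁⟩, ⟨b₂, hb₂⟩)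
    have hb : ∀ w : W, j (θ b w) = ((α (eW w) : Q) : Ω₁ × Ω₂) := fun w => by
      refine Eq.trans ?_ (he (eW w) (mem_fst _) (mem_snd _)).symm
      exact Prod.ext (hbe₁ (w : Q₁ × Q₂).1) (hbe₂ (w : Q₁ × Q₂).2)
    have hbW : b ∈ St W := by
      show θ b • W = W
      refine Subgroup.eq_of_le_of_card_ge ?_ (le_of_eq ?_)
      · intro v hv
        rw [Subgroup.mem_smul_pointwise_iff_exists] at hv
        obtain ⟨w, hw, rfl⟩ := hv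
        have h1 : j (θ b w) ∈ Q := hb ⟨w, hw⟩ ▸ (α _).2
        rw [hQW] at h1
        obtain ⟨v, hv, hve⟩ := h1
        show θ b w ∈ W
        exact hj hve ▸ hv
      · exact (Nat.card_congr (Subgroup.equivSMul (θ b) W).toEquiv)
    refine ⟨⟨b, hbW⟩, MulEquiv.ext fun y => ?_⟩
    obtain ⟨w, rfl⟩ := hsurjQ y
    exact Subtype.ext ((hρj ⟨b, hbW⟩ w).trans (hb w))
  have hS : IsPGroup p ↥(S₁.prod S₂) := by
    rintro ⟨⟨x, y⟩, hx, hy⟩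
    obtain ⟨k, hk⟩ := h₁ ⟨x, hx⟩
    obtain ⟨l, hl⟩ := h₂ ⟨y, hy⟩
    have hx' : x ^ p ^ k = 1 := congrArg Subtype.val hk
    have hy' : y ^ p ^ l = 1 := congrArg Subtype.val hl
    refine ⟨k + l, Subtype.ext (Prod.ext ?_ ?_)⟩
    · show x ^ p ^ (k + l) = 1
      rw [pow_add, pow_mul, hx', one_pow]
    · show y ^ p ^ (k + l) = 1
      rw [pow_add, mul_comm, pow_mul, hy', one_pow]
  refine isFullyAutomized_iff.2 ⟨hQS, autInducedBy_le_autGroup hQS,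
    isPGroup_autInducedBy hS Q, fun hd => hX.2.2 (hd.trans ?_)⟩
  -- compare with the Sylow subgroup `X`
  have hmapSt : (St f.range).map (MulAut.conj a).toMonoidHom = St W := by
    ext z
    constructor
    · rintro ⟨x, hx, rfl⟩
      exact (hStW x).1 hx
    · intro hz
      refine ⟨a⁻¹ * z * a, (hStW _).2 ?_, by simp [mul_assoc]⟩
      simpa [mul_assoc] using hz
  have h3 : (R ⊓ St W).relIndex (St W) ∣ X.relIndex (St f.range) := by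
    rw [← Subgroup.relIndex_map_map_of_injective (f := (MulAut.conj a).toMonoidHom) X _
      (MulAut.conj a).injective, hmapSt]
    refine Subgroup.relIndex_dvd_of_le_left _ (le_inf ?_ ?_)
    · rintro _ ⟨x, hx, rfl⟩
      exact ha x hx
    · rw [← hmapSt]
      exact Subgroup.map_mono hX.1
  rw [Subgroup.inf_relIndex_right] at h3
  refine Dvd.dvd.trans ?_ h3
  have hrange : ρ.range = E.autGroup Q :=
    le_antisymm (by rintro _ ⟨s, rfl⟩; exact hρA s) fun α hα => hρsurj α hα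
  have hle : (R.subgroupOf (St W)).map ρ ≤ autInducedBy (S₁.prod S₂) Q := by
    rintro _ ⟨s, hs, rfl⟩
    obtain ⟨g₁, hg₁, hge₁⟩ := mem_autInducedBy.1 hs.1
    obtain ⟨g₂, hg₂, hge₂⟩ := mem_autInducedBy.1 hs.2
    refine mem_autInducedBy.2 ⟨(g₁, g₂), ⟨hg₁, hg₂⟩, fun y => ?_⟩
    obtain ⟨w, rfl⟩ := hsurjQ y
    rw [hρj]
    exact Prod.ext (hge₁ _) (hge₂ _)
  refine (Subgroup.relIndex_dvd_of_le_left _ hle).trans ?_
  rw [← hrange, MonoidHom.range_eq_map, Subgroup.relIndex_map_map]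
  simp only [top_sup_eq, Subgroup.relIndex_top_right]
  exact Subgroup.index_dvd_of_le le_sup_left

end Cfsg.Agent.Lib.Fusion.Product
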