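import Mathlib

/-!
Layers of a finite abelian `p`-group with pairwise distinct invariants.
-/

set_option autoImplicit false

namespace Cfsg.Agent.Lib.Fusion.AbelianLayer

variable (p : ℕ) {M : Type*} [CommGroup M]

/-- The elements of order dividing `p` that are `p^k`-th powers. -/
def layer (M : Type*) [CommGroup M] (k : ℕ) : Subgroup M :=
  (powMonoidHom p).ker ⊓ (powMonoidHom (p ^ k) : M →* M).range

theorem mem_layer {k : ℕ} {y : M} : y ∈ layer p M k ↔ y ^ p = 1 ∧ ∃ z, z ^ p ^ k = y := Iff.rfl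

theorem layer_succ_le (k : ℕ) : layer p M (k + 1) ≤ layer p M k := by
  rintro y ⟨h, z, hz⟩
  refine ⟨h, z ^ p, ?_⟩
  change z ^ p ^ (k + 1) = y at hz
  show (z ^ p) ^ p ^ k = y
  rw [← pow_mul, ← pow_succ', hz]

theorem layer_map {M' : Type*} [CommGroup M'] (f : M →* M') {k : ℕ} {y : M}
    (hy : y ∈ layer p M k) : f y ∈ layer p M' k := by
  obtain ⟨h, z, hz⟩ := hy
  exact ⟨show f y ^ p = 1 by rw [← map_pow, show y ^ p = 1 from h, map_one], f z,
    show f z ^ p ^ k = f y by rw [← map_pow, show z ^ p ^ k = y from hz]⟩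

/-- Each layer has index at most `p` in the previous one. -/
def Slim (M : Type*) [CommGroup M] : Prop :=
  ∀ k, ∀ y ∈ layer p M k, y ∉ layer p M (k + 1) → ∀ y' ∈ layer p M k,
    ∃ a : ℕ, y' * (y ^ a)⁻¹ ∈ layer p M (k + 1)

theorem Slim.of_equiv {M' : Type*} [CommGroup M'] (e : M ≃* M') (h : Slim p M') : Slim p M := by
  intro k y hy hyn y' hy'
  obtain ⟨a, ha⟩ := h k (e y) (layer_map p e.toMonoidHom hy)
    (fun hc => hyn (by simpa using layer_map p e.symm.toMonoidHom hc))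
    (e y') (layer_map p e.toMonoidHom hy')
  exact ⟨a, by simpa using layer_map p e.symm.toMonoidHom ha⟩

theorem zmod_layer [Fact p.Prime] {m k : ℕ} {y : ZMod (p ^ m)} (hpy : p • y = 0)
    (hy : ∃ z : ZMod (p ^ m), p ^ k • z = y) :
    (∃ z : ZMod (p ^ m), p ^ (k + 1) • z = y) ∨ (m = k + 1 ∧ ∃ c : ℕ, y = ((p ^ k * c : ℕ) : ZMod (p ^ m))) := by
  have hp : p.Prime := Fact.out
  haveI : NeZero (p ^ m) := ⟨pow_ne_zero _ hp.ne_zero⟩
  obtain ⟨z, rfl⟩ := hy
  obtain ⟨c, rfl⟩ : ∃ c : ℕ, (c : ZMod (p ^ m)) = z := ⟨z.val, ZMod.natCast_zmod_val z⟩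
  rcases lt_trichotomy m (k + 1) with h | h | h
  · refine Or.inl ⟨0, ?_⟩
    rw [smul_zero, nsmul_eq_mul, ← Nat.cast_mul, eq_comm, ZMod.natCast_eq_zero_iff]
    exact (pow_dvd_pow p (by omega)).mul_right _
  · exact Or.inr ⟨h, c, by rw [nsmul_eq_mul, Nat.cast_mul]⟩
  · left
    rw [nsmul_eq_mul, nsmul_eq_mul, ← Nat.cast_mul, ← Nat.cast_mul, ZMod.natCast_eq_zero_iff] at hpy
    rw [← mul_assoc, ← pow_succ'] at hpy
    have hd : p ^ (m - (k + 1)) ∣ c := by
      refine Nat.dvd_of_mul_dvd_mul_left (k := p ^ (k + 1)) (pow_pos hp.pos _) ?_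
      rwa [← pow_add, show k + 1 + (m - (k + 1)) = m by omega]
    obtain ⟨d, rfl⟩ := hd
    refine ⟨((p ^ (m - (k + 1) - 1) * d : ℕ) : ZMod (p ^ m)), ?_⟩
    rw [nsmul_eq_mul, nsmul_eq_mul, ← Nat.cast_mul, ← Nat.cast_mul]
    congr 1
    rw [← mul_assoc, ← mul_assoc, ← pow_add, ← pow_add]
    congr 2
    omega

theorem slim_pi [Fact p.Prime] {ι : Type*} [Fintype ι] (e : ι → ℕ)
    (he : Function.Injective e) : Slim p ((j : ι) → Multiplicative (ZMod (p ^ e j))) := by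
  classical
  have hp : p.Prime := Fact.out
  intro k y hy hyn y' hy'
  have conv : ∀ w ∈ layer p ((j : ι) → Multiplicative (ZMod (p ^ e j))) k, ∀ j,
      p • (w j).toAdd = 0 ∧ ∃ z, p ^ k • z = (w j).toAdd := by
    rintro w ⟨hw, z, hz⟩ j
    exact ⟨congrArg (fun f : (j : ι) → Multiplicative (ZMod (p ^ e j)) => (f j).toAdd) hw,
      (z j).toAdd, congrArg (fun f : (j : ι) → Multiplicative (ZMod (p ^ e j)) => (f j).toAdd) hz⟩
  have back : ∀ w : (j : ι) → Multiplicative (ZMod (p ^ e j)), w ^ p = 1 →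
      (∀ j, ∃ z, p ^ (k + 1) • z = (w j).toAdd) →
      w ∈ layer p ((j : ι) → Multiplicative (ZMod (p ^ e j))) (k + 1) := by
    intro w hw h
    choose z hz using h
    exact ⟨hw, fun j => Multiplicative.ofAdd (z j), funext fun j => hz j⟩
  have hy_p : y ^ p = 1 := hy.1
  have hy'_p : y' ^ p = 1 := hy'.1
  -- the exceptional coordinate
  obtain ⟨j₀, hj₀⟩ : ∃ j, ∀ z, p ^ (k + 1) • z ≠ (y j).toAdd := by
    by_contra hcon
    push Not at hcon
    exact hyn (back y hy_p hcon)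
  obtain ⟨hm, c, hc⟩ := (zmod_layer p (conv y hy j₀).1 (conv y hy j₀).2).resolve_left
    fun ⟨z, hz⟩ => hj₀ z hz
  have hcp : ¬ p ∣ c := by
    rintro ⟨d, rfl⟩
    refine hj₀ 0 ?_
    rw [smul_zero, hc, eq_comm, ZMod.natCast_eq_zero_iff, hm, pow_succ]
    exact mul_dvd_mul_left _ (dvd_mul_right _ _)
  obtain ⟨c', hc'⟩ : ∃ c' : ℕ, (y' j₀).toAdd = ((p ^ k * c' : ℕ) : ZMod (p ^ e j₀)) := by
    haveI : NeZero (p ^ e j₀) := ⟨pow_ne_zero _ hp.ne_zero⟩
    obtain ⟨z, hz⟩ := (conv y' hy' j₀).2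
    exact ⟨z.val, by rw [← hz, nsmul_eq_mul, Nat.cast_mul, ZMod.natCast_zmod_val]⟩
  obtain ⟨a, ha⟩ : ∃ a : ℕ, a * c ≡ c' [MOD p] := by
    have hc0 : (c : ZMod p) ≠ 0 := by rwa [Ne, ZMod.natCast_eq_zero_iff]
    refine ⟨((c' : ZMod p) * (c : ZMod p)⁻¹).val, ?_⟩
    rw [← ZMod.natCast_eq_natCast_iff, Nat.cast_mul, ZMod.natCast_zmod_val]
    field_simp
  have hmem : y' * (y ^ a)⁻¹ ∈ layer p ((j : ι) → Multiplicative (ZMod (p ^ e j))) k :=
    mul_mem hy' (inv_mem (pow_mem hy a))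
  refine ⟨a, back _ hmem.1 fun j => ?_⟩
  rcases zmod_layer p (conv _ hmem j).1 (conv _ hmem j).2 with h | ⟨hj, -⟩
  · exact h
  · obtain rfl : j = j₀ := he (hj.trans hm.symm)
    refine ⟨0, ?_⟩
    have h1 : ((p ^ k * c' : ℕ) : ZMod (p ^ e j)) = ((p ^ k * (a * c) : ℕ) : ZMod (p ^ e j)) := by
      rw [ZMod.natCast_eq_natCast_iff, hm, pow_succ]
      exact Nat.ModEq.mul_left' _ ha.symm
    show p ^ (k + 1) • (0 : ZMod (p ^ e j)) = (y' j * (y j ^ a)⁻¹).toAdd
    rw [smul_zero, toAdd_mul, toAdd_inv, toAdd_pow, hc', hc, nsmul_eq_mul, h1, Nat.cast_mul,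
      Nat.cast_mul, Nat.cast_mul]
    ring

/-- A finite abelian `p`-group is a product of cyclic groups with exponents `e`. -/
theorem exists_decomposition [Fact p.Prime] [Finite M] (hM : IsPGroup p M) :
    ∃ (ι : Type) (_ : Fintype ι) (e : ι → ℕ), (∀ j, 0 < e j) ∧
      Nonempty (M ≃* ((j : ι) → Multiplicative (ZMod (p ^ e j)))) := by
  classical
  obtain ⟨ι, hι, n, hn, ⟨f⟩⟩ := CommGroup.equiv_prod_multiplicative_zmod_of_finite M
  have h : ∀ i, ∃ k, n i = p ^ k ∧ 0 < k := by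
    intro i
    have hp : IsPGroup p (Multiplicative (ZMod (n i))) :=
      (hM.of_surjective f.toMonoidHom f.surjective).of_surjective
        (Pi.evalMonoidHom (fun j => Multiplicative (ZMod (n j))) i)
        (fun y => ⟨Function.update 1 i y, by simp⟩)
    haveI : NeZero (n i) := ⟨by have := hn i; omega⟩
    obtain ⟨k, hk⟩ := hp.exists_card_eq
    rw [show Nat.card (Multiplicative (ZMod (n i))) = n i from Nat.card_zmod (n i)] at hk
    refine ⟨k, hk, Nat.pos_of_ne_zero ?_⟩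
    rintro rfl
    have := hn i
    simp [hk] at this
  choose e he using h
  obtain rfl : n = fun i => p ^ e i := funext fun i => (he i).1
  exact ⟨ι, hι, e, fun i => (he i).2, ⟨f⟩⟩

/-- A repeated invariant gives a square factor. -/
theorem exists_square [Fact p.Prime] [Finite M] {ι : Type} [Fintype ι] {e : ι → ℕ}
    (f : M ≃* ((j : ι) → Multiplicative (ZMod (p ^ e j)))) {a b : ι} (hab : a ≠ b)
    (he : e a = e b) :
    ∃ (H : Type) (_ : CommGroup H), Nonempty (M ≃*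
      (Multiplicative (ZMod (p ^ e a)) × Multiplicative (ZMod (p ^ e a))) × H) := by
  classical
  let J := {j : ι // j ≠ a ∧ j ≠ b}
  let N := fun j => Multiplicative (ZMod (p ^ e j))
  let c : N b ≃* N a := by
    show Multiplicative (ZMod (p ^ e b)) ≃* Multiplicative (ZMod (p ^ e a))
    rw [he]
  refine ⟨(j : J) → N j.1, inferInstance, ⟨f.trans
    { toFun := fun x => ((x a, c (x b)), fun j => x j.1)
      invFun := fun q j => if ha : j = a then ha ▸ q.1.1 else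
        if hb : j = b then hb ▸ c.symm q.1.2 else q.2 ⟨j, ha, hb⟩
      left_inv := fun x => ?_
      right_inv := fun q => ?_
      map_mul' := fun x y => ?_ }⟩⟩
  · funext j
    dsimp only
    split_ifs with ha hb
    · subst ha; rfl
    · subst hb; exact c.symm_apply_apply _
    · rfl
  · obtain ⟨⟨q₁, q₂⟩, q₃⟩ := q
    dsimp only
    refine Prod.ext (Prod.ext ?_ ?_) ?_
    · simp
    · simp [hab.symm]
    · funext j
      simp [j.2.1, j.2.2]; rfl
  · refine Prod.ext (Prod.ext rfl ?_) rfl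
    show c (x b * y b) = c (x b) * c (y b)
    rw [map_mul]

end Cfsg.Agent.Lib.Fusion.AbelianLayer
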