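import Cfsg.Agent.Lib.Fusion.Supersoluble
import Cfsg.Agent.Lib.Fusion.SuperAbelianLayer

/-!
Abelian `p`-groups all of whose systems are supersoluble.
-/

set_option autoImplicit false

namespace Cfsg.Agent.Lib.Fusion.SuperAbelian

open Cfsg Cfsg.FusionSystem Supersoluble AbelianLayer

variable {Ω : Type*} [Group Ω] {S : Subgroup Ω} {F : FusionSystem S} {p : ℕ}

theorem natCast_pow_ne_zero [Fact p.Prime] {n : ℕ} (hn : 0 < n) : (1 : ZMod (p ^ n)) ≠ 0 := by
  haveI : Fact (1 < p ^ n) := ⟨Nat.one_lt_pow hn.ne' (Fact.out : p.Prime).one_lt⟩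
  exact one_ne_zero

/-- Automorphisms forbidding supersolubility of `(Z/p^n)^2 × H`. -/
theorem exists_bad [Fact p.Prime] {n : ℕ} (hn : 0 < n) (H : Type) [CommGroup H] :
    ∃ K : Subgroup (MulAut ((Multiplicative (ZMod (p ^ n)) × Multiplicative (ZMod (p ^ n))) × H)),
      (Nat.card K).Coprime p ∧ ¬ (IsMulCommutative K ∧ ∀ h ∈ K, h ^ (p - 1) = 1) := by
  have hp : p.Prime := Fact.out
  let one : Multiplicative (ZMod (p ^ n)) := Multiplicative.ofAdd 1
  have hone : one ≠ 1 := fun h => natCast_pow_ne_zero hn (congrArg Multiplicative.toAdd h :)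
  rcases hp.eq_two_or_odd' with rfl | hodd
  · -- an automorphism of order three
    let σ : MulAut ((Multiplicative (ZMod (2 ^ n)) × Multiplicative (ZMod (2 ^ n))) × H) :=
      { toFun := fun x => ((x.1.2, (x.1.1 * x.1.2)⁻¹), x.2)
        invFun := fun x => (((x.1.1 * x.1.2)⁻¹, x.1.1), x.2)
        left_inv := fun x => by simp
        right_inv := fun x => by simp
        map_mul' := fun x y => by simp [mul_comm, mul_left_comm, mul_assoc] }
    have h3 : σ ^ 3 = 1 := by
      refine MulEquiv.ext fun x => ?_
      show σ (σ (σ x)) = x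
      simp [σ]
    have hne : σ ≠ 1 := by
      intro h
      have h1 : σ ((one, 1), 1) = ((one, 1), 1) := by rw [h]; rfl
      exact hone (congrArg (fun x => x.1.1) h1).symm
    refine ⟨Subgroup.zpowers σ, ?_, fun hbad => hne ?_⟩
    · rw [Nat.card_zpowers]
      exact (show Nat.Coprime 3 2 by norm_num).coprime_dvd_left (orderOf_dvd_of_pow_eq_one h3)
    · simpa using hbad.2 σ (Subgroup.mem_zpowers σ)
  · -- a non-abelian group of order eight
    let τ : MulAut ((Multiplicative (ZMod (p ^ n)) × Multiplicative (ZMod (p ^ n))) × H) :=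
      { toFun := fun x => ((x.1.2, x.1.1), x.2)
        invFun := fun x => ((x.1.2, x.1.1), x.2)
        left_inv := fun x => rfl
        right_inv := fun x => rfl
        map_mul' := fun x y => rfl }
    let ν : MulAut ((Multiplicative (ZMod (p ^ n)) × Multiplicative (ZMod (p ^ n))) × H) :=
      { toFun := fun x => ((x.1.1⁻¹, x.1.2), x.2)
        invFun := fun x => ((x.1.1⁻¹, x.1.2), x.2)
        left_inv := fun x => by simp
        right_inv := fun x => by simp
        map_mul' := fun x y => by simp [mul_comm] }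
    -- the group they generate
    let act : Bool → Bool → Bool → MulAut ((Multiplicative (ZMod (p ^ n)) × Multiplicative (ZMod (p ^ n))) × H) := fun a b c =>
      (if a then ν else 1) * (if b then τ * ν * τ else 1) * (if c then τ else 1)
    let K : Subgroup (MulAut ((Multiplicative (ZMod (p ^ n)) × Multiplicative (ZMod (p ^ n))) × H)) :=
      { carrier := {σ | ∃ a b c, σ = act a b c}
        one_mem' := ⟨false, false, false, by simp [act]⟩
        mul_mem' := by
          rintro _ _ ⟨a, b, c, rfl⟩ ⟨a', b', c', rfl⟩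
          refine ⟨xor a (if c then b' else a'), xor b (if c then a' else b'), xor c c', ?_⟩
          refine MulEquiv.ext fun x => ?_
          cases a <;> cases b <;> cases c <;> cases a' <;> cases b' <;> cases c' <;>
            simp [act, τ, ν]
        inv_mem' := by
          rintro _ ⟨a, b, c, rfl⟩
          refine ⟨if c then b else a, if c then a else b, c, ?_⟩
          rw [inv_eq_iff_mul_eq_one]
          refine MulEquiv.ext fun x => ?_
          cases a <;> cases b <;> cases c <;> simp [act, τ, ν] }
    have : Finite K := Finite.of_surjective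
      (fun q : Bool × Bool × Bool => (⟨_, q.1, q.2.1, q.2.2, rfl⟩ : K))
      (fun ⟨_, a, b, c, h⟩ => ⟨(a, b, c), Subtype.ext h.symm⟩)
    have h4 : ∀ k : K, k ^ 4 = 1 := by
      rintro ⟨_, a, b, c, rfl⟩
      refine Subtype.ext (MulEquiv.ext fun x => ?_)
      show (act a b c ^ 4) x = x
      cases a <;> cases b <;> cases c <;> simp [act, τ, ν, pow_succ]
    haveI : Fact (Nat.Prime 2) := ⟨Nat.prime_two⟩
    refine ⟨K, ?_, fun hbad => ?_⟩
    · obtain ⟨m, hm⟩ := (show IsPGroup 2 K from fun k => ⟨2, h4 k⟩).exists_card_eq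
      rw [hm]
      exact (hodd.coprime_two_left).pow_left m
    · have hν : ν ∈ K := ⟨true, false, false, by simp [act]⟩
      have hτ : τ ∈ K := ⟨false, false, true, by simp [act]⟩
      have h := congrArg (fun k : K => (k : MulAut ((Multiplicative (ZMod (p ^ n)) × Multiplicative (ZMod (p ^ n))) × H)) ((one, 1), 1))
        (hbad.1.is_comm.comm ⟨ν, hν⟩ ⟨τ, hτ⟩)
      simp [τ, ν] at h
      have h2 : (2 : ZMod (p ^ n)) = 0 := by
        have h1 := congrArg Multiplicative.toAdd h
        simp [one, eq_neg_iff_add_eq_zero, neg_eq_iff_add_eq_zero] at h1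
        rwa [one_add_one_eq_two] at h1
      have h3 : p ^ n ∣ 2 := (ZMod.natCast_eq_zero_iff 2 _).1 (by exact_mod_cast h2)
      have h5 : p ∣ 2 := (dvd_pow_self p hn.ne').trans h3
      have := (Nat.prime_dvd_prime_iff_eq hp Nat.prime_two).1 h5
      subst this
      exact absurd hodd (by decide)

theorem slim_iff [Finite S] [Fact p.Prime] (hS : IsPGroup p S) (hab : IsMulCommutative S) :
    (∀ F : FusionSystem S, F.IsSaturated p → (∃ (m : ℕ) (c : Fin (m + 1) → Subgroup Ω),
      c 0 = ⊥ ∧ c (Fin.last m) = S ∧ (∀ i : Fin (m + 1), F.StronglyClosed (c i)) ∧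
        ∀ i : Fin m, c i.castSucc ≤ c i.succ ∧ ∃ x ∈ S, c i.succ = c i.castSucc ⊔ Subgroup.zpowers x)) ↔
      ¬ ∃ (n : ℕ) (H : Type) (_ : CommGroup H), 0 < n ∧ Nonempty (↥S ≃*
        (Multiplicative (ZMod (p ^ n)) × Multiplicative (ZMod (p ^ n))) × H) := by
  letI : CommGroup S := { (inferInstance : Group S) with mul_comm := hab.is_comm.comm }
  have hcomm : ∀ x ∈ S, ∀ y ∈ S, x * y = y * x := fun x hx y hy =>
    congrArg Subtype.val (hab.is_comm.comm (⟨x, hx⟩ : S) ⟨y, hy⟩)
  constructor
  · rintro h ⟨n, H, _, hn, ⟨f⟩⟩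
    obtain ⟨-, hA⟩ := (supersoluble_iff hS).1 h
    obtain ⟨K, hK, hbad⟩ := exists_bad (p := p) hn H
    obtain ⟨hc, he⟩ := hA (K.map (MulAut.congr f.symm).toMonoidHom) (by
      rwa [Subgroup.card_map_of_injective (f := (MulAut.congr f.symm).toMonoidHom) (MulAut.congr f.symm).injective])
    refine hbad ⟨⟨⟨fun a b => Subtype.ext ((MulAut.congr f.symm).injective ?_)⟩⟩, fun k hk =>
      (MulAut.congr f.symm).injective ?_⟩
    · rw [Subgroup.coe_mul, Subgroup.coe_mul, map_mul, map_mul]
      exact congrArg Subtype.val (hc.is_comm.comm (⟨_, a, a.2, rfl⟩ : K.map (MulAut.congr f.symm).toMonoidHom) ⟨_, b, b.2, rfl⟩)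
    · rw [map_pow, map_one]
      exact he _ ⟨k, hk, rfl⟩
  · intro hno F hF
    have hn : F.IsNormal S := isNormal_of_abelian hS hF stronglyClosed_self hcomm
    obtain ⟨ι, _, e, he, ⟨f⟩⟩ := exists_decomposition (p := p) (M := S) hS
    have hinj : Function.Injective e := by
      intro a b hab'
      by_contra hne
      obtain ⟨H, hH, hf⟩ := exists_square p f hne hab'
      exact hno ⟨e a, H, hH, he a, hf⟩
    have hslim : Slim p S := (slim_pi p e hinj).of_equiv p f
    -- invariant subgroups are strongly closed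
    have hclosed : ∀ W : Subgroup S, (∀ α : MulAut S, ∀ x ∈ W, α x ∈ W) →
        F.StronglyClosed (W.map S.subtype) := by
      intro W hW
      refine ⟨Subgroup.map_subtype_le _, fun R hR φ hφ x => ?_⟩
      have hRS : R ≤ S := hR.trans (Subgroup.map_subtype_le _)
      obtain ⟨α, -, hα⟩ := extend_of_normal hn hRS hφ
      obtain ⟨w, hw, hwx⟩ := hR x.2
      rw [← hα x]
      refine ⟨α (Subgroup.inclusion hRS x), hW α _ ?_, rfl⟩
      rwa [show Subgroup.inclusion hRS x = w from Subtype.ext hwx.symm]
    let C : ℕ → ℕ → Subgroup S := fun i k => (AbelianLayer.layer p S k).comap (powMonoidHom (p ^ i))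
    have hinvC : ∀ i k, ∀ α : MulAut S, ∀ x ∈ C i k, α x ∈ C i k := by
      intro i k α x hx
      show (α x) ^ p ^ i ∈ AbelianLayer.layer p S k
      rw [← map_pow]
      exact layer_map p α.toMonoidHom hx
    obtain ⟨N, hN⟩ := hS.exists_card_eq
    have hkill : ∀ x : S, x ^ p ^ N = 1 := fun x => hN ▸ pow_card_eq_one'
    have hCN : ∀ i, C i N = (powMonoidHom (p ^ i) : S →* S).ker := by
      intro i
      ext x
      constructor
      · rintro ⟨-, z, hz⟩
        exact (hz : z ^ p ^ N = x ^ p ^ i).symm.trans (hkill z)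
      · intro hx
        show x ^ p ^ i ∈ AbelianLayer.layer p S N
        rw [show x ^ p ^ i = 1 from hx]
        exact one_mem _
    have hC0 : ∀ i, C i 0 = (powMonoidHom (p ^ (i + 1)) : S →* S).ker := by
      intro i
      ext x
      constructor
      · rintro ⟨h, -⟩
        show x ^ p ^ (i + 1) = 1
        rw [pow_succ, pow_mul]
        exact h
      · intro hx
        refine ⟨?_, x ^ p ^ i, by simp⟩
        show (x ^ p ^ i) ^ p = 1
        rw [← pow_mul, ← pow_succ]
        exact hx
    have hser : ∀ i, PSeries F p ((C i N).map S.subtype) := by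
      intro i
      induction i with
      | zero =>
        rw [hCN, show (powMonoidHom (p ^ 0) : S →* S).ker = ⊥ from ?_, Subgroup.map_bot]
        · exact .bot
        · ext x; simp
      | succ i ih =>
        rw [hCN, ← hC0]
        suffices ∀ j, j ≤ N → PSeries F p ((C i (N - j)).map S.subtype) by simpa using this N le_rfl
        intro j
        induction j with
        | zero => intro _; simpa using ih
        | succ j ihj =>
          intro hj
          have hX := ihj (by omega)
          rw [show N - j = (N - (j + 1)) + 1 by omega] at hX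
          generalize N - (j + 1) = k at hX ⊢
          have hle : C i (k + 1) ≤ C i k := fun x hx => layer_succ_le p k hx
          by_cases heq : C i k ≤ C i (k + 1)
          · rwa [le_antisymm heq hle]
          obtain ⟨y, hy, hyn⟩ := SetLike.not_le_iff_exists.1 heq
          have hYe : (C i k).map S.subtype =
              (C i (k + 1)).map S.subtype ⊔ Subgroup.zpowers (y : Ω) := by
            refine le_antisymm ?_ (sup_le (Subgroup.map_mono hle)
              (Subgroup.zpowers_le.2 ⟨y, hy, rfl⟩))
            rintro _ ⟨z, hz, rfl⟩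
            obtain ⟨a, ha⟩ := hslim k (y ^ p ^ i) hy hyn (z ^ p ^ i) hz
            have h1 : z * (y ^ a)⁻¹ ∈ C i (k + 1) := by
              show (z * (y ^ a)⁻¹) ^ p ^ i ∈ AbelianLayer.layer p S (k + 1)
              rwa [mul_pow, inv_pow, ← pow_mul, mul_comm a, pow_mul]
            have h2 : (S.subtype (z * (y ^ a)⁻¹)) * (y : Ω) ^ a ∈
                (C i (k + 1)).map S.subtype ⊔ Subgroup.zpowers (y : Ω) :=
              Subgroup.mul_mem _ (Subgroup.mem_sup_left ⟨_, h1, rfl⟩)
                (Subgroup.mem_sup_right (Subgroup.npow_mem_zpowers _ a))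
            simpa using h2
          refine .step (y : Ω) hX (hclosed _ (hinvC i k)) y.2 hYe ⟨y ^ p, ?_, rfl⟩ ?_
          · show (y ^ p) ^ p ^ i ∈ AbelianLayer.layer p S (k + 1)
            rw [← pow_mul, mul_comm, pow_mul, show (y ^ p ^ i) ^ p = 1 from hy.1]
            exact one_mem _
          · intro g hg z hz
            rw [commutatorElement_eq_one_iff_mul_comm.2
              (hcomm g hg z (Subgroup.map_subtype_le _ hz))]
            exact one_mem _
    have htop : (C N N).map S.subtype = S := by
      rw [hCN, show (powMonoidHom (p ^ N) : S →* S).ker = ⊤ from top_le_iff.1 fun x _ => hkill x,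
        ← MonoidHom.range_eq_map, Subgroup.range_subtype]
    have hS' := hser N
    rw [htop] at hS'
    obtain ⟨m, c, h0, hl, hcl, hst⟩ := hS'.exists_chain
    refine ⟨m, fun i => c i, h0, hl, fun i => hcl i (by omega), fun i => ?_⟩
    obtain ⟨x, hx, hxe, -⟩ := (hst i i.2).1
    refine ⟨?_, x, hx, hxe⟩
    show c (i : ℕ) ≤ c ((i : ℕ) + 1)
    rw [hxe]
    exact le_sup_left

end Cfsg.Agent.Lib.Fusion.SuperAbelian
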