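import Cfsg.Agent.Lib.Fusion.HolomorphSystem
import Cfsg.Agent.Lib.Fusion.Chain
import Cfsg.Agent.Lib.Fusion.Invariant
import Cfsg.Agent.Lib.Hall.Huppert
import Cfsg.Agent.S0065

/-!
Supersoluble systems: series of strongly closed subgroups with factors of order `p`.
-/

set_option autoImplicit false

namespace Cfsg.Agent.Lib.Fusion.Supersoluble

open Cfsg Cfsg.FusionSystem
open scoped commutatorElement Pointwise

variable {Ω : Type*} [Group Ω] {S : Subgroup Ω} {F : FusionSystem S} {p : ℕ}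

/-- `C` is reached from `1` by strongly closed steps of order dividing `p`. -/
inductive PSeries (F : FusionSystem S) (p : ℕ) : Subgroup Ω → Prop
  | bot : PSeries F p ⊥
  | step {X Y : Subgroup Ω} (x : Ω) : PSeries F p X → F.StronglyClosed Y → x ∈ S →
      Y = X ⊔ Subgroup.zpowers x → x ^ p ∈ X → (∀ g ∈ S, ∀ y ∈ Y, ⁅g, y⁆ ∈ X) → PSeries F p Y

theorem PSeries.closed {X : Subgroup Ω} (h : PSeries F p X) : F.StronglyClosed X := by
  cases h with
  | bot => exact stronglyClosed_bot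
  | step x _ hY _ _ _ _ => exact hY

theorem PSeries.exists_chain {Y : Subgroup Ω} (h : PSeries F p Y) :
    ∃ (n : ℕ) (C : ℕ → Subgroup Ω), C 0 = ⊥ ∧ C n = Y ∧ (∀ i ≤ n, F.StronglyClosed (C i)) ∧
      ∀ i < n, (∃ x ∈ S, C (i + 1) = C i ⊔ Subgroup.zpowers x ∧ x ^ p ∈ C i) ∧
        ∀ g ∈ S, ∀ y ∈ C (i + 1), ⁅g, y⁆ ∈ C i := by
  induction h with
  | bot => exact ⟨0, fun _ => ⊥, rfl, rfl, fun _ _ => stronglyClosed_bot, fun i hi => by omega⟩
  | @step X Y x hX hY hxS hYe hxp hcomm ih =>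
    obtain ⟨n, C, h0, hn, hcl, hst⟩ := ih
    refine ⟨n + 1, fun i => if i ≤ n then C i else Y, by simp [h0], by simp,
      fun i hi => ?_, fun i hi => ?_⟩
    · dsimp only
      split_ifs with h
      · exact hcl i h
      · exact hY
    · dsimp only
      rcases Nat.lt_or_ge i n with h | h
      · rw [if_pos (by omega), if_pos (by omega)]
        exact hst i h
      · obtain rfl : i = n := by omega
        rw [if_neg (by omega), if_pos le_rfl, hn]
        exact ⟨⟨x, hxS, hYe, hxp⟩, hcomm⟩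

theorem subgroupOf_normal_of_closed [Finite S] {X : Subgroup Ω} (hX : F.StronglyClosed X) :
    (X.subgroupOf S).Normal :=
  ⟨fun n hn g => by
    show (g : Ω) * n * (g : Ω)⁻¹ ∈ X
    exact conj_mem_of_mem_normalizer (le_normalizer_of_stronglyClosed hX g.2) hn⟩

/-- A step of order `p` is central. -/
theorem commutator_step [Finite S] [Fact p.Prime] (hS : IsPGroup p S) {X Y : Subgroup Ω}
    (hX : F.StronglyClosed X) (hY : F.StronglyClosed Y) {x : Ω} (hxS : x ∈ S)
    (hYe : Y = X ⊔ Subgroup.zpowers x) (hxp : x ^ p ∈ X) : ∀ g ∈ S, ∀ y ∈ Y, ⁅g, y⁆ ∈ X := by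
  intro g hg y hy
  have hN := subgroupOf_normal_of_closed hX
  let π := QuotientGroup.mk' (X.subgroupOf S)
  let Z : Subgroup (S ⧸ X.subgroupOf S) := (Y.subgroupOf S).map π
  have hYn := subgroupOf_normal_of_closed hY
  have hZn : Z.Normal := hYn.map π (QuotientGroup.mk'_surjective _)
  have hXY : X ≤ Y := hYe ▸ le_sup_left
  have hle : Z ≤ Subgroup.zpowers (π ⟨x, hxS⟩) := by
    rintro _ ⟨⟨v, hvS⟩, hv, rfl⟩
    have hv' : v ∈ Y := hv
    rw [hYe, sup_comm] at hv'
    obtain ⟨_, ⟨k, rfl⟩, w, hw, hkw⟩ := mem_sup_of_normalizes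
      (Subgroup.zpowers_le.2 (le_normalizer_of_stronglyClosed hX hxS)) hv'
    change x ^ k * w = v at hkw
    refine ⟨k, ?_⟩
    show π ⟨x, hxS⟩ ^ k = π ⟨v, hvS⟩
    rw [← map_zpow]
    refine QuotientGroup.eq.2 ?_
    show ((x ^ k)⁻¹ * v : Ω) ∈ X
    rw [← hkw, inv_mul_cancel_left]
    exact hw
  have hxp1 : π ⟨x, hxS⟩ ^ p = 1 := by
    rw [← map_pow]
    exact (QuotientGroup.eq_one_iff _).2 hxp
  have hQ : IsPGroup p (S ⧸ X.subgroupOf S) := hS.to_quotient _
  have hnil : Group.IsNilpotent (S ⧸ X.subgroupOf S) := hQ.isNilpotent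
  have hcen : Z ≤ Subgroup.center _ := by
    by_cases hZ : Z = ⊥
    · rw [hZ]; exact bot_le
    have hcard : Nat.card Z = p := by
      have h1 : Nat.card Z ∣ p := (Subgroup.card_dvd_of_le hle).trans
        (by rw [Nat.card_zpowers]; exact orderOf_dvd_of_pow_eq_one hxp1)
      rcases (Nat.dvd_prime (Fact.out : p.Prime)).1 h1 with h | h
      · exact absurd (Subgroup.card_eq_one.1 h) hZ
      · exact h
    have h2 := S0065.inf_center_ne_bot hZn hZ
    rcases (Nat.dvd_prime (Fact.out : p.Prime)).1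
      (hcard ▸ Subgroup.card_dvd_of_le (inf_le_left : Z ⊓ Subgroup.center _ ≤ Z)) with h | h
    · exact absurd (Subgroup.card_eq_one.1 h) h2
    · exact (Subgroup.eq_of_le_of_card_ge inf_le_left (by rw [h, hcard])).ge.trans inf_le_right
  have hyS : y ∈ S := hY.1 hy
  have hzc := hcen ⟨⟨y, hyS⟩, hy, rfl⟩
  have h3 : π ⁅(⟨g, hg⟩ : S), (⟨y, hyS⟩ : S)⁆ = 1 := by
    rw [map_commutatorElement, commutatorElement_eq_one_iff_mul_comm]
    exact Subgroup.mem_center_iff.1 hzc _
  exact ((QuotientGroup.eq_one_iff (N := X.subgroupOf S) ⁅(⟨g, hg⟩ : S), (⟨y, hyS⟩ : S)⁆).1 h3 :)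

/-- A cyclic step between strongly closed subgroups refines into steps of order `p`. -/
theorem pSeries_cyclic [Finite S] [Fact p.Prime] (hS : IsPGroup p S) {X : Subgroup Ω}
    (hXp : PSeries F p X) :
    ∀ (k : ℕ) (x : Ω), x ∈ S → x ^ p ^ k ∈ X → F.StronglyClosed (X ⊔ Subgroup.zpowers x) →
      PSeries F p (X ⊔ Subgroup.zpowers x) := by
  have hX := hXp.closed
  intro k
  induction k with
  | zero =>
    intro x hx hxk _
    rw [pow_zero, pow_one] at hxk
    rwa [sup_eq_left.2 (Subgroup.zpowers_le.2 hxk)]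
  | succ k ih =>
    intro x hxS hxk hY
    by_cases hlow : x ^ p ^ k ∈ X
    · exact ih x hxS hlow hY
    have hN := subgroupOf_normal_of_closed hX
    let π := QuotientGroup.mk' (X.subgroupOf S)
    have hπ : ∀ (y : S), π y = 1 ↔ (y : Ω) ∈ X := fun y => QuotientGroup.eq_one_iff y
    have hord : orderOf (π ⟨x, hxS⟩) = p ^ (k + 1) := by
      refine orderOf_eq_prime_pow ?_ ?_
      · rw [← map_pow, hπ]; exact hlow
      · rw [← map_pow, hπ]; exact hxk
    let D : Subgroup Ω := X ⊔ Subgroup.zpowers (x ^ p)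
    have hDY : D ≤ X ⊔ Subgroup.zpowers x :=
      sup_le_sup_left (Subgroup.zpowers_le.2 (pow_mem (Subgroup.mem_zpowers x) p)) _
    -- `D` is detected by a power condition
    have hpowD : ∀ y ∈ D, y ^ p ^ k ∈ X := by
      intro y hy
      have hxpS : x ^ p ∈ S := S.pow_mem hxS p
      obtain ⟨_, ⟨j, rfl⟩, w, hw, rfl⟩ := mem_sup_of_normalizes
        (Subgroup.zpowers_le.2 (le_normalizer_of_stronglyClosed hX hxpS))
        (show y ∈ Subgroup.zpowers (x ^ p) ⊔ X by rwa [sup_comm])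
      have h : π ((⟨x, hxS⟩ ^ p) ^ j * ⟨w, hX.1 hw⟩) ^ p ^ k = 1 := by
        rw [map_mul, (hπ ⟨w, hX.1 hw⟩).2 hw, mul_one, map_zpow, map_pow, ← zpow_natCast,
          ← zpow_mul, mul_comm, zpow_mul, zpow_natCast, ← pow_mul, ← pow_succ',
          ← hord, pow_orderOf_eq_one, one_zpow]
      rw [← map_pow, hπ] at h
      exact h
    have hDpow : ∀ y ∈ X ⊔ Subgroup.zpowers x, y ^ p ^ k ∈ X → y ∈ D := by
      intro y hy hyk
      obtain ⟨_, ⟨j, rfl⟩, w, hw, rfl⟩ := mem_sup_of_normalizes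
        (Subgroup.zpowers_le.2 (le_normalizer_of_stronglyClosed hX hxS))
        (show y ∈ Subgroup.zpowers x ⊔ X by rwa [sup_comm])
      have h : π (⟨x, hxS⟩ ^ j * ⟨w, hX.1 hw⟩) ^ p ^ k = 1 := by
        rw [← map_pow, hπ]
        exact hyk
      rw [map_mul, (hπ ⟨w, hX.1 hw⟩).2 hw, mul_one, map_zpow, ← zpow_natCast, ← zpow_mul,
        ← orderOf_dvd_iff_zpow_eq_one, hord] at h
      have h' : (p : ℤ) ∣ j := by
        have h2 : (p : ℤ) ^ k * p ∣ (p : ℤ) ^ k * j := by
          rw [← pow_succ, mul_comm _ j]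
          exact_mod_cast h
        exact (mul_dvd_mul_iff_left (pow_ne_zero k (Int.natCast_ne_zero.2
          (Fact.out : p.Prime).ne_zero))).1 h2
      obtain ⟨i, rfl⟩ := h'
      refine D.mul_mem (Subgroup.mem_sup_right ⟨i, ?_⟩) (Subgroup.mem_sup_left hw)
      show (x ^ p) ^ i = x ^ ((p : ℤ) * i)
      rw [zpow_mul, zpow_natCast]
    have hDc : F.StronglyClosed D := by
      refine ⟨hDY.trans hY.1, fun R hR φ hφ z => hDpow _ (hY.2 R (hR.trans hDY) φ hφ z) ?_⟩
      rw [← map_pow]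
      exact map_mem_of_stronglyClosed hX hφ (z ^ p ^ k) (hpowD z (hR z.2))
    have hD : PSeries F p D :=
      ih (x ^ p) (S.pow_mem hxS p) (by rw [← pow_mul, ← pow_succ']; exact hxk) hDc
    have hYe : X ⊔ Subgroup.zpowers x = D ⊔ Subgroup.zpowers x := by
      refine le_antisymm (sup_le_sup_right le_sup_left _) (sup_le hDY le_sup_right)
    have hxD : x ^ p ∈ D := Subgroup.mem_sup_right (Subgroup.mem_zpowers _)
    exact .step x hD hY hxS hYe hxD (commutator_step hS hDc hY hxS hYe hxD)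

theorem pSeries_of_chain [Finite S] [Fact p.Prime] (hS : IsPGroup p S) {m : ℕ}
    (c : Fin (m + 1) → Subgroup Ω) (h0 : c 0 = ⊥) (hlast : c (Fin.last m) = S)
    (hcl : ∀ i, F.StronglyClosed (c i))
    (hstep : ∀ i : Fin m, c i.castSucc ≤ c i.succ ∧
      ∃ x ∈ S, c i.succ = c i.castSucc ⊔ Subgroup.zpowers x) : PSeries F p S := by
  suffices ∀ i, PSeries F p (c i) from hlast ▸ this (Fin.last m)
  intro i
  induction i using Fin.induction with
  | zero => rw [h0]; exact .bot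
  | succ i ih =>
    obtain ⟨-, x, hx, he⟩ := hstep i
    obtain ⟨k, hk⟩ := hS ⟨x, hx⟩
    have hk' : x ^ p ^ k = 1 := congrArg Subtype.val hk
    rw [he]
    exact pSeries_cyclic hS ih k x hx (by rw [hk']; exact one_mem _) (he ▸ hcl _)

theorem isNormal_of_pSeries [Finite S] [Fact p.Prime] (hS : IsPGroup p S) (hF : F.IsSaturated p)
    (h : PSeries F p S) : F.IsNormal S := by
  obtain ⟨n, C, h0, hn, hcl, hst⟩ := h.exists_chain
  exact isNormal_of_closed_chain hS hF stronglyClosed_self n C h0 hn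
    (fun i hi => hcl (i + 1) hi) fun i hi g hg y hy => (hst i hi).2 g hg y hy

/-- Automorphisms of `S` in a group of order prime to `p`, preserving a series with factors of
order dividing `p`, commute and have order dividing `p - 1`. -/
theorem abelian_exponent [Finite S] [Fact p.Prime] (hS : IsPGroup p S) (h : PSeries F p S)
    (H : Subgroup (MulAut S)) (hH : (Nat.card H).Coprime p) (hHF : H ≤ F.autGroup S) :
    IsMulCommutative H ∧ ∀ h ∈ H, h ^ (p - 1) = 1 := by
  have := finite_mulAut (S := S) (P := S) le_rfl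
  obtain ⟨n, C, h0, hn, hcl, hst⟩ := h.exists_chain
  let D : ℕ → Subgroup S := fun i => if i ≤ n then (C i).subgroupOf S else ⊤
  have hinv : ∀ α ∈ H, ∀ i, ∀ x ∈ D i, α x ∈ D i := by
    intro α hα i x hx
    simp only [D] at hx ⊢
    split_ifs at hx ⊢ with hi
    · exact map_mem_of_stronglyClosed (hcl i hi) ((mem_autGroup le_rfl).1 (hHF hα)) x hx
    · exact Subgroup.mem_top _
  have hD0 : D 0 = ⊥ := by simp only [D, Nat.zero_le, if_true, h0, Subgroup.bot_subgroupOf]
  have hDn : D n = ⊤ := by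
    simp only [D, le_rfl, if_true, hn, Subgroup.subgroupOf_self]
  obtain ⟨K, -, hKp, hK⟩ := chainStabilizer (p := p) H n D hD0 hDn hinv hS
  have hK1 : ∀ α : H, (∀ i < n, ∀ x ∈ D (i + 1), (α : MulAut S) x * x⁻¹ ∈ D i) → α = 1 := by
    intro α hα
    obtain ⟨k, hk⟩ := hKp ⟨α, (hK α).2 hα⟩
    exact eq_one_of_pGroup_coprime ⟨k, congrArg Subtype.val hk⟩
      (pow_card_eq_one' (x := α)) hH
  -- each factor is a scalar
  have hscal : ∀ i < n, ∀ y ∈ D (i + 1), (∀ α ∈ H, ((α ^ (p - 1) : MulAut S)) y * y⁻¹ ∈ D i) ∧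
      ∀ α ∈ H, ∀ γ ∈ H, ((α * γ * (γ * α)⁻¹ : MulAut S)) y * y⁻¹ ∈ D i := by
    intro i hi
    obtain ⟨⟨x, hxS, hYe, hxp⟩, -⟩ := hst i hi
    have hX := hcl i hi.le
    have hN := subgroupOf_normal_of_closed hX
    let π := QuotientGroup.mk' ((C i).subgroupOf S)
    have hDi : D i = (C i).subgroupOf S := if_pos hi.le
    have hD1 : D (i + 1) = (C (i + 1)).subgroupOf S := if_pos hi
    rw [hDi, hD1]
    have hπ : ∀ y : S, π y = 1 ↔ y ∈ (C i).subgroupOf S := fun y => QuotientGroup.eq_one_iff y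
    have hmove : ∀ α ∈ H, ∀ j ≤ n, ∀ y : S, (y : Ω) ∈ C j → ((α y : S) : Ω) ∈ C j :=
      fun α hα j hj y hy =>
        map_mem_of_stronglyClosed (hcl j hj) ((mem_autGroup le_rfl).1 (hHF hα)) y hy
    let x₀ : S := ⟨x, hxS⟩
    have hdec : ∀ y : S, (y : Ω) ∈ C (i + 1) →
        ∃ j : ℤ, ∃ w : S, (w : Ω) ∈ C i ∧ y = x₀ ^ j * w := by
      intro y hy
      rw [hYe, sup_comm] at hy
      obtain ⟨_, ⟨j, rfl⟩, w, hw, hjw⟩ := mem_sup_of_normalizes
        (Subgroup.zpowers_le.2 (le_normalizer_of_stronglyClosed hX hxS)) hy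
      exact ⟨j, ⟨w, hX.1 hw⟩, hw, Subtype.ext hjw.symm⟩
    have hxY : (x₀ : Ω) ∈ C (i + 1) := by
      show x ∈ C (i + 1)
      rw [hYe]
      exact Subgroup.mem_sup_right (Subgroup.mem_zpowers x)
    have hp1 : ∀ y : S, (y : Ω) ∈ C (i + 1) → π y ^ p = 1 := by
      intro y hy
      obtain ⟨j, w, hw, rfl⟩ := hdec y hy
      rw [map_mul, (hπ w).2 hw, mul_one, map_zpow, ← zpow_natCast, ← zpow_mul, mul_comm, zpow_mul,
        zpow_natCast, ← map_pow, (hπ _).2 hxp, one_zpow]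
    have hscalar : ∀ α ∈ H, ∃ a : ℤ, ∀ y : S, (y : Ω) ∈ C (i + 1) → π (α y) = π y ^ a := by
      intro α hα
      obtain ⟨a, w₀, hw₀, hx₀⟩ := hdec _ (hmove α hα (i + 1) hi x₀ hxY)
      refine ⟨a, fun y hy => ?_⟩
      obtain ⟨j, w, hw, rfl⟩ := hdec y hy
      rw [map_mul α, map_zpow α, hx₀, map_mul π, (hπ (α w)).2 (hmove α hα i hi.le w hw), mul_one,
        map_mul π, (hπ w).2 hw, mul_one, map_zpow π, map_zpow π, map_mul π, (hπ w₀).2 hw₀, mul_one,
        map_zpow π, ← zpow_mul, ← zpow_mul, mul_comm]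
    intro y hy
    refine ⟨fun α hα => ?_, fun α hα γ hγ => ?_⟩
    · obtain ⟨a, ha⟩ := hscalar α hα
      have hiter : ∀ (m : ℕ) (z : S), (z : Ω) ∈ C (i + 1) →
          π ((α ^ m) z) = π z ^ (a ^ m) := by
        intro m
        induction m with
        | zero => intro z _; simp
        | succ m ih =>
          intro z hz
          rw [pow_succ, MulAut.mul_apply, ih _ (hmove α hα (i + 1) hi z hz), ha z hz, ← zpow_mul,
            pow_succ']
      rw [← hπ, map_mul, map_inv, mul_inv_eq_one, hiter (p - 1) y hy]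
      by_cases hpa : (p : ℤ) ∣ a
      · have h1 : π (α y) = 1 := by
          obtain ⟨b, rfl⟩ := hpa
          rw [ha y hy, zpow_mul, zpow_natCast, hp1 y hy, one_zpow]
        have h2 := hmove α⁻¹ (inv_mem hα) i hi.le (α y) ((hπ _).1 h1)
        rw [MulAut.inv_apply_self] at h2
        rw [(hπ y).2 h2, one_zpow]
      · have hm : a ^ (p - 1) ≡ 1 [ZMOD p] := Int.ModEq.pow_card_sub_one_eq_one (Fact.out : p.Prime)
          (((Nat.prime_iff_prime_int.1 (Fact.out : p.Prime)).coprime_iff_not_dvd.2 hpa).symm)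
        obtain ⟨c, hc⟩ := hm.symm.dvd
        rw [show a ^ (p - 1) = (p : ℤ) * c + 1 by rw [← hc]; ring, zpow_add, zpow_mul,
          zpow_natCast, hp1 y hy, one_zpow, one_mul, zpow_one]
    · obtain ⟨a, ha⟩ := hscalar α hα
      obtain ⟨b, hb⟩ := hscalar γ hγ
      rw [← hπ, map_mul, map_inv, mul_inv_eq_one]
      have hy' := hmove (γ * α)⁻¹ (inv_mem (mul_mem hγ hα)) (i + 1) hi y hy
      obtain ⟨y', hy'e⟩ : ∃ y', y' = ((γ * α)⁻¹ : MulAut S) y := ⟨_, rfl⟩
      rw [← hy'e] at hy'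
      rw [MulAut.mul_apply, ← hy'e]
      have hye : y = γ (α y') := by
        rw [hy'e, ← MulAut.mul_apply, MulAut.apply_inv_self]
      rw [hye, MulAut.mul_apply, ha _ (hmove γ hγ (i + 1) hi y' hy'), hb _ hy',
        hb _ (hmove α hα (i + 1) hi y' hy'), ha _ hy', ← zpow_mul, ← zpow_mul, mul_comm]
  refine ⟨⟨⟨fun α γ => ?_⟩⟩, fun α hα => ?_⟩
  · have h1 := hK1 (α * γ * (γ * α)⁻¹) fun i hi x hx =>
      (hscal i hi x hx).2 α α.2 γ γ.2
    exact mul_inv_eq_one.1 h1
  · have h1 := hK1 (⟨α, hα⟩ ^ (p - 1)) fun i hi x hx => (hscal i hi x hx).1 α hα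
    exact congrArg Subtype.val h1

/-- Commuting operators of order dividing `p - 1` on a nontrivial group of exponent `p` have a
common eigenvector. -/
theorem exists_common_eigen [Fact p.Prime] {W : Type*} [CommGroup W] [Nontrivial W]
    (hexp : ∀ w : W, w ^ p = 1) (L : List (W →* W)) (hcomm : ∀ f ∈ L, ∀ g ∈ L, ∀ w, f (g w) = g (f w))
    (hord : ∀ f ∈ L, ∀ w, (⇑f)^[p - 1] w = w) :
    ∃ w : W, w ≠ 1 ∧ ∀ f ∈ L, ∃ a : ℕ, f w = w ^ a := by
  suffices H : ∀ M : List (W →* W), M ⊆ L → ∃ V : Subgroup W, V ≠ ⊥ ∧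
      (∀ f ∈ L, ∀ v ∈ V, f v ∈ V) ∧ ∀ f ∈ M, ∃ a : ℕ, ∀ v ∈ V, f v = v ^ a by
    obtain ⟨V, hV, -, hsc⟩ := H L (List.Subset.refl L)
    obtain ⟨v, hv, hv1⟩ := (Subgroup.bot_or_exists_ne_one V).resolve_left hV
    exact ⟨v, hv1, fun f hf => (hsc f hf).imp fun a ha => ha v hv⟩
  intro M
  induction M with
  | nil => exact fun _ => ⟨⊤, top_ne_bot, fun _ _ _ _ => Subgroup.mem_top _, fun f hf => by simp at hf⟩
  | cons f M ih =>
    intro hsub
    obtain ⟨hfL, hML⟩ := List.cons_subset.1 hsub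
    obtain ⟨V, hV, hinv, hsc⟩ := ih hML
    obtain ⟨v₀, hv₀, hv₀1⟩ := (Subgroup.bot_or_exists_ne_one V).resolve_left hV
    haveI : Nontrivial V := ⟨⟨⟨v₀, hv₀⟩, 1, fun h => hv₀1 (congrArg Subtype.val h)⟩⟩
    let φ : V →* V := (f.comp V.subtype).codRestrict V fun v => hinv f hfL v v.2
    have hit : ∀ (j : ℕ) (v : V), ((φ^[j] v : V) : W) = (⇑f)^[j] v := by
      intro j
      induction j with
      | zero => intro v; rfl
      | succ j ihj => intro v; rw [Function.iterate_succ_apply', Function.iterate_succ_apply', ← ihj]; rfl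
    obtain ⟨v, a, hv, hva⟩ := Lib.Hall.exists_eigen (p := p) (N := V)
      (fun v => Subtype.ext (hexp v)) φ (fun v => Subtype.ext ((hit _ v).trans (hord f hfL v)))
    let V' : Subgroup W :=
      { carrier := {w | w ∈ V ∧ f w = w ^ a}
        one_mem' := ⟨one_mem V, by simp⟩
        mul_mem' := fun {b c} hb hc => ⟨mul_mem hb.1 hc.1, by rw [map_mul, hb.2, hc.2, mul_pow]⟩
        inv_mem' := fun {b} hb => ⟨inv_mem hb.1, by rw [map_inv, hb.2, inv_pow]⟩ }
    refine ⟨V', fun h => hv ?_, ?_, ?_⟩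
    · have hm : (v : W) ∈ V' := ⟨v.2, congrArg Subtype.val hva⟩
      rw [h, Subgroup.mem_bot] at hm
      exact Subtype.ext hm
    · rintro g hg w ⟨hw, hwa⟩
      exact ⟨hinv g hg w hw, by rw [hcomm f hfL g hg w, hwa, map_pow]⟩
    · intro g hg
      rcases List.mem_cons.1 hg with rfl | hg
      · exact ⟨a, fun w hw => hw.2⟩
      · exact (hsc g hg).imp fun b hb w hw => hb w hw.1

/-- In a system with `S` normal whose automorphisms of order prime to `p` are abelian of exponent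
dividing `p - 1`, every closed proper subgroup extends by a step of order `p`. -/
theorem exists_step [Finite S] [Fact p.Prime] (hS : IsPGroup p S) (hn : F.IsNormal S)
    {H : Subgroup (MulAut S)} (hAF : F.autGroup S = Inn S ⊔ H) (hHF : H ≤ F.autGroup S)
    (hab : IsMulCommutative H) (hexp : ∀ h ∈ H, h ^ (p - 1) = 1) {X : Subgroup Ω}
    (hXp : PSeries F p X) (hXS : X < S) : ∃ Y, PSeries F p Y ∧ X < Y := by
  classical
  have := finite_mulAut (S := S) (P := S) le_rfl
  let := Fintype.ofFinite H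
  have hX := hXp.closed
  have hN := subgroupOf_normal_of_closed hX
  let N := X.subgroupOf S
  let π := QuotientGroup.mk' N
  have hπ : ∀ y : S, π y = 1 ↔ (y : Ω) ∈ X := fun y => QuotientGroup.eq_one_iff y
  have hQ : IsPGroup p (S ⧸ N) := hS.to_quotient _
  obtain ⟨s, hsS, hsX⟩ := SetLike.exists_of_lt hXS
  have hne : Nontrivial (S ⧸ N) := ⟨⟨π ⟨s, hsS⟩, 1, fun h => hsX ((hπ _).1 h)⟩⟩
  let W : Subgroup (S ⧸ N) :=
    { carrier := {w | w ∈ Subgroup.center (S ⧸ N) ∧ w ^ p = 1}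
      one_mem' := ⟨one_mem _, one_pow p⟩
      mul_mem' := fun {b c} hb hc => ⟨mul_mem hb.1 hc.1, by
        rw [(show Commute b c from (Subgroup.mem_center_iff.1 hb.1 c).symm).mul_pow, hb.2, hc.2,
          one_mul]⟩
      inv_mem' := fun {b} hb => ⟨inv_mem hb.1, by rw [inv_pow, hb.2, inv_one]⟩ }
  letI : CommGroup W :=
    { (inferInstance : Group W) with
      mul_comm := fun a b => Subtype.ext ((Subgroup.mem_center_iff.1 a.2.1 (b : S ⧸ N)).symm) }
  haveI : Nontrivial W := by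
    have hc : Nontrivial (Subgroup.center (S ⧸ N)) := hQ.center_nontrivial
    obtain ⟨k, hk⟩ := ((hQ.to_subgroup (Subgroup.center (S ⧸ N))).exists_card_eq)
    have hk0 : k ≠ 0 := fun h => by
      rw [h, pow_zero] at hk
      exact not_subsingleton (Subgroup.center (S ⧸ N))
        (Nat.card_eq_one_iff_unique.1 hk).1
    obtain ⟨z, hz⟩ := exists_prime_orderOf_dvd_card' (G := Subgroup.center (S ⧸ N)) p
      (hk ▸ dvd_pow_self p hk0)
    refine ⟨⟨⟨z, z.2, by rw [← Subgroup.coe_pow, ← hz, pow_orderOf_eq_one]; rfl⟩, 1, fun h => ?_⟩⟩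
    have h1 : z = 1 := Subtype.ext (congrArg (fun w : W => (w : S ⧸ N)) h :)
    rw [h1, orderOf_one] at hz
    exact (Fact.out : p.Prime).ne_one hz.symm
  have hmove : ∀ α ∈ H, ∀ y : S, (y : Ω) ∈ X → ((α y : S) : Ω) ∈ X := fun α hα y hy =>
    map_mem_of_stronglyClosed hX ((mem_autGroup le_rfl).1 (hHF hα)) y hy
  have hcong : ∀ α : H, N.map (α : MulAut S).toMonoidHom = N := fun α => by
    refine Subgroup.eq_of_le_of_card_ge ?_ (le_of_eq (Nat.card_congr
      (N.equivMapOfInjective _ (α : MulAut S).injective).toEquiv))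
    rintro _ ⟨y, hy, rfl⟩
    exact hmove α α.2 y hy
  let q : H → (S ⧸ N) ≃* (S ⧸ N) := fun α => QuotientGroup.congr N N (α : MulAut S) (hcong α)
  have hq : ∀ (α : H) (y : S), q α (π y) = π ((α : MulAut S) y) := fun α y => rfl
  have hqW : ∀ (α : H) (w : W), q α (w : S ⧸ N) ∈ W := by
    intro α w
    refine ⟨Subgroup.mem_center_iff.2 fun u => ?_, by rw [← map_pow, w.2.2, map_one]⟩
    obtain ⟨u', rfl⟩ := (q α).surjective u
    rw [← map_mul, ← map_mul, Subgroup.mem_center_iff.1 w.2.1 u']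
  let op : H → (W →* W) := fun α => ((q α).toMonoidHom.comp W.subtype).codRestrict W (hqW α)
  have hop : ∀ (α γ : H) (w : W), op α (op γ w) = op (α * γ) w := by
    intro α γ w
    obtain ⟨y, hy⟩ := QuotientGroup.mk'_surjective N (w : S ⧸ N)
    refine Subtype.ext ?_
    show q α (q γ (w : S ⧸ N)) = q (α * γ) (w : S ⧸ N)
    rw [← hy, hq, hq, hq]
    rfl
  have hiter : ∀ (α : H) (j : ℕ) (w : W), (⇑(op α))^[j] w = op (α ^ j) w := by
    intro α j
    induction j with
    | zero =>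
      intro w
      obtain ⟨y, hy⟩ := QuotientGroup.mk'_surjective N (w : S ⧸ N)
      refine Subtype.ext ?_
      show (w : S ⧸ N) = q (α ^ 0) (w : S ⧸ N)
      rw [← hy, hq, pow_zero]
      rfl
    | succ j ih => intro w; rw [Function.iterate_succ_apply', ih, hop, pow_succ']
  let L : List (W →* W) := (Finset.univ : Finset H).toList.map op
  obtain ⟨⟨w, hwc, hwp⟩, hw1, heig⟩ := exists_common_eigen (p := p) (W := W)
    (fun v => Subtype.ext v.2.2) L
    (fun f hf g hg v => by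
      obtain ⟨α, -, rfl⟩ := List.mem_map.1 hf
      obtain ⟨γ, -, rfl⟩ := List.mem_map.1 hg
      rw [hop, hop, hab.is_comm.comm])
    (fun f hf v => by
      obtain ⟨α, -, rfl⟩ := List.mem_map.1 hf
      rw [hiter, show α ^ (p - 1) = 1 from Subtype.ext (hexp α α.2), ← pow_zero α, ← hiter]
      rfl)
  obtain ⟨⟨x, hxS⟩, hx⟩ := QuotientGroup.mk'_surjective N w
  have hxp : x ^ p ∈ X := by
    refine (hπ (⟨x, hxS⟩ ^ p)).1 ?_
    rw [map_pow]
    exact (congrArg (· ^ p) hx).trans hwp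
  let Y := X ⊔ Subgroup.zpowers x
  have hxY : x ∈ Y := Subgroup.mem_sup_right (Subgroup.mem_zpowers x)
  have hYS : Y ≤ S := sup_le hXS.le (Subgroup.zpowers_le.2 hxS)
  have hcommX : ∀ g ∈ S, ∀ y ∈ Y, ⁅g, y⁆ ∈ X := by
    intro g hg y hy
    have hcy : π ⟨y, hYS hy⟩ ∈ Subgroup.center (S ⧸ N) := by
      have hle : Y.subgroupOf S ≤ (Subgroup.center (S ⧸ N)).comap π := by
        have hmap : Y ≤ ((Subgroup.center (S ⧸ N)).comap π).map S.subtype := by
          refine sup_le (fun z hz => ⟨⟨z, hXS.le hz⟩, ?_, rfl⟩) (Subgroup.zpowers_le.2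
            ⟨⟨x, hxS⟩, ?_, rfl⟩)
          · show π _ ∈ Subgroup.center _
            rw [(hπ _).2 hz]
            exact one_mem _
          · show π ⟨x, hxS⟩ ∈ Subgroup.center _
            rw [show π ⟨x, hxS⟩ = w from hx]
            exact hwc
        intro z hz
        obtain ⟨z', hz', hze⟩ := hmap hz
        rwa [show z = z' from Subtype.ext hze.symm]
      exact hle (x := ⟨y, hYS hy⟩) hy
    refine ((QuotientGroup.eq_one_iff (N := N) ⁅(⟨g, hg⟩ : S), (⟨y, hYS hy⟩ : S)⁆).1 ?_ :)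
    show π _ = 1
    rw [map_commutatorElement, commutatorElement_eq_one_iff_mul_comm]
    exact Subgroup.mem_center_iff.1 hcy _
  have hYinv : ∀ α ∈ F.autGroup S, ∀ y : S, (y : Ω) ∈ Y → ((α y : S) : Ω) ∈ Y := by
    have hle : F.autGroup S ≤ MulAction.stabilizer (MulAut S) (Y.subgroupOf S) := by
      rw [hAF, sup_le_iff]
      have key : ∀ α : MulAut S, (∀ y : S, (y : Ω) ∈ Y → ((α y : S) : Ω) ∈ Y) →
          α ∈ MulAction.stabilizer (MulAut S) (Y.subgroupOf S) := fun α h => by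
        rw [MulAction.mem_stabilizer_iff]
        refine Subgroup.eq_of_le_of_card_ge ?_ (le_of_eq
          (Nat.card_congr (Subgroup.equivSMul α (Y.subgroupOf S)).toEquiv))
        intro z hz
        rw [Subgroup.mem_smul_pointwise_iff_exists] at hz
        obtain ⟨y, hy, rfl⟩ := hz
        exact h y hy
      refine ⟨?_, fun α hα => key α ?_⟩
      · rintro _ ⟨g, rfl⟩
        refine key _ fun y hy => ?_
        have h1 := Y.mul_mem ((le_sup_left : X ≤ Y) (hcommX g g.2 y hy)) hy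
        show ((g * y * g⁻¹ : S) : Ω) ∈ Y
        rw [commutatorElement_def] at h1
        simpa [mul_assoc] using h1
      · intro y hy
        obtain ⟨a, ha⟩ := heig (op ⟨α, hα⟩) (List.mem_map.2 ⟨_, Finset.mem_toList.2
          (Finset.mem_univ _), rfl⟩)
        have hxa : ((α ⟨x, hxS⟩ : S) : Ω) ∈ Y := by
          have h1 : q ⟨α, hα⟩ w = w ^ a := congrArg Subtype.val ha
          rw [← hx, hq, ← map_pow] at h1
          have h2' : ((⟨x, hxS⟩ : S) ^ a)⁻¹ * α ⟨x, hxS⟩ ∈ N := QuotientGroup.eq.1 h1.symm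
          have h2 : (x ^ a)⁻¹ * ((α ⟨x, hxS⟩ : S) : Ω) ∈ X := h2'
          have h3 := Y.mul_mem (Y.pow_mem hxY a) ((le_sup_left : X ≤ Y) h2)
          rwa [mul_inv_cancel_left] at h3
        have hmap : Y ≤ ((Y.subgroupOf S).comap α.toMonoidHom).map S.subtype := by
          refine sup_le (fun z hz => ⟨⟨z, hXS.le hz⟩,
            (le_sup_left : X ≤ Y) (hmove α hα ⟨z, hXS.le hz⟩ hz), rfl⟩)
            (Subgroup.zpowers_le.2 ⟨⟨x, hxS⟩, hxa, rfl⟩)
        obtain ⟨z, hz, hze⟩ := hmap hy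
        rwa [show y = z from Subtype.ext hze.symm]
    intro α hα y hy
    have h1 := MulAction.mem_stabilizer_iff.1 (hle hα)
    exact h1.le (Subgroup.smul_mem_pointwise_smul y α _ hy)
  have hYc : F.StronglyClosed Y := by
    refine ⟨hYS, fun R hR φ hφ z => ?_⟩
    obtain ⟨α, hα, he⟩ := extend_of_normal hn (hR.trans hYS) hφ
    rw [← he z]
    exact hYinv α hα _ (hR z.2)
  refine ⟨Y, .step x hXp hYc hxS rfl hxp hcommX, lt_of_le_of_ne le_sup_left fun h => hw1 ?_⟩
  refine Subtype.ext ?_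
  show w = 1
  rw [← hx]
  exact (hπ _).2 (h ▸ hxY)

theorem pSeries_top [Finite S] [Fact p.Prime] (hS : IsPGroup p S) (hF : F.IsSaturated p)
    (hn : F.IsNormal S)
    (hA : ∀ H : Subgroup (MulAut S), (Nat.card H).Coprime p →
      IsMulCommutative H ∧ ∀ h ∈ H, h ^ (p - 1) = 1) : PSeries F p S := by
  classical
  have := finite_mulAut (S := S) (P := S) le_rfl
  obtain ⟨hA', hsyl⟩ := isFullyAutomized_iff.1 (saturated_autS hS hF)
  rw [autInducedBy_self] at hsyl
  let A := F.autGroup S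
  haveI : ((Inn S).subgroupOf A).Normal := by
    refine ⟨fun n hn a => ?_⟩
    obtain ⟨g, hg⟩ := hn
    refine ⟨(a : MulAut S) g, ?_⟩
    show MulAut.conj ((a : MulAut S) g) = (a : MulAut S) * (n : MulAut S) * (a : MulAut S)⁻¹
    rw [show (n : MulAut S) = MulAut.conj g from hg.symm]
    ext y
    simp
  have hcop : (Nat.card ((Inn S).subgroupOf A)).Coprime ((Inn S).subgroupOf A).index := by
    obtain ⟨k, hk⟩ := (isPGroup_subgroupOf (K := A) hsyl.2.1).exists_card_eq
    rw [hk]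
    exact ((Fact.out : p.Prime).coprime_iff_not_dvd.2 hsyl.2.2).pow_left k
  obtain ⟨H₀, hH₀⟩ := Subgroup.exists_right_complement'_of_coprime hcop
  have hH : (Nat.card (H₀.map A.subtype)).Coprime p := by
    rw [Subgroup.card_map_of_injective A.subtype_injective, ← hH₀.symm.index_eq_card]
    exact ((Fact.out : p.Prime).coprime_iff_not_dvd.2 hsyl.2.2).symm
  obtain ⟨hab, hexp⟩ := hA _ hH
  have hAF : F.autGroup S = Inn S ⊔ H₀.map A.subtype := by
    have h := congrArg (Subgroup.map A.subtype) hH₀.sup_eq_top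
    rw [Subgroup.map_sup, Subgroup.map_subgroupOf_eq_of_le (inn_le_autGroup le_rfl),
      ← MonoidHom.range_eq_map, Subgroup.range_subtype] at h
    exact h.symm
  have hfin : {X : Subgroup Ω | PSeries F p X}.Finite :=
    finite_subgroups_le.subset fun X hX => hX.closed.1
  obtain ⟨X, hX, hmax⟩ := Set.exists_max_image _ (fun X : Subgroup Ω => Nat.card X) hfin
    ⟨⊥, PSeries.bot⟩
  rcases hX.closed.1.eq_or_lt with h | h
  · exact h ▸ hX
  obtain ⟨Y, hY, hlt⟩ := exists_step hS hn hAF (Subgroup.map_subtype_le _) hab hexp hX h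
  have : Finite Y := finite_of_le hY.closed.1
  exact absurd (eq_of_le_card hlt.le (hmax Y hY)) hlt.ne

theorem supersoluble_iff [Finite S] [Fact p.Prime] (hS : IsPGroup p S) :
    (∀ F : FusionSystem S, F.IsSaturated p → (∃ (m : ℕ) (c : Fin (m + 1) → Subgroup Ω),
      c 0 = ⊥ ∧ c (Fin.last m) = S ∧ (∀ i : Fin (m + 1), F.StronglyClosed (c i)) ∧
        ∀ i : Fin m, c i.castSucc ≤ c i.succ ∧ ∃ x ∈ S, c i.succ = c i.castSucc ⊔ Subgroup.zpowers x)) ↔
      (∀ F : FusionSystem S, F.IsSaturated p → F.IsNormal S) ∧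
        ∀ H : Subgroup (MulAut S), (Nat.card H).Coprime p →
          IsMulCommutative H ∧ ∀ h ∈ H, h ^ (p - 1) = 1 := by
  constructor
  · intro h
    have key : ∀ F : FusionSystem S, F.IsSaturated p → PSeries F p S := fun F hF => by
      obtain ⟨m, c, h0, hl, hc, hs⟩ := h F hF
      exact pSeries_of_chain hS c h0 hl hc hs
    refine ⟨fun F hF => isNormal_of_pSeries hS hF (key F hF), fun H hH => ?_⟩
    obtain ⟨F, hF, hHF⟩ := exists_saturated_autGroup hS H hH
    exact abelian_exponent hS (key F hF) H hH hHF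
  · rintro ⟨hn, hA⟩ F hF
    obtain ⟨n, C, h0, hl, hcl, hst⟩ := (pSeries_top hS hF (hn F hF) hA).exists_chain
    refine ⟨n, fun i => C i, h0, hl, fun i => hcl i (by omega), fun i => ?_⟩
    obtain ⟨x, hx, he, -⟩ := (hst i i.2).1
    refine ⟨?_, x, hx, ?_⟩
    · show C (i : ℕ) ≤ C ((i : ℕ) + 1)
      rw [he]
      exact le_sup_left
    · exact he

end Cfsg.Agent.Lib.Fusion.Supersoluble
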